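import Cfsg.Agent.Depth.SDefs

/-!
# Depth (S5768): the sieve sums `G_k`, removing primes (`GH1`) and the comparison with harmonic sums
-/

set_option autoImplicit false

namespace Cfsg.Agent.Depth.S

open Finset

namespace GH

theorem sum_le_of_inj {α β : Type*} [DecidableEq β] (s : Finset α) (t : Finset β) (i : α → β)
    (f : α → ℝ) (g : β → ℝ) (hi : Set.InjOn i s) (hm : ∀ a ∈ s, i a ∈ t)
    (hfg : ∀ a ∈ s, f a ≤ g (i a)) (hg : ∀ b ∈ t, 0 ≤ g b) : ∑ a ∈ s, f a ≤ ∑ b ∈ t, g b := by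
  calc ∑ a ∈ s, f a ≤ ∑ a ∈ s, g (i a) := sum_le_sum hfg
    _ = ∑ b ∈ s.image i, g b := (sum_image (fun a ha b hb h => hi ha hb h)).symm
    _ ≤ ∑ b ∈ t, g b := sum_le_sum_of_subset_of_nonneg
        (fun b hb => by obtain ⟨a, ha, rfl⟩ := mem_image.1 hb; exact hm a ha) (fun b hb _ => hg b hb)

theorem one_lt_cast {p : ℕ} (hp : p.Prime) : (1 : ℝ) < p := by exact_mod_cast hp.one_lt

theorem pm_pos {p : ℕ} (hp : p.Prime) : (0 : ℝ) < (p : ℝ) - 1 := sub_pos.2 (one_lt_cast hp)

/-- `1/φ(d) = (1/d) ∏ p/(p-1)` -/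
theorem inv_tot {d : ℕ} (hd : 0 < d) :
    (1 : ℝ) / d.totient = 1 / d * ∏ p ∈ d.primeFactors, (p : ℝ) / (p - 1) := by
  have h := Nat.totient_mul_prod_primeFactors d
  have h1 : ((d.totient : ℝ) * ∏ p ∈ d.primeFactors, (p : ℝ)) = d * ∏ p ∈ d.primeFactors, ((p : ℝ) - 1) := by
    have h2 := congrArg (Nat.cast : ℕ → ℝ) h
    push_cast at h2
    rw [h2]
    congr 1
    refine prod_congr rfl fun p hp => ?_
    rw [Nat.cast_sub (Nat.prime_of_mem_primeFactors hp).one_le, Nat.cast_one]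
  have h3 : (0 : ℝ) < ∏ p ∈ d.primeFactors, ((p : ℝ) - 1) :=
    prod_pos fun p hp => pm_pos (Nat.prime_of_mem_primeFactors hp)
  have h4 : (0 : ℝ) < d.totient := by exact_mod_cast Nat.totient_pos.2 hd
  have h5 : (0 : ℝ) < d := by exact_mod_cast hd
  rw [prod_div_distrib]
  field_simp
  linarith

theorem Gs_nonneg (k : ℕ) (y : ℝ) : 0 ≤ Gs k y := sum_nonneg fun _ _ => by positivity

theorem Gs_mono_k {k k' : ℕ} (y : ℝ) (h : ∀ d : ℕ, d.Coprime k → d.Coprime k') : Gs k y ≤ Gs k' y := by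
  refine sum_le_sum_of_subset_of_nonneg (fun d hd => ?_) fun _ _ _ => by positivity
  rw [mem_filter] at hd ⊢
  exact ⟨hd.1, hd.2.1, h d hd.2.2⟩

/-- removing one prime -/
theorem Gs_le_mul (k p : ℕ) (hp : p.Prime) (y : ℝ) : Gs k y ≤ Gs (k * p) y * (p / (p - 1)) := by
  have hp1 := pm_pos hp
  have e : Gs (k * p) y * (p / (p - 1)) = Gs (k * p) y + 1 / (p - 1) * Gs (k * p) y := by
    field_simp
    ring
  rw [e]
  unfold Gs
  rw [← sum_filter_add_sum_filter_not _ (fun d => ¬ p ∣ d)]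
  refine add_le_add ?_ ?_
  · refine sum_le_sum_of_subset_of_nonneg (fun d hd => ?_) fun _ _ _ => by positivity
    simp only [mem_filter] at hd ⊢
    exact ⟨hd.1.1, hd.1.2.1, Nat.Coprime.mul_right hd.1.2.2 ((hp.coprime_iff_not_dvd.2 hd.2).symm)⟩
  · rw [mul_sum]
    refine sum_le_of_inj _ _ (fun d => d / p) _ _ ?_ ?_ ?_ fun _ _ => by positivity
    · intro a ha b hb hab
      simp only [coe_filter, mem_filter, not_not, Set.mem_ofPred_eq] at ha hb
      rw [← Nat.div_mul_cancel ha.2, ← Nat.div_mul_cancel hb.2]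
      exact congrArg (· * p) hab
    · intro d hd
      simp only [mem_filter, not_not, mem_Icc] at hd ⊢
      obtain ⟨⟨⟨h1, h2⟩, h3, h4⟩, m, rfl⟩ := hd
      rw [Nat.mul_div_cancel_left _ hp.pos]
      have h5 := Nat.squarefree_mul_iff.1 h3
      refine ⟨⟨Nat.pos_of_mul_pos_left h1, le_trans (Nat.le_mul_of_pos_left _ hp.pos) h2⟩, h5.2.2,
        Nat.Coprime.mul_right (Nat.Coprime.coprime_mul_left h4) h5.1.symm⟩
    · intro d hd
      simp only [mem_filter, not_not, mem_Icc] at hd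
      obtain ⟨⟨⟨h1, h2⟩, h3, h4⟩, m, rfl⟩ := hd
      rw [Nat.mul_div_cancel_left _ hp.pos]
      have h5 := Nat.squarefree_mul_iff.1 h3
      rw [Nat.totient_mul h5.1, Nat.totient_prime hp, Nat.cast_mul, Nat.cast_sub hp.one_le, Nat.cast_one,
        one_div_mul_one_div]

/-- removing a set of primes -/
theorem Gs_le_prod (k : ℕ) (T : Finset ℕ) (hT : ∀ p ∈ T, p.Prime) (y : ℝ) :
    Gs k y ≤ Gs (k * ∏ p ∈ T, p) y * ∏ p ∈ T, (p : ℝ) / (p - 1) := by
  induction T using Finset.induction_on with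
  | empty => simp
  | insert p T hp ih =>
    have h1 := ih fun q hq => hT q (mem_insert_of_mem hq)
    have hpp := hT p (mem_insert_self _ _)
    have h2 := Gs_le_mul (k * ∏ p ∈ T, p) p hpp y
    have h3 : (0 : ℝ) ≤ ∏ p ∈ T, (p : ℝ) / (p - 1) :=
      prod_nonneg fun q hq => div_nonneg (Nat.cast_nonneg _) (pm_pos (hT q (mem_insert_of_mem hq))).le
    rw [prod_insert hp, prod_insert hp, mul_comm p, ← mul_assoc k, ← mul_assoc]
    exact h1.trans (mul_le_mul_of_nonneg_right h2 h3)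

/-- the reciprocals of the numbers built from a set of primes -/
theorem smooth_le (N : ℕ) (T : Finset ℕ) (hT : ∀ p ∈ T, p.Prime) :
    ∑ m ∈ (Icc 1 N).filter (fun m => m.primeFactors ⊆ T), (1 : ℝ) / m ≤ ∏ p ∈ T, (p : ℝ) / (p - 1) := by
  induction T using Finset.induction_on with
  | empty =>
    have : (Icc 1 N).filter (fun m => m.primeFactors ⊆ ∅) ⊆ {1} := by
      intro m hm
      simp only [mem_filter, mem_Icc, subset_empty, Nat.primeFactors_eq_empty] at hm
      rw [mem_singleton]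
      omega
    refine (sum_le_sum_of_subset_of_nonneg this fun _ _ _ => by positivity).trans ?_
    simp
  | insert p T hp ih =>
    have h1 := ih fun q hq => hT q (mem_insert_of_mem hq)
    have hpp := hT p (mem_insert_self _ _)
    have hp1 := pm_pos hpp
    have hp0 : (0 : ℝ) < p := by linarith
    set X := ∑ m ∈ (Icc 1 N).filter (fun m => m.primeFactors ⊆ insert p T), (1 : ℝ) / m with hX
    have h2 : X ≤ (∏ p ∈ T, (p : ℝ) / (p - 1)) + 1 / p * X := by
      conv_lhs => rw [hX, ← sum_filter_add_sum_filter_not _ (fun d => ¬ p ∣ d)]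
      refine add_le_add (le_trans ?_ h1) ?_
      · refine sum_le_sum_of_subset_of_nonneg (fun d hd => ?_) fun _ _ _ => by positivity
        simp only [mem_filter] at hd ⊢
        refine ⟨hd.1.1, fun q hq => ?_⟩
        rcases mem_insert.1 (hd.1.2 hq) with rfl | h
        · exact absurd (Nat.dvd_of_mem_primeFactors hq) hd.2
        · exact h
      · rw [hX, mul_sum]
        refine sum_le_of_inj _ _ (fun d => d / p) _ _ ?_ ?_ ?_ fun _ _ => by positivity
        · intro a ha b hb hab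
          simp only [coe_filter, mem_filter, not_not, Set.mem_ofPred_eq] at ha hb
          rw [← Nat.div_mul_cancel ha.2, ← Nat.div_mul_cancel hb.2]
          exact congrArg (· * p) hab
        · intro d hd
          simp only [mem_filter, not_not, mem_Icc] at hd ⊢
          obtain ⟨⟨⟨h1, h2⟩, h3⟩, m, rfl⟩ := hd
          rw [Nat.mul_div_cancel_left _ hpp.pos]
          exact ⟨⟨Nat.pos_of_mul_pos_left h1, le_trans (Nat.le_mul_of_pos_left _ hpp.pos) h2⟩,
            (Nat.primeFactors_mono (Dvd.intro_left _ rfl) (by omega)).trans h3⟩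
        · intro d hd
          simp only [mem_filter, not_not, mem_Icc] at hd
          obtain ⟨-, m, rfl⟩ := hd
          rw [Nat.mul_div_cancel_left _ hpp.pos, Nat.cast_mul, one_div_mul_one_div]
    rw [prod_insert hp, div_mul_eq_mul_div, le_div_iff₀ hp1]
    have h3 := mul_le_mul_of_nonneg_left h2 hp0.le
    rw [mul_add, ← mul_assoc, mul_one_div_cancel hp0.ne'] at h3
    linarith

/-- harmonic sum over the integers coprime to `k` -/
noncomputable def HH (k N : ℕ) : ℝ := ∑ n ∈ (Icc 1 N).filter (fun n => n.Coprime k), (1 : ℝ) / n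

theorem HH_le_Gs (k : ℕ) (y : ℝ) : HH k ⌊y⌋₊ ≤ Gs k y := by
  unfold HH Gs
  set N := ⌊y⌋₊
  rw [← sum_fiberwise_of_maps_to (g := fun n : ℕ => ∏ p ∈ n.primeFactors, p)
    (t := (Icc 1 N).filter (fun d => Squarefree d ∧ d.Coprime k))]
  · refine sum_le_sum fun d hd => ?_
    simp only [mem_filter, mem_Icc] at hd
    rw [inv_tot hd.1.1]
    refine le_trans ?_ (mul_le_mul_of_nonneg_left
      (smooth_le N d.primeFactors fun p hp => Nat.prime_of_mem_primeFactors hp) (by positivity))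
    rw [mul_sum]
    have key : ∀ n ∈ ((Icc 1 N).filter (fun n => n.Coprime k)).filter
        (fun n => ∏ p ∈ n.primeFactors, p = d), 1 ≤ n ∧ n ≤ N ∧ d ∣ n ∧ n.primeFactors = d.primeFactors := by
      intro n hn
      simp only [mem_filter, mem_Icc] at hn
      refine ⟨hn.1.1.1, hn.1.1.2, hn.2 ▸ Nat.prod_primeFactors_dvd n, ?_⟩
      rw [← hn.2, Nat.primeFactors_prod_primeFactors]
    refine sum_le_of_inj _ _ (fun n => n / d) _ _ ?_ ?_ ?_ fun _ _ => by positivity
    · intro a ha b hb hab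
      rw [← Nat.div_mul_cancel (key a ha).2.2.1, ← Nat.div_mul_cancel (key b hb).2.2.1]
      exact congrArg (· * d) hab
    · intro n hn
      obtain ⟨h1, h2, ⟨m, rfl⟩, h4⟩ := key n hn
      simp only [mem_filter, mem_Icc]
      rw [Nat.mul_div_cancel_left _ hd.1.1, ← h4]
      exact ⟨⟨Nat.pos_of_mul_pos_left h1, le_trans (Nat.le_mul_of_pos_left _ hd.1.1) h2⟩,
        Nat.primeFactors_mono (Dvd.intro_left _ rfl) (by omega)⟩
    · intro n hn
      obtain ⟨h1, h2, ⟨m, rfl⟩, h4⟩ := key n hn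
      rw [Nat.mul_div_cancel_left _ hd.1.1, Nat.cast_mul, one_div_mul_one_div]
  · intro n hn
    simp only [mem_filter, mem_Icc] at hn ⊢
    have h1 := Nat.prod_primeFactors_dvd n
    refine ⟨⟨Nat.pos_of_dvd_of_pos h1 hn.1.1, (Nat.le_of_dvd hn.1.1 h1).trans hn.1.2⟩, ?_,
      Nat.Coprime.coprime_dvd_left h1 hn.2⟩
    refine Finset.squarefree_prod_of_pairwise_isCoprime ?_ ?_
    · intro p hp q hq hpq
      exact Nat.coprime_iff_isRelPrime.1 ((Nat.coprime_primes (Nat.prime_of_mem_primeFactors hp)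
        (Nat.prime_of_mem_primeFactors hq)).2 hpq)
    · intro p hp
      exact (Nat.prime_of_mem_primeFactors hp).squarefree

/-- `log R ≤ G_1(R)` -/
theorem log_le_Gs_one {R : ℝ} (hR : 1 ≤ R) : Real.log R ≤ Gs 1 R := by
  refine le_trans ?_ (HH_le_Gs 1 R)
  have h1 := log_add_one_le_harmonic ⌊R⌋₊
  have h2 : Real.log R ≤ Real.log ((⌊R⌋₊ + 1 : ℕ) : ℝ) :=
    Real.log_le_log (by linarith) (by push_cast; exact (Nat.lt_floor_add_one R).le)
  refine h2.trans (h1.trans (le_of_eq ?_))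
  unfold HH
  rw [harmonic_eq_sum_Icc, filter_true_of_mem fun n _ => Nat.coprime_one_right n]
  push_cast
  simp

end GH

open GH

theorem gh1 : GH1 := by
  intro q y hq
  have hT : ∀ p ∈ q.primeFactors.filter (fun p => 5 < p), p.Prime := fun p hp =>
    Nat.prime_of_mem_primeFactors (mem_filter.1 hp).1
  have h1 := Gs_le_prod 60 _ hT y
  have h2 : 0 < ff q := prod_pos fun p hp => div_pos (by exact_mod_cast (hT p hp).pos) (pm_pos (hT p hp))
  rw [div_le_iff₀ h2]
  refine h1.trans (mul_le_mul_of_nonneg_right (Gs_mono_k y fun d hd => ?_) h2.le)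
  refine Nat.Coprime.mul_right (Nat.Coprime.coprime_mul_right_right hd) ?_
  refine Nat.coprime_of_dvd fun p hp hpd hpq => ?_
  have h3 : p ∣ 60 * ∏ p ∈ q.primeFactors.filter (fun p => 5 < p), p := by
    by_cases h5 : 5 < p
    · exact Dvd.dvd.mul_left (dvd_prod_of_mem _ (mem_filter.2 ⟨Nat.mem_primeFactors.2 ⟨hp, hpq, hq.ne'⟩, h5⟩)) _
    · have := hp.two_le
      have h4 : p ≠ 4 := fun h => by subst h; norm_num at hp
      refine Dvd.dvd.mul_right ?_ _
      have : p ≤ 5 := by omega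
      interval_cases p <;> omega
  exact hp.one_lt.ne' (Nat.eq_one_of_dvd_coprimes hd hpd h3)

end Cfsg.Agent.Depth.S
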