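import Cfsg.Agent.Depth.SDefs

/-!
# Depth (S5768): `ex` and `nd` (helper50)
-/

set_option autoImplicit false

namespace Cfsg.Agent.Depth.S

open Finset Real

theorem ex_add (x y : ℝ) : ex (x + y) = ex x * ex y := by
  unfold ex
  rw [← Complex.exp_add]
  congr 1
  push_cast
  ring

theorem ex_zero : ex 0 = 1 := by simp [ex]

theorem ex_eq (x : ℝ) : ex x = Complex.exp (((2 * π * x : ℝ) : ℂ) * Complex.I) := by
  unfold ex
  congr 1
  push_cast
  ring

theorem norm_ex (x : ℝ) : ‖ex x‖ = 1 := by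
  rw [ex_eq, Complex.norm_exp_ofReal_mul_I]

theorem ex_ne_zero (x : ℝ) : ex x ≠ 0 := Complex.exp_ne_zero _

theorem ex_int (n : ℤ) : ex n = 1 := by
  unfold ex
  rw [← Complex.exp_int_mul_two_pi_mul_I n]
  congr 1
  push_cast
  ring

theorem ex_nat (n : ℕ) : ex n = 1 := by
  have := ex_int n
  rwa [Int.cast_natCast] at this

theorem ex_add_int (x : ℝ) (n : ℤ) : ex (x + n) = ex x := by rw [ex_add, ex_int, mul_one]

theorem ex_mul_neg (x : ℝ) : ex x * ex (-x) = 1 := by rw [← ex_add, add_neg_cancel, ex_zero]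

theorem ex_neg (x : ℝ) : ex (-x) = (ex x)⁻¹ := eq_inv_of_mul_eq_one_right (ex_mul_neg x)

theorem conj_ex (x : ℝ) : (starRingEnd ℂ) (ex x) = ex (-x) := by
  unfold ex
  rw [← Complex.exp_conj]
  congr 1
  simp [map_mul, Complex.conj_ofReal, map_ofNat]

theorem ex_sub (x y : ℝ) : ex (x - y) = ex x * (starRingEnd ℂ) (ex y) := by
  rw [conj_ex, sub_eq_add_neg, ex_add]

theorem ex_mul_nat (x : ℝ) (n : ℕ) : ex (x * n) = ex x ^ n := by
  induction n with
  | zero => simp [ex_zero]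
  | succ n ih => rw [Nat.cast_succ, mul_add, mul_one, ex_add, ih, pow_succ]

theorem norm_ex_sub_one (x : ℝ) : ‖ex x - 1‖ = 2 * |sin (π * x)| := by
  rw [ex_eq, mul_comm _ Complex.I, Complex.norm_exp_I_mul_ofReal_sub_one, Real.norm_eq_abs, abs_mul, abs_two]
  congr 3
  ring

theorem geom_mul (x : ℝ) (n : ℕ) : (∑ i ∈ range n, ex (x * i)) * (ex x - 1) = ex (x * n) - 1 := by
  simp only [ex_mul_nat]
  exact geom_sum_mul _ _

theorem norm_geom_mul_sin (x : ℝ) (n : ℕ) : ‖∑ i ∈ range n, ex (x * i)‖ * |sin (π * x)| ≤ 1 := by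
  have h := congrArg norm (geom_mul x n)
  rw [norm_mul, norm_ex_sub_one, norm_ex_sub_one] at h
  have := abs_sin_le_one (π * (x * n))
  linarith

theorem norm_geom_le_sin {x : ℝ} (h : sin (π * x) ≠ 0) (n : ℕ) :
    ‖∑ i ∈ range n, ex (x * i)‖ ≤ 1 / |sin (π * x)| := by
  rw [le_div_iff₀ (abs_pos.2 h)]
  exact norm_geom_mul_sin x n

theorem norm_geom_le (x : ℝ) (n : ℕ) : ‖∑ i ∈ range n, ex (x * i)‖ ≤ n := by
  refine (norm_sum_le _ _).trans ?_
  simp [norm_ex]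

theorem nd_nonneg (x : ℝ) : 0 ≤ nd x := abs_nonneg _

theorem nd_le_half (x : ℝ) : nd x ≤ 1 / 2 := abs_sub_round x

theorem nd_le (x : ℝ) (n : ℤ) : nd x ≤ |x - n| := round_le x n

theorem nd_le_abs (x : ℝ) : nd x ≤ |x| := by simpa using nd_le x 0

theorem nd_add_int (x : ℝ) (n : ℤ) : nd (x + n) = nd x := by
  unfold nd
  rw [round_add_intCast]
  push_cast
  congr 1
  ring

theorem nd_sub_int (x : ℝ) (n : ℤ) : nd (x - n) = nd x := by
  have := nd_add_int x (-n)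
  rwa [Int.cast_neg, ← sub_eq_add_neg] at this

theorem nd_neg (x : ℝ) : nd (-x) = nd x := by
  have h : ∀ y : ℝ, nd (-y) ≤ nd y := fun y => by
    refine (nd_le _ (-round y)).trans (le_of_eq ?_)
    unfold nd
    rw [← abs_neg]
    push_cast
    congr 1
    ring
  exact le_antisymm (h x) (by simpa using h (-x))

theorem nd_sub_comm (x y : ℝ) : nd (x - y) = nd (y - x) := by rw [← nd_neg, neg_sub]

theorem nd_add_le (x y : ℝ) : nd (x + y) ≤ nd x + nd y := by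
  refine (nd_le _ (round x + round y)).trans ?_
  unfold nd
  push_cast
  rw [show x + y - (round x + round y) = (x - round x) + (y - round y) by ring]
  exact abs_add_le _ _

theorem nd_sub_le (x y : ℝ) : nd (x - y) ≤ nd x + nd y := by
  rw [sub_eq_add_neg, ← nd_neg y]
  exact nd_add_le _ _

/-- `nd` is `1`-Lipschitz -/
theorem nd_sub_abs_le (x y : ℝ) : nd x - |y| ≤ nd (x + y) := by
  have h := nd_sub_le (x + y) y
  rw [add_sub_cancel_right] at h
  linarith [nd_le_abs y]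

theorem nd_int (n : ℤ) : nd n = 0 := by simp [nd]

theorem le_nd {x δ : ℝ} (h : ∀ n : ℤ, δ ≤ |x - n|) : δ ≤ nd x := h _

theorem le_nd_of_abs {x δ : ℝ} (h1 : δ ≤ |x|) (h2 : |x| ≤ 1 - δ) : δ ≤ nd x := by
  refine le_nd fun n => ?_
  rcases eq_or_ne n 0 with rfl | hn
  · simpa using h1
  · have h3 : (1 : ℝ) ≤ |(n : ℝ)| := by exact_mod_cast Int.one_le_abs hn
    have h4 := abs_sub_abs_le_abs_sub (n : ℝ) x
    rw [abs_sub_comm] at h4
    linarith

theorem nd_eq_abs {x : ℝ} (h : |x| ≤ 1 / 2) : nd x = |x| :=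
  le_antisymm (nd_le_abs x) (le_nd_of_abs le_rfl (by linarith))

theorem one_div_le_nd {q : ℕ} (hq : 0 < q) {a : ℤ} (h : ¬ (q : ℤ) ∣ a) : 1 / (q : ℝ) ≤ nd (a / q) := by
  refine le_nd fun n => ?_
  have h0 : (0 : ℝ) < q := by exact_mod_cast hq
  have h1 : a - n * q ≠ 0 := fun e => h ⟨n, by linarith⟩
  have h2 : (1 : ℝ) ≤ |((a - n * q : ℤ) : ℝ)| := by exact_mod_cast Int.one_le_abs h1
  have h3 : (a : ℝ) / q - n = ((a - n * q : ℤ) : ℝ) / q := by
    push_cast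
    field_simp
  rw [h3, abs_div, abs_of_pos h0]
  exact div_le_div_of_nonneg_right h2 h0.le

theorem abs_sin_eq (x : ℝ) : |sin (π * x)| = sin (π * nd x) := by
  have h1 : π * x = π * (x - round x) + (round x : ℤ) * π := by ring
  have h2 : |sin (π * x)| = |sin (π * (x - round x))| := by
    rw [h1, sin_add_int_mul_pi, abs_mul, abs_neg_one_zpow, one_mul]
  have h3 : 0 ≤ sin (π * nd x) :=
    sin_nonneg_of_nonneg_of_le_pi (mul_nonneg pi_pos.le (nd_nonneg x)) (by nlinarith [nd_le_half x, pi_pos])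
  rw [h2, ← abs_of_nonneg h3]
  unfold nd
  rcases abs_choice (x - round x) with h | h
  · rw [h]
  · rw [h, mul_neg, sin_neg, abs_neg]

theorem two_nd_le_sin (x : ℝ) : 2 * nd x ≤ |sin (π * x)| := by
  rw [abs_sin_eq]
  have h := mul_le_sin (x := π * nd x) (mul_nonneg pi_pos.le (nd_nonneg x)) (by nlinarith [nd_le_half x, pi_pos])
  have e : 2 / π * (π * nd x) = 2 * nd x := by field_simp
  rwa [e] at h

theorem norm_geom_mul_nd (x : ℝ) (n : ℕ) : ‖∑ i ∈ range n, ex (x * i)‖ * (2 * nd x) ≤ 1 :=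
  (mul_le_mul_of_nonneg_left (two_nd_le_sin x) (norm_nonneg _)).trans (norm_geom_mul_sin x n)

theorem norm_geom_le_nd {x : ℝ} (h : 0 < nd x) (n : ℕ) : ‖∑ i ∈ range n, ex (x * i)‖ ≤ 1 / (2 * nd x) := by
  rw [le_div_iff₀ (by positivity)]
  exact norm_geom_mul_nd x n

theorem ex_ne_one {x : ℝ} (h : 0 < nd x) : ex x ≠ 1 := by
  intro e
  have h1 := norm_ex_sub_one x
  rw [e, sub_self, norm_zero] at h1
  linarith [two_nd_le_sin x]

/-- orthogonality -/
theorem ortho {M : ℕ} (hM : 0 < M) (m : ℤ) :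
    ∑ k ∈ range M, ex ((m : ℝ) / M * k) = if (M : ℤ) ∣ m then (M : ℂ) else 0 := by
  have h0 : (M : ℝ) ≠ 0 := by exact_mod_cast hM.ne'
  split_ifs with h
  · obtain ⟨c, rfl⟩ := h
    have : ∀ k ∈ range M, ex ((((M : ℤ) * c : ℤ) : ℝ) / M * k) = 1 := fun k _ => by
      rw [← ex_int (c * k)]
      congr 1
      push_cast
      field_simp
    rw [sum_congr rfl this]
    simp
  · have h1 := geom_mul ((m : ℝ) / M) M
    rw [div_mul_cancel₀ _ h0, ex_int, sub_self] at h1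
    refine (mul_eq_zero.1 h1).resolve_right (sub_ne_zero.2 (ex_ne_one ?_))
    exact lt_of_lt_of_le (by positivity) (one_div_le_nd hM h)

theorem ortho' {M : ℕ} (hM : 0 < M) (m : ℤ) :
    ∑ k ∈ range M, ex ((k : ℝ) * m / M) = if (M : ℤ) ∣ m then (M : ℂ) else 0 := by
  rw [← ortho hM m]
  refine sum_congr rfl fun k _ => ?_
  congr 1
  ring

/-- the square of the norm as a complex number -/
theorem normSq_cast (z : ℂ) : ((‖z‖ ^ 2 : ℝ) : ℂ) = z * (starRingEnd ℂ) z := by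
  rw [Complex.mul_conj, Complex.normSq_eq_norm_sq]

/-- expanding the square -/
theorem normSq_sum {ι : Type*} (s : Finset ι) (x : ι → ℝ) (γ : ι → ℂ) (u : ℝ) :
    ((‖∑ r ∈ s, γ r * ex (x r * u)‖ ^ 2 : ℝ) : ℂ) =
      ∑ r ∈ s, ∑ r' ∈ s, γ r * (starRingEnd ℂ) (γ r') * ex ((x r - x r') * u) := by
  rw [normSq_cast, map_sum, sum_mul_sum]
  refine sum_congr rfl fun r _ => sum_congr rfl fun r' _ => ?_
  rw [sub_mul, ex_sub, map_mul]
  ring

/-- Cauchy-Schwarz -/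
theorem normSq_sum_le {ι : Type*} (s : Finset ι) (v : ι → ℂ) : ‖∑ r ∈ s, v r‖ ^ 2 ≤ s.card * ∑ r ∈ s, ‖v r‖ ^ 2 :=
  (pow_le_pow_left₀ (norm_nonneg _) (norm_sum_le _ _) 2).trans sq_sum_le_card_mul_sum_sq

end Cfsg.Agent.Depth.S
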