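import Cfsg.Agent.Depth.S.Basic

/-!
# Depth (S5768): Ramanujan sums and the sieve weight (helper50)

* `cR d n` : the Ramanujan sum; `cR_eq` (Möbius formula), `cR_coprime` (`= μ d`);
* `DD k R` : the sieve moduli; `alpha k R n`; `alpha_sifted` : `alpha (W j + c) = 1` for sifted `j`.
-/

set_option autoImplicit false

namespace Cfsg.Agent.Depth.S

open Finset Real ArithmeticFunction
open scoped ArithmeticFunction.Moebius

/-- the reduced residues -/
def Rs (d : ℕ) : Finset ℕ := (range d).filter fun s => d.Coprime s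

theorem mem_Rs {d s : ℕ} : s ∈ Rs d ↔ s < d ∧ d.Coprime s := by simp [Rs]

theorem card_Rs (d : ℕ) : (Rs d).card = d.totient := rfl

/-- every fraction `k / d` is a reduced fraction -/
theorem sum_reduced {M : Type*} [AddCommMonoid M] (F : ℝ → M) {d : ℕ} (hd : 0 < d) :
    ∑ e ∈ d.divisors, ∑ s ∈ Rs e, F ((s : ℝ) / e) = ∑ k ∈ range d, F ((k : ℝ) / d) := by
  rw [← sum_fiberwise_of_maps_to (s := range d) (t := d.divisors) (g := fun k => d / d.gcd k)
    fun k _ => Nat.mem_divisors.2 ⟨Nat.div_dvd_of_dvd (Nat.gcd_dvd_left _ _), hd.ne'⟩]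
  refine sum_congr rfl fun e he => ?_
  obtain ⟨g, rfl⟩ := Nat.dvd_of_mem_divisors he
  have he0 : 0 < e := Nat.pos_of_mul_pos_right hd
  have hg0 : 0 < g := Nat.pos_of_mul_pos_left hd
  refine sum_bij (fun s _ => s * g) (fun s hs => ?_) (fun s _ s' _ h => Nat.eq_of_mul_eq_mul_right hg0 h)
    (fun k hk => ?_) fun s _ => ?_
  · obtain ⟨h1, h2⟩ := mem_Rs.1 hs
    rw [mem_filter, mem_range, Nat.gcd_mul_right, h2, one_mul, Nat.mul_div_cancel _ hg0]
    exact ⟨Nat.mul_lt_mul_of_pos_right h1 hg0, rfl⟩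
  · rw [mem_filter, mem_range] at hk
    have h1 : (e * g).gcd k = g := by
      have h2 := Nat.div_mul_cancel (Nat.gcd_dvd_left (e * g) k)
      rw [hk.2] at h2
      exact Nat.eq_of_mul_eq_mul_left he0 h2
    obtain ⟨s, rfl⟩ : g ∣ k := h1 ▸ Nat.gcd_dvd_right _ _
    refine ⟨s, mem_Rs.2 ⟨?_, ?_⟩, mul_comm _ _⟩
    · have := hk.1
      rw [mul_comm e] at this
      exact lt_of_mul_lt_mul_left this (Nat.zero_le _)
    · rw [mul_comm g, Nat.gcd_mul_right] at h1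
      exact Nat.eq_of_mul_eq_mul_right hg0 (by rw [h1, one_mul])
  · have : (g : ℝ) ≠ 0 := by exact_mod_cast hg0.ne'
    rw [Nat.cast_mul, Nat.cast_mul, mul_div_mul_right _ _ this]

/-- Ramanujan sum -/
noncomputable def cR (d : ℕ) (n : ℤ) : ℂ := ∑ s ∈ Rs d, ex ((s : ℝ) / d * n)

theorem sum_cR {d : ℕ} (hd : 0 < d) (n : ℤ) :
    ∑ e ∈ d.divisors, cR e n = if (d : ℤ) ∣ n then (d : ℂ) else 0 := by
  rw [← ortho' hd n]
  refine (sum_reduced (fun x => ex (x * n)) hd).trans (sum_congr rfl fun k _ => ?_)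
  rw [div_mul_eq_mul_div]

theorem cR_eq {d : ℕ} (hd : 0 < d) (n : ℤ) :
    cR d n = ∑ x ∈ d.divisorsAntidiagonal, (μ x.1 : ℂ) * if (x.2 : ℤ) ∣ n then (x.2 : ℂ) else 0 := by
  have h := (sum_eq_iff_sum_smul_moebius_eq (f := fun e => cR e n)
    (g := fun d => if (d : ℤ) ∣ n then (d : ℂ) else 0)).1 (fun d hd => sum_cR hd n) d hd
  rw [← h]
  simp only [zsmul_eq_mul]

theorem cR_coprime {d : ℕ} (hd : 0 < d) {n : ℕ} (h : d.Coprime n) : cR d n = μ d := by
  rw [cR_eq hd, sum_eq_single (d, 1)]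
  · simp
  · intro x hx hne
    rw [if_neg, mul_zero]
    intro hdv
    obtain ⟨h1, -⟩ := Nat.mem_divisorsAntidiagonal.1 hx
    have h2 : x.2 = 1 := Nat.eq_one_of_dvd_coprimes h (Dvd.intro_left _ h1) (by exact_mod_cast hdv)
    exact hne (Prod.ext (by rw [← h1, h2, mul_one]) h2)
  · intro hx
    exact absurd (Nat.mem_divisorsAntidiagonal.2 ⟨mul_one d, hd.ne'⟩) hx

/-- the sieve moduli -/
noncomputable def DD (k : ℕ) (R : ℝ) : Finset ℕ := (Icc 1 ⌊R⌋₊).filter fun d => Squarefree d ∧ d.Coprime k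

theorem Gs_eq (k : ℕ) (R : ℝ) : Gs k R = ∑ d ∈ DD k R, (1 : ℝ) / d.totient := rfl

theorem mem_DD {k d : ℕ} {R : ℝ} (hR : 0 ≤ R) : d ∈ DD k R ↔ 0 < d ∧ (d : ℝ) ≤ R ∧ Squarefree d ∧ d.Coprime k := by
  rw [DD, mem_filter, mem_Icc, Nat.le_floor_iff hR, and_assoc]
  rfl

theorem one_le_Gs (k : ℕ) {R : ℝ} (hR : 1 ≤ R) : 1 ≤ Gs k R := by
  have h1 : 1 ∈ DD k R := (mem_DD (by linarith)).2 ⟨one_pos, by simpa using hR, squarefree_one, Nat.coprime_one_left k⟩
  have h2 := single_le_sum (f := fun d : ℕ => (1 : ℝ) / d.totient) (fun _ _ => by positivity) h1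
  rw [Nat.totient_one, Nat.cast_one, div_one] at h2
  exact h2

theorem coprime_of_sifted {W c k j d : ℕ} {R : ℝ} (hR : 0 ≤ R) (hj : Sifted W c k R j) (hd : d ∈ DD k R) :
    d.Coprime (W * j + c) := by
  obtain ⟨h0, h1, -, h2⟩ := (mem_DD hR).1 hd
  refine Nat.coprime_of_dvd fun p hp hpd => hj p hp ?_ fun hk => ?_
  · exact le_trans (by exact_mod_cast Nat.le_of_dvd h0 hpd) h1
  · exact hp.one_lt.ne' (Nat.eq_one_of_dvd_coprimes h2 hpd hk)

/-- the sieve weight -/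
noncomputable def alpha (k : ℕ) (R : ℝ) (n : ℤ) : ℂ := (∑ d ∈ DD k R, (μ d : ℂ) / d.totient * cR d n) / Gs k R

theorem sum_sifted {W c k j : ℕ} {R : ℝ} (hR : 0 ≤ R) (hj : Sifted W c k R j) :
    ∑ d ∈ DD k R, (μ d : ℂ) / d.totient * cR d ((W * j + c : ℕ) : ℤ) = Gs k R := by
  rw [Gs_eq, Complex.ofReal_sum]
  refine sum_congr rfl fun d hd => ?_
  obtain ⟨h0, -, h1, -⟩ := (mem_DD hR).1 hd
  have h2 : (μ d : ℂ) ^ 2 = 1 := by exact_mod_cast moebius_sq_eq_one_of_squarefree h1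
  rw [cR_coprime h0 (coprime_of_sifted hR hj hd), div_mul_eq_mul_div, ← pow_two, h2]
  push_cast
  rfl

theorem alpha_sifted {W c k j : ℕ} {R : ℝ} (hR : 1 ≤ R) (hj : Sifted W c k R j) :
    alpha k R ((W * j + c : ℕ) : ℤ) = 1 := by
  rw [alpha, sum_sifted (by linarith) hj, div_self]
  exact_mod_cast (lt_of_lt_of_le one_pos (one_le_Gs k hR)).ne'

theorem squarefree_lcm {a b : ℕ} (ha : Squarefree a) (hb : Squarefree b) : Squarefree (a.lcm b) := by
  refine Nat.squarefree_of_factorization_le_one (Nat.lcm_ne_zero ha.ne_zero hb.ne_zero) fun p => ?_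
  rw [Nat.factorization_lcm ha.ne_zero hb.ne_zero, Finsupp.sup_apply]
  exact sup_le (ha.natFactorization_le_one p) (hb.natFactorization_le_one p)

end Cfsg.Agent.Depth.S
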