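import Cfsg.Agent.Depth.S.LS
import Cfsg.Agent.Depth.S.Alpha

/-!
# Depth (S5768): the sampling lemma and the Brun-Titchmarsh bound (helper50)

* `lemS : LemS`, `bt : BT`.
-/

set_option autoImplicit false

namespace Cfsg.Agent.Depth.S

open Finset Real ArithmeticFunction
open scoped ArithmeticFunction.Moebius

theorem eq_of_frac {d d' s s' : ℕ} (h1 : d.Coprime s) (h2 : d'.Coprime s') (hd : 0 < d) (h : s * d' = s' * d) :
    d = d' ∧ s = s' := by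
  have e : d = d' := Nat.dvd_antisymm (h1.dvd_of_dvd_mul_left ⟨s', by rw [h, mul_comm]⟩)
    (h2.dvd_of_dvd_mul_left ⟨s, by rw [← h, mul_comm]⟩)
  subst e
  exact ⟨rfl, Nat.eq_of_mul_eq_mul_right hd h⟩

theorem dvd_of_class {qt m i i' : ℕ} (h1 : (qt : ℤ) ∣ (i : ℤ) - i') (h2 : i / qt % m = i' / qt % m) :
    ((m * qt : ℕ) : ℤ) ∣ (i : ℤ) - i' := by
  have e1 : i' % qt = i % qt := (Nat.modEq_iff_dvd.2 h1 : i' ≡ i [MOD qt])
  obtain ⟨u, hu⟩ : (m : ℤ) ∣ ((i / qt : ℕ) : ℤ) - ((i' / qt : ℕ) : ℤ) := Nat.modEq_iff_dvd.1 h2.symm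
  have e2 : (i : ℤ) = qt * ((i / qt : ℕ) : ℤ) + ((i % qt : ℕ) : ℤ) := by exact_mod_cast (Nat.div_add_mod i qt).symm
  have e3 : (i' : ℤ) = qt * ((i' / qt : ℕ) : ℤ) + ((i % qt : ℕ) : ℤ) := by
    rw [← e1]
    exact_mod_cast (Nat.div_add_mod i' qt).symm
  generalize ((i / qt : ℕ) : ℤ) = a at *
  generalize ((i' / qt : ℕ) : ℤ) = b at *
  generalize ((i % qt : ℕ) : ℤ) = c at *
  refine ⟨u, ?_⟩
  rw [e2, e3, Nat.cast_mul]
  linear_combination (qt : ℤ) * hu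

/-- the spacing of the points -/
theorem spacing {W k : ℕ} {R : ℝ} {a : ℤ} {q qt m n : ℕ} {β δ : ℝ} (hW : W ∣ k) (hR : 1 ≤ R) (hq : 0 < q)
    (hδ : 0 < δ) (ha : IsCoprime a (q : ℤ)) (h1 : q * R ^ 2 * (δ + |β| * n) ≤ 1)
    (h2 : ∀ m' r : ℕ, Squarefree r → r.Coprime k → q ∣ m' * r → qt ∣ m') (h3 : n ≤ m * qt ∨ δ ≤ |β| * qt * m)
    {i i' d d' s s' : ℕ} (hi : i < n) (hi' : i' < n) (hc : i / qt % m = i' / qt % m) (hd : d ∈ DD k R)
    (hd' : d' ∈ DD k R) (hs : s ∈ Rs d) (hs' : s' ∈ Rs d') (hne : ¬ (i = i' ∧ d = d' ∧ s = s')) :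
    δ ≤ nd (((a / q + β) * i + W * (s / d)) - ((a / q + β) * i' + W * (s' / d'))) := by
  obtain ⟨d0, dR, dS, dk⟩ := (mem_DD (by linarith)).1 hd
  obtain ⟨d0', dR', dS', dk'⟩ := (mem_DD (by linarith)).1 hd'
  obtain ⟨s1, s2⟩ := mem_Rs.1 hs
  obtain ⟨s1', s2'⟩ := mem_Rs.1 hs'
  have hLS := squarefree_lcm dS dS'
  have hLk : (d.lcm d').Coprime k := Nat.Coprime.coprime_dvd_left (Nat.lcm_dvd_mul d d') (Nat.Coprime.mul_left dk dk')
  have hLR : ((d.lcm d' : ℕ) : ℝ) ≤ R ^ 2 := by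
    have h4 : ((d.lcm d' : ℕ) : ℝ) ≤ (d : ℝ) * d' := by
      exact_mod_cast Nat.le_of_dvd (Nat.mul_pos d0 d0') (Nat.lcm_dvd_mul d d')
    rw [pow_two]
    exact h4.trans (mul_le_mul dR dR' (by positivity) (by linarith))
  have hL0 : 0 < d.lcm d' := Nat.lcm_pos d0 d0'
  obtain ⟨e, he⟩ := Nat.dvd_lcm_left d d'
  obtain ⟨e', he'⟩ := Nat.dvd_lcm_right d d'
  generalize d.lcm d' = L at *
  have q1 : (1 : ℝ) ≤ q := by exact_mod_cast hq
  have L0 : (0 : ℝ) < L := by exact_mod_cast hL0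
  have e0 : 0 < e := Nat.pos_of_mul_pos_left (he ▸ hL0)
  have e0' : 0 < e' := Nat.pos_of_mul_pos_left (he' ▸ hL0)
  have hβ : |β * ((i : ℝ) - i')| ≤ |β| * n := by
    rw [abs_mul]
    refine mul_le_mul_of_nonneg_left (abs_le.2 ⟨?_, ?_⟩) (abs_nonneg _)
    · have : (i' : ℝ) ≤ n := by exact_mod_cast hi'.le
      linarith [(Nat.cast_nonneg i : (0 : ℝ) ≤ i)]
    · have : (i : ℝ) ≤ n := by exact_mod_cast hi.le
      linarith [(Nat.cast_nonneg i' : (0 : ℝ) ≤ i')]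
  have hx : ((a / q + β) * i + W * (s / d) : ℝ) - ((a / q + β) * i' + W * (s' / d')) =
      ((a * ((i : ℤ) - i') * L + q * (W * ((s : ℤ) * e - s' * e')) : ℤ) : ℝ) / ((q * L : ℕ) : ℝ) +
        β * ((i : ℝ) - i') := by
    have r1 : (s : ℝ) / d = s * e / L := by
      rw [he, Nat.cast_mul, mul_div_mul_right _ _ (by exact_mod_cast e0.ne')]
    have r2 : (s' : ℝ) / d' = s' * e' / L := by
      rw [he', Nat.cast_mul, mul_div_mul_right _ _ (by exact_mod_cast e0'.ne')]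
    rw [r1, r2]
    push_cast
    field_simp
    ring
  have hsum : 0 ≤ δ + |β| * n := by positivity
  rw [hx]
  by_cases hdv : ((q * L : ℕ) : ℤ) ∣ a * ((i : ℤ) - i') * L + q * (W * ((s : ℤ) * e - s' * e'))
  · have h4 : (q : ℤ) ∣ ((i : ℤ) - i') * L := by
      have h5 := (Dvd.intro L (Nat.cast_mul q L).symm : (q : ℤ) ∣ ((q * L : ℕ) : ℤ)).trans hdv
      rw [dvd_add_left (dvd_mul_right _ _), mul_assoc] at h5
      exact ha.symm.dvd_of_dvd_mul_left h5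
    have h5 : (qt : ℤ) ∣ (i : ℤ) - i' := by
      rw [Int.natCast_dvd] at h4 ⊢
      rw [Int.natAbs_mul, Int.natAbs_natCast] at h4
      exact h2 _ L hLS hLk h4
    have h6 := dvd_of_class h5 hc
    by_cases hii : i = i'
    · exfalso
      subst hii
      rw [sub_self, mul_zero, zero_mul, zero_add, Nat.cast_mul,
        mul_dvd_mul_iff_left (by exact_mod_cast hq.ne' : (q : ℤ) ≠ 0)] at hdv
      have h7 : (L : ℤ) ∣ (s : ℤ) * e - s' * e' :=
        (Nat.isCoprime_iff_coprime.2 (hLk.coprime_dvd_right hW)).dvd_of_dvd_mul_left hdv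
      have h8 : s * e < L := he ▸ Nat.mul_lt_mul_of_pos_right s1 e0
      have h9 : s' * e' < L := he' ▸ Nat.mul_lt_mul_of_pos_right s1' e0'
      have h10 : s * e = s' * e' := by
        have h11 := Int.eq_zero_of_abs_lt_dvd h7 (by
          rw [← Nat.cast_mul, ← Nat.cast_mul, abs_lt]
          omega)
        rw [← Nat.cast_mul, ← Nat.cast_mul] at h11
        omega
      refine hne ⟨rfl, eq_of_frac s2 s2' d0 (Nat.eq_of_mul_eq_mul_right e0' ?_)⟩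
      calc s * d' * e' = s * (d * e) := by rw [mul_assoc, ← he', he]
        _ = s' * d * e' := by rw [mul_comm d, ← mul_assoc, h10]; ring
    · obtain ⟨N, hN⟩ := hdv
      have h7 : ((m * qt : ℕ) : ℤ) ≤ |(i : ℤ) - i'| := Int.le_of_dvd (abs_pos.2 (by omega)) ((dvd_abs _ _).2 h6)
      have h8 : δ ≤ |β| * qt * m := h3.resolve_left fun h => by
        have h9 : |(i : ℤ) - i'| < n := abs_lt.2 ⟨by omega, by omega⟩
        omega
      have h9 : (m : ℝ) * qt ≤ |(i : ℝ) - i'| := by exact_mod_cast h7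
      rw [hN, Int.cast_mul, Int.cast_natCast, mul_div_cancel_left₀ _ (by push_cast; positivity), add_comm, nd_add_int]
      refine le_nd_of_abs (h8.trans ?_) ?_
      · rw [abs_mul, mul_assoc, mul_comm (qt : ℝ)]
        exact mul_le_mul_of_nonneg_left h9 (abs_nonneg _)
      · have h10 : (1 : ℝ) ≤ q * R ^ 2 := one_le_mul_of_one_le_of_one_le q1 (one_le_pow₀ hR)
        nlinarith [mul_le_mul_of_nonneg_right h10 hsum]
  · refine le_trans ?_ (nd_sub_abs_le _ _)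
    have h4 := one_div_le_nd (Nat.mul_pos hq hL0) hdv
    have h5 : δ + |β| * n ≤ 1 / ((q * L : ℕ) : ℝ) := by
      rw [le_div_iff₀ (by push_cast; positivity), Nat.cast_mul, mul_comm]
      exact (mul_le_mul_of_nonneg_right (mul_le_mul_of_nonneg_left hLR (by positivity)) hsum).trans h1
    linarith

/-- the sieve gain for one class of indices -/
theorem one_class {W c k : ℕ} {R : ℝ} (hR : 1 ≤ R) {J : Finset ℕ} {j0 Y : ℕ}
    (hJ : ∀ j ∈ J, j0 ≤ j ∧ j < j0 + Y ∧ Sifted W c k R j) {ι : Type*} (I : Finset ι) (θ : ι → ℝ) (γ : ι → ℂ) {δ : ℝ}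
    (hδ : 0 < δ)
    (hsp : ∀ i ∈ I, ∀ i' ∈ I, ∀ d ∈ DD k R, ∀ d' ∈ DD k R, ∀ s ∈ Rs d, ∀ s' ∈ Rs d', ¬ (i = i' ∧ d = d' ∧ s = s') →
      δ ≤ nd ((θ i + W * (s / d)) - (θ i' + W * (s' / d')))) :
    ∑ j ∈ J, ‖∑ i ∈ I, γ i * ex (θ i * j)‖ ^ 2 ≤ (Y + 1.2 / δ + 2) / Gs k R * ∑ i ∈ I, ‖γ i‖ ^ 2 := by
  have hG : 0 < Gs k R := lt_of_lt_of_le one_pos (one_le_Gs k hR)
  have h := ls' (I ×ˢ (DD k R).sigma Rs) (fun p => θ p.1 + W * ((p.2.2 : ℝ) / p.2.1))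
    (fun p => γ p.1 * ((μ p.2.1 : ℂ) / p.2.1.totient * ex ((p.2.2 : ℝ) / p.2.1 * c))) j0 Y hδ (by
      rintro ⟨i, d, s⟩ hp ⟨i', d', s'⟩ hp' hne
      simp only [mem_product, mem_sigma] at hp hp'
      refine hsp i hp.1 i' hp'.1 d hp.2.1 d' hp'.2.1 s hp.2.2 s' hp'.2.2 ?_
      rintro ⟨rfl, rfl, rfl⟩
      exact hne rfl)
  have e1 : ∑ p ∈ I ×ˢ (DD k R).sigma Rs,
      ‖γ p.1 * ((μ p.2.1 : ℂ) / p.2.1.totient * ex ((p.2.2 : ℝ) / p.2.1 * c))‖ ^ 2 = Gs k R * ∑ i ∈ I, ‖γ i‖ ^ 2 := by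
    rw [sum_product, mul_sum]
    refine sum_congr rfl fun i _ => ?_
    rw [sum_sigma, Gs_eq, sum_mul]
    refine sum_congr rfl fun d hd => ?_
    obtain ⟨h0, -, h1, -⟩ := (mem_DD (by linarith)).1 hd
    have h2 : ‖(μ d : ℂ)‖ = 1 := by
      rw [Complex.norm_intCast]
      exact_mod_cast abs_moebius_eq_one_of_squarefree h1
    have h3 : (d.totient : ℝ) ≠ 0 := by exact_mod_cast (Nat.totient_pos.2 h0).ne'
    simp only [norm_mul, norm_div, norm_ex, h2, Complex.norm_natCast, sum_const, card_Rs, nsmul_eq_mul]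
    field_simp
  have e2 : ∀ j ∈ J, ∑ p ∈ I ×ˢ (DD k R).sigma Rs,
      γ p.1 * ((μ p.2.1 : ℂ) / p.2.1.totient * ex ((p.2.2 : ℝ) / p.2.1 * c)) *
        ex ((θ p.1 + W * ((p.2.2 : ℝ) / p.2.1)) * ((j : ℤ) : ℝ)) = Gs k R * ∑ i ∈ I, γ i * ex (θ i * j) := by
    intro j hj
    rw [sum_product, mul_sum]
    refine sum_congr rfl fun i _ => ?_
    rw [sum_sigma, ← sum_sifted (by linarith) (hJ j hj).2.2, sum_mul]
    refine sum_congr rfl fun d _ => ?_
    rw [cR, mul_sum, sum_mul]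
    refine sum_congr rfl fun s _ => ?_
    have e3 : (s : ℝ) / d * (((W * j + c : ℕ) : ℤ) : ℝ) = W * ((s : ℝ) / d) * j + (s : ℝ) / d * c := by
      push_cast
      ring
    rw [e3, Int.cast_natCast, add_mul, ex_add, ex_add]
    ring
  have h1 : Gs k R ^ 2 * ∑ j ∈ J, ‖∑ i ∈ I, γ i * ex (θ i * j)‖ ^ 2 ≤
      (Y + 1.2 / δ + 2) * (Gs k R * ∑ i ∈ I, ‖γ i‖ ^ 2) := by
    rw [← e1]
    refine le_trans ?_ h
    refine le_trans (le_of_eq ?_) (sum_le_sum_of_subset_of_nonneg (s := J.map Nat.castEmbedding) (fun j hj => ?_)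
      fun _ _ _ => by positivity)
    · rw [sum_map, mul_sum]
      refine sum_congr rfl fun j hj => ?_
      rw [Nat.castEmbedding_apply, e2 j hj, norm_mul, mul_pow, Complex.norm_real, Real.norm_eq_abs, sq_abs]
    · obtain ⟨j, hj', rfl⟩ := mem_map.1 hj
      have := hJ j hj'
      rw [Nat.castEmbedding_apply, mem_Ico]
      omega
  refine le_of_mul_le_mul_left (h1.trans (le_of_eq ?_)) (pow_pos hG 2)
  field_simp

theorem lemS : LemS := by
  intro W c k R J j0 Y a q qt m n β δ γ hW hR hq hqt hm hδ ha hJ h1 h2 h3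
  have hG : 0 < Gs k R := lt_of_lt_of_le one_pos (one_le_Gs k hR)
  have hmap : ∀ i ∈ range n, i / qt % m ∈ range m := fun i _ => mem_range.2 (Nat.mod_lt _ hm)
  calc ∑ j ∈ J, ‖∑ i ∈ range n, γ i * ex ((a / q + β) * i * j)‖ ^ 2
      ≤ ∑ j ∈ J, m * ∑ l ∈ range m, ‖∑ i ∈ range n with i / qt % m = l, γ i * ex ((a / q + β) * i * j)‖ ^ 2 := by
        refine sum_le_sum fun j _ => ?_
        rw [← sum_fiberwise_of_maps_to hmap]
        simpa only [card_range] using normSq_sum_le (range m) _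
    _ = m * ∑ l ∈ range m, ∑ j ∈ J, ‖∑ i ∈ range n with i / qt % m = l, γ i * ex ((a / q + β) * i * j)‖ ^ 2 := by
        rw [← mul_sum, sum_comm]
    _ ≤ m * ∑ l ∈ range m, (Y + 1.2 / δ + 2) / Gs k R * ∑ i ∈ range n with i / qt % m = l, ‖γ i‖ ^ 2 := by
        refine mul_le_mul_of_nonneg_left (sum_le_sum fun l _ => ?_) (by positivity)
        refine one_class hR hJ _ (fun i : ℕ => (a / q + β) * i) γ hδ fun i hi i' hi' d hd d' hd' s hs s' hs' hne => ?_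
        rw [mem_filter, mem_range] at hi hi'
        exact spacing hW hR hq hδ ha h1 h2 h3 hi.1 hi'.1 (hi.2.trans hi'.2.symm) hd hd' hs hs' hne
    _ = _ := by
        rw [← mul_sum, sum_fiberwise_of_maps_to hmap]
        ring

theorem bt : BT := by
  intro W c k R J j0 Y hW hR hJ
  have h0 : 0 < R ^ 2 := by positivity
  have h := lemS W c k R J j0 Y 0 1 1 1 1 0 (1 / R ^ 2) (fun _ => 1) hW hR one_pos one_pos one_pos (by positivity)
    isCoprime_one_right hJ (by simp [h0.ne']) (fun _ _ _ _ _ => one_dvd _) (Or.inl le_rfl)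
  simpa [norm_ex] using h

end Cfsg.Agent.Depth.S
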