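import Cfsg.Agent.Depth.S.Basic

/-!
# Depth (S5768): Parseval, Ramanujan sums, positive kernels (helper58)

* `parseval_gen`, `parseval` : Parseval on `ℤ / M`;
* `LPa.ram_mul` : Ramanujan sums are multiplicative;
* `LPa.psd_prod` : the kernel `c_q (u - v) ∏ (c_p (u - v) - 1 / (p - 1))` is positive on a sifted set.
-/

set_option autoImplicit false

namespace Cfsg.Agent.Depth.S

open Finset
open scoped ComplexConjugate

/-- **Parseval** for complex coefficients at integers which are different modulo `M` -/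
theorem parseval_gen {ι : Type*} (s : Finset ι) (n : ι → ℤ) (γ : ι → ℂ) {M : ℕ} (hM : 0 < M)
    (h : ∀ i ∈ s, ∀ j ∈ s, (M : ℤ) ∣ n i - n j → i = j) (x0 : ℝ) :
    ∑ k ∈ range M, ‖∑ i ∈ s, γ i * ex ((x0 + k / M) * n i)‖ ^ 2 = M * ∑ i ∈ s, ‖γ i‖ ^ 2 := by
  classical
  have h1 : ∀ k ∈ range M, ((‖∑ i ∈ s, γ i * ex ((x0 + k / M) * n i)‖ ^ 2 : ℝ) : ℂ) =
      ∑ i ∈ s, ∑ j ∈ s, γ i * conj (γ j) * ex (x0 * (n i - n j)) * ex ((k : ℝ) * (n i - n j : ℤ) / M) := by
    intro k _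
    rw [sum_congr rfl fun i _ => by rw [mul_comm (x0 + k / M)], normSq_sum]
    refine sum_congr rfl fun i _ => sum_congr rfl fun j _ => ?_
    rw [mul_assoc (γ i * conj (γ j)), ← ex_add]
    congr 2
    push_cast
    ring
  apply Complex.ofReal_injective
  rw [Complex.ofReal_sum, sum_congr rfl h1, sum_comm, Complex.ofReal_mul, Complex.ofReal_sum, mul_sum]
  refine sum_congr rfl fun i hi => ?_
  rw [sum_comm, sum_eq_single i]
  · rw [← mul_sum, ortho' hM, sub_self, sub_self, if_pos (dvd_zero _), mul_zero, ex_zero, normSq_cast]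
    push_cast
    ring
  · intro j hj hji
    rw [← mul_sum, ortho' hM, if_neg fun e => hji (h i hi j hj e).symm, mul_zero]
  · exact fun e => absurd hi e

/-- **Parseval** on an interval of length at most `M` -/
theorem parseval_Ico (j0 : ℤ) {Y M : ℕ} (hM : 0 < M) (hY : Y ≤ M) (γ : ℤ → ℂ) (x0 : ℝ) :
    ∑ k ∈ range M, ‖∑ j ∈ Ico j0 (j0 + Y), γ j * ex ((x0 + k / M) * j)‖ ^ 2 =
      M * ∑ j ∈ Ico j0 (j0 + Y), ‖γ j‖ ^ 2 := by
  refine parseval_gen _ (fun j => j) γ hM (fun i hi j hj e => ?_) x0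
  rw [mem_Ico] at hi hj
  have := Int.eq_zero_of_abs_lt_dvd e (abs_lt.2 ⟨by omega, by omega⟩)
  omega

/-- **Parseval** on `range n`, `n ≤ M` -/
theorem parseval_range {n M : ℕ} (hM : 0 < M) (hn : n ≤ M) (γ : ℕ → ℂ) (x0 : ℝ) :
    ∑ k ∈ range M, ‖∑ u ∈ range n, γ u * ex ((x0 + k / M) * u)‖ ^ 2 = M * ∑ u ∈ range n, ‖γ u‖ ^ 2 := by
  have h := parseval_gen (range n) (fun j => (j : ℤ)) γ hM (fun i hi j hj e => ?_) x0
  · simpa only [Int.cast_natCast] using h
  · rw [mem_range] at hi hj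
    have := Int.eq_zero_of_abs_lt_dvd e (abs_lt.2 ⟨by omega, by omega⟩)
    omega

/-- **Parseval** for `SS` -/
theorem parseval {M : ℕ} (hM : 0 < M) (a : ℕ → ℝ) (x0 : ℝ) :
    ∑ k ∈ range M, ‖SS M a (x0 + k / M)‖ ^ 2 = M * ∑ u ∈ range M, a u ^ 2 := by
  have h := parseval_range hM le_rfl (fun u => (a u : ℂ)) x0
  simpa only [SS, Complex.norm_real, Real.norm_eq_abs, sq_abs] using h

namespace LPa

/-- the reduced residues -/
def Rq (q : ℕ) : Finset ℕ := (range q).filter fun b => b.Coprime q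

theorem card_Rq (q : ℕ) : (Rq q).card = q.totient := by
  rw [Nat.totient_eq_card_coprime, Rq]
  simp only [Nat.coprime_comm]

/-- the Ramanujan sum -/
noncomputable def ram (q : ℕ) (n : ℤ) : ℂ := ∑ b ∈ Rq q, ex (b / q * n)

theorem ram_one (n : ℤ) : ram 1 n = 1 := by
  have : Rq 1 = {0} := by decide
  simp [ram, this, ex_zero]

theorem ram_mul {q r : ℕ} (hq : 0 < q) (hr : 0 < r) (h : q.Coprime r) (n : ℤ) : ram (q * r) n = ram q n * ram r n := by
  have hinj : Set.InjOn (fun x : ℕ × ℕ => (x.1 * r + x.2 * q) % (q * r)) (Rq q ×ˢ Rq r : Finset (ℕ × ℕ)) := by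
    rintro ⟨a, b⟩ h1 ⟨a', b'⟩ h2 e
    simp only [Rq, coe_product, coe_filter, mem_range, Set.mem_prod, Set.mem_ofPred_eq] at h1 h2
    have e' : a * r + b * q ≡ a' * r + b' * q [MOD q * r] := e
    have e1 : a * r ≡ a' * r [MOD q] := by
      have := e'.of_mul_right r
      simpa only [Nat.ModEq, Nat.add_mul_mod_self_right] using this
    have e2 : b * q ≡ b' * q [MOD r] := by
      have := e'.of_mul_left q
      simpa only [Nat.ModEq, Nat.mul_add_mod_self_right] using this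
    exact Prod.ext ((e1.cancel_right_of_coprime h).eq_of_lt_of_lt h1.1.1 h2.1.1)
      ((e2.cancel_right_of_coprime h.symm).eq_of_lt_of_lt h1.2.1 h2.2.1)
  have him : (Rq q ×ˢ Rq r).image (fun x : ℕ × ℕ => (x.1 * r + x.2 * q) % (q * r)) = Rq (q * r) := by
    refine eq_of_subset_of_card_le (image_subset_iff.2 fun x hx => ?_) ?_
    · simp only [Rq, mem_product, mem_filter, mem_range] at hx ⊢
      refine ⟨Nat.mod_lt _ (Nat.mul_pos hq hr), ?_⟩
      rw [Nat.Coprime, ← Nat.gcd_rec, Nat.gcd_comm]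
      refine Nat.Coprime.mul_right ?_ ?_
      · exact (Nat.coprime_add_mul_right_left _ _ _).2 (hx.1.2.mul_left h.symm)
      · rw [add_comm]
        exact (Nat.coprime_add_mul_right_left _ _ _).2 (hx.2.2.mul_left h)
    · rw [card_image_of_injOn hinj, card_product, card_Rq, card_Rq, card_Rq, Nat.totient_mul h]
  rw [ram, ← him, sum_image hinj, ram, ram, sum_mul_sum, sum_product]
  refine sum_congr rfl fun a _ => sum_congr rfl fun b _ => ?_
  rw [← ex_add, ← ex_add_int _ (((a * r + b * q) / (q * r) : ℕ) * n)]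
  congr 1
  have h1 : (((a * r + b * q) % (q * r) : ℕ) : ℝ) + q * r * ((a * r + b * q) / (q * r) : ℕ) = a * r + b * q := by
    exact_mod_cast Nat.mod_add_div (a * r + b * q) (q * r)
  have h2 : (q : ℝ) ≠ 0 := by exact_mod_cast hq.ne'
  have h3 : (r : ℝ) ≠ 0 := by exact_mod_cast hr.ne'
  rw [eq_sub_of_add_eq h1, Int.cast_mul, Int.cast_natCast, Nat.cast_mul]
  field_simp
  ring

theorem ram_prod (s : Finset ℕ) (n : ℤ) {q : ℕ} (hq : 0 < q) (hs : ∀ p ∈ s, p.Prime ∧ ¬ p ∣ q) :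
    ram (q * ∏ p ∈ s, p) n = ram q n * ∏ p ∈ s, ram p n := by
  induction s using Finset.induction_on with
  | empty => simp
  | insert p s hp ih =>
    have h1 := hs p (mem_insert_self _ _)
    have h2 := fun r hr => hs r (mem_insert_of_mem hr)
    rw [prod_insert hp, prod_insert hp, mul_left_comm, ram_mul h1.1.pos (Nat.mul_pos hq (prod_pos fun r hr =>
      (h2 r hr).1.pos)), ih h2, mul_left_comm]
    refine Nat.Coprime.mul_right ((Nat.Prime.coprime_iff_not_dvd h1.1).2 h1.2) (Nat.Coprime.prod_right fun r hr => ?_)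
    exact (Nat.coprime_primes h1.1 (h2 r hr).1).2 fun e => hp (e ▸ hr)

theorem ram_prime {p : ℕ} (hp : p.Prime) {n : ℤ} (h : ¬ (p : ℤ) ∣ n) : ram p n = -1 := by
  have h1 : range p = insert 0 (Rq p) := by
    ext b
    simp only [Rq, mem_range, mem_insert, mem_filter]
    refine ⟨fun hb => (Nat.eq_zero_or_pos b).imp id fun h0 => ⟨hb, (Nat.coprime_of_lt_prime h0.ne' hb hp).symm⟩, ?_⟩
    rintro (rfl | hb)
    · exact hp.pos
    · exact hb.1
  have h2 := ortho' hp.pos n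
  rw [if_neg h, h1, sum_insert (by simp [Rq, hp.ne_one]), Nat.cast_zero, zero_mul, zero_div, ex_zero] at h2
  rw [eq_neg_of_add_eq_zero_right h2 |>.symm, ram]
  exact sum_congr rfl fun b _ => by rw [div_mul_eq_mul_div]

/-- the value of the form with the kernel `K` -/
noncomputable def HH (U : Finset ℕ) (w : ℕ → ℂ) (K : ℕ → ℕ → ℂ) : ℂ := ∑ u ∈ U, ∑ v ∈ U, w u * conj (w v) * K u v

variable {U : Finset ℕ}

theorem HH_gram {ι : Type*} (s : Finset ι) (f : ι → ℕ → ℂ) {K K' : ℕ → ℕ → ℂ}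
    (h : ∀ u ∈ U, ∀ v ∈ U, K' u v = K u v * ∑ b ∈ s, f b u * conj (f b v)) (w : ℕ → ℂ) :
    HH U w K' = ∑ b ∈ s, HH U (fun u => w u * f b u) K := by
  unfold HH
  rw [sum_comm (s := s)]
  refine sum_congr rfl fun u hu => ?_
  rw [sum_comm (s := s)]
  refine sum_congr rfl fun v hv => ?_
  rw [h u hu v hv, mul_sum, mul_sum]
  refine sum_congr rfl fun b _ => ?_
  rw [map_mul]
  ring

theorem HH_one (w : ℕ → ℂ) : HH U w (fun _ _ => 1) = ((‖∑ u ∈ U, w u‖ ^ 2 : ℝ) : ℂ) := by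
  rw [normSq_cast, map_sum, sum_mul_sum, HH]
  simp only [mul_one]

theorem HH_sum {ι : Type*} (s : Finset ι) (c : ι → ℝ) (K : ι → ℕ → ℕ → ℂ) (w : ℕ → ℂ) :
    (HH U w fun u v => ∑ i ∈ s, c i * K i u v).re = ∑ i ∈ s, c i * (HH U w (K i)).re := by
  have h : (HH U w fun u v => ∑ i ∈ s, c i * K i u v) = ∑ i ∈ s, c i * HH U w (K i) := by
    unfold HH
    simp only [mul_sum]
    rw [sum_comm (s := s)]
    refine sum_congr rfl fun u _ => ?_
    rw [sum_comm (s := s)]
    exact sum_congr rfl fun v _ => sum_congr rfl fun i _ => by ring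
  rw [h, Complex.re_sum]
  exact sum_congr rfl fun i _ => Complex.re_ofReal_mul _ _

theorem HH_ram (q : ℕ) (w : ℕ → ℂ) :
    (HH U w fun u v => ram q (u - v)).re = ∑ b ∈ Rq q, ‖∑ u ∈ U, w u * ex (b / q * u)‖ ^ 2 := by
  rw [HH_gram (K := fun _ _ => 1) (Rq q) (fun b u => ex (b / q * u)) (fun u _ v _ => ?_), Complex.re_sum]
  · exact sum_congr rfl fun b _ => by rw [HH_one, Complex.ofReal_re]
  · rw [one_mul, ram]
    refine sum_congr rfl fun b _ => ?_
    rw [← ex_sub]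
    congr 1
    push_cast
    ring

/-- a prime with a residue class which does not meet `U` -/
def Gd (U : Finset ℕ) (p : ℕ) : Prop := p.Prime ∧ ∃ u0 : ℤ, ∀ u ∈ U, ¬ (p : ℤ) ∣ u - u0

theorem psd_prod (q : ℕ) (s : Finset ℕ) (hs : ∀ p ∈ s, Gd U p) : ∀ w : ℕ → ℂ,
    0 ≤ (HH U w fun u v => ram q (u - v) * ∏ p ∈ s, (ram p (u - v) - 1 / (p - 1))).re := by
  induction s using Finset.induction_on with
  | empty =>
    intro w
    simp only [prod_empty, mul_one]
    rw [HH_ram]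
    positivity
  | insert p s hp ih =>
    intro w
    obtain ⟨h1, u0, h2⟩ := hs p (mem_insert_self _ _)
    rw [HH_gram (K := fun u v => ram q (u - v) * ∏ p ∈ s, (ram p (u - v) - 1 / (p - 1))) (Rq p)
      (fun b u => ex (b / p * ((u : ℤ) - u0 : ℤ)) + 1 / (p - 1)) (fun u hu v hv => ?_), Complex.re_sum]
    · exact sum_nonneg fun b _ => ih (fun r hr => hs r (mem_insert_of_mem hr)) _
    · rw [prod_insert hp, mul_comm (ram p _ - _), ← mul_assoc]
      congr 1
      have h3 : ∀ b ∈ Rq p, (ex (b / p * ((u : ℤ) - u0 : ℤ)) + 1 / (p - 1)) *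
          conj (ex (b / p * ((v : ℤ) - u0 : ℤ)) + 1 / (p - 1)) = ex (b / p * ((u : ℤ) - v : ℤ)) +
            1 / (p - 1) * ex (b / p * ((u : ℤ) - u0 : ℤ)) + 1 / (p - 1) * ex (b / p * (-((v : ℤ) - u0) : ℤ)) +
              1 / (p - 1) * (1 / (p - 1)) := by
        intro b _
        have e1 : ex (b / p * ((u : ℤ) - v : ℤ)) =
            ex (b / p * ((u : ℤ) - u0 : ℤ)) * ex (b / p * (-((v : ℤ) - u0) : ℤ)) := by
          rw [← ex_add]
          congr 1
          push_cast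
          ring
        rw [map_add, conj_ex, e1, Int.cast_neg, mul_neg, map_div₀, map_sub, map_one, Complex.conj_natCast]
        ring
      have h4 := ram_prime h1 (h2 u hu)
      have h5 := ram_prime h1 fun e => h2 v hv (dvd_neg.1 e)
      have h6 : (p : ℂ) - 1 ≠ 0 := sub_ne_zero.2 (by exact_mod_cast h1.ne_one)
      rw [ram] at h4 h5
      rw [sum_congr rfl h3, sum_add_distrib, sum_add_distrib, sum_add_distrib, ← mul_sum, ← mul_sum, h4, h5,
        sum_const, card_Rq, Nat.totient_prime h1, nsmul_eq_mul, Nat.cast_pred h1.pos, ← ram]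
      field_simp
      ring

end LPa

end Cfsg.Agent.Depth.S
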