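import Cfsg.Agent.Depth.S.GHD
import Cfsg.Agent.Depth.S.GHT

/-!
# Depth (S5768): upper bounds for the bins (`GH3`)
-/

set_option autoImplicit false

namespace Cfsg.Agent.Depth.S

open Finset

namespace GH

theorem inv_tot' {d : ℕ} (hd : 0 < d) :
    (1 : ℝ) / d.totient = 1 / (d : ℝ) ^ 1 * ∏ p ∈ d.primeFactors, (1 + 1 / ((p : ℝ) - 1)) := by
  rw [inv_tot hd, pow_one]
  congr 1
  refine prod_congr rfl fun p hp => ?_
  have := pm_pos (Nat.prime_of_mem_primeFactors hp)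
  field_simp
  ring

theorem pos_of_cop {d : ℕ} (h : d.Coprime 30) : 0 < d := by
  rcases d.eq_zero_or_pos with rfl | h0
  · exact absurd h (by decide +kernel)
  · exact h0

theorem inv_cast_prod (t : Finset ℕ) : 1 / ((∏ p ∈ t, p : ℕ) : ℝ) = ∏ p ∈ t, (1 : ℝ) / p := by
  rw [prod_div_distrib, prod_const_one, Nat.cast_prod]

theorem G_nonneg {S t : Finset ℕ} (hS : ∀ p ∈ S, p.Prime) (ht : t ∈ S.powerset) :
    0 ≤ ∏ p ∈ t, 1 / ((p : ℝ) - 1) :=
  prod_nonneg fun p hp => one_div_nonneg.2 (pm_pos (hS p (mem_powerset.1 ht hp))).le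

theorem prod_pos' {S t : Finset ℕ} (hS : ∀ p ∈ S, p.Prime) (ht : t ∈ S.powerset) : 0 < ∏ p ∈ t, p :=
  prod_pos fun p hp => (hS p (mem_powerset.1 ht hp)).pos

theorem sum_pi1 (S : Finset ℕ) (hS : ∀ p ∈ S, p.Prime ∧ 7 ≤ p) :
    ∑ t ∈ S.powerset, (∏ p ∈ t, 1 / ((p : ℝ) - 1)) * (1 / ((∏ p ∈ t, p : ℕ) : ℝ)) ≤ 1.0614 := by
  refine le_trans (le_of_eq ?_) (pi1 S hS)
  rw [prod_one_add]
  refine sum_congr rfl fun t _ => ?_
  rw [inv_cast_prod, prod_mul_distrib]

theorem tot30 : ((Nat.totient 30 : ℕ) : ℝ) = 8 := by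
  rw [show Nat.totient 30 = 8 by decide +kernel]
  norm_num

/-- harmonic sums over integers coprime to `30` -/
theorem harm30 (T : Finset ℕ) (b : ℝ) (hb : 7 ≤ b) (hT : ∀ m ∈ T, m.Coprime 30 ∧ (m : ℝ) ≤ b) :
    ∑ m ∈ T, (1 : ℝ) / m ≤ 1.78 + 4 / 15 * Real.log b := by
  rw [← sum_filter_add_sum_filter_not T (fun m => m = 1)]
  have h1 : ∑ m ∈ T.filter (fun m => m = 1), (1 : ℝ) / m ≤ 1 := by
    refine (sum_le_sum_of_subset_of_nonneg (t := {1}) (fun m hm => mem_singleton.2 (mem_filter.1 hm).2)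
      fun _ _ _ => by positivity).trans ?_
    simp
  have h2 := harm_le 30 (by norm_num) (T.filter (fun m => ¬ m = 1)) 7 b (by norm_num) hb fun m hm => by
    rw [mem_filter] at hm
    exact ⟨(hT m hm.1).1, by exact_mod_cast seven_le (hT m hm.1).1 hm.2, (hT m hm.1).2⟩
  rw [tot30] at h2
  have h3 : Real.log (2 ^ 2) ≤ Real.log 7 := Real.log_le_log (by norm_num) (by norm_num)
  rw [Real.log_pow] at h3
  have h4 := Real.log_two_gt_d9
  push_cast at h2 h3
  linarith

/-- upper bound for `G_30` -/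
theorem GU (s : Finset ℕ) (b : ℝ) (hb : 7 ≤ b) (hs : ∀ d ∈ s, d.Coprime 30 ∧ (d : ℝ) ≤ b) :
    ∑ d ∈ s, (1 : ℝ) / d.totient ≤ 1.0614 * (1.78 + 4 / 15 * Real.log b) := by
  have hS := fun p (hp : p ∈ SP s) => mem_SP (fun d hd => (hs d hd).1) hp
  have hl : 0 ≤ Real.log b := Real.log_nonneg (by linarith)
  rw [sum_congr rfl fun d hd => inv_tot' (pos_of_cop (hs d hd).1), dec (SP s) s _ _ fun d hd => sub_SP hd]
  refine le_trans ?_ (mul_le_mul_of_nonneg_right (sum_pi1 (SP s) fun p hp => ⟨(hS p hp).1, (hS p hp).2.1⟩)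
    (by positivity))
  rw [sum_mul]
  refine sum_le_sum fun t ht => ?_
  rw [mul_assoc]
  refine mul_le_mul_of_nonneg_left ?_ (G_nonneg (fun p hp => (hS p hp).1) ht)
  have he := prod_pos' (fun p hp => (hS p hp).1) ht
  have h1 := inner_le s t 1 (1.78 + 4 / 15 * Real.log b) fun T hT => by
    simp only [pow_one]
    refine harm30 T b hb fun m hm => ⟨Nat.Coprime.coprime_mul_left (hs _ (hT m hm)).1, ?_⟩
    exact le_trans (by exact_mod_cast Nat.le_mul_of_pos_left m he) (hs _ (hT m hm)).2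
  rwa [pow_one ((∏ p ∈ t, p : ℕ) : ℝ)] at h1

theorem bin_le (s : Finset ℕ) (a b : ℝ) (ha : 131072 ≤ a) (hab : a ≤ b) (hl : Real.log b - Real.log a ≤ 0.1733)
    (hs : ∀ d ∈ s, d.Coprime 30 ∧ a ≤ d ∧ (d : ℝ) ≤ b) : ∑ d ∈ s, (1 : ℝ) / d.totient ≤ 0.0495 := by
  have hS := fun p (hp : p ∈ SP s) => mem_SP (fun d hd => (hs d hd).1) hp
  have ha0 : 0 < a := by linarith
  rw [sum_congr rfl fun d hd => inv_tot' (pos_of_cop (hs d hd).1), dec (SP s) s _ _ fun d hd => sub_SP hd]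
  have h1 : ∀ t ∈ (SP s).powerset, (∏ p ∈ t, 1 / ((p : ℝ) - 1)) *
      ∑ d ∈ s.filter (fun d => t ⊆ d.primeFactors), 1 / (d : ℝ) ^ 1 ≤
      8 * 0.1733 / 30 * ((∏ p ∈ t, 1 / ((p : ℝ) - 1)) * (1 / ((∏ p ∈ t, p : ℕ) : ℝ))) +
        8 / a * if ((∏ p ∈ t, p : ℕ) : ℝ) ≤ b then ∏ p ∈ t, 1 / ((p : ℝ) - 1) else 0 := by
    intro t ht
    have hG := G_nonneg (fun p hp => (hS p hp).1) ht
    have he := prod_pos' (fun p hp => (hS p hp).1) ht
    split_ifs with h
    · have h2 := inner_le s t 1 (8 * (1 / (a / (∏ p ∈ t, p : ℕ)) + 0.1733 / 30)) fun T hT => by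
        simp only [pow_one]
        generalize ∏ p ∈ t, p = e at he hT
        have he0 : (0 : ℝ) < e := by exact_mod_cast he
        have h3 := harm_le 30 (by norm_num) T (a / e) (b / e) (by positivity)
          (div_le_div_of_nonneg_right hab he0.le) fun m hm => by
            obtain ⟨h4, h5, h6⟩ := hs _ (hT m hm)
            push_cast at h5 h6
            refine ⟨Nat.Coprime.coprime_mul_left h4, ?_, ?_⟩
            · rw [div_le_iff₀ he0]
              linarith
            · rw [le_div_iff₀ he0]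
              linarith
        rw [tot30, Real.log_div (by linarith) he0.ne', Real.log_div ha0.ne' he0.ne'] at h3
        push_cast at h3
        linarith
      rw [pow_one ((∏ p ∈ t, p : ℕ) : ℝ)] at h2
      refine (mul_le_mul_of_nonneg_left h2 hG).trans (le_of_eq ?_)
      generalize ∏ p ∈ t, p = e at he
      have he0 : (0 : ℝ) < e := by exact_mod_cast he
      field_simp
      ring
    · rw [filter_eq_empty_iff.2, sum_empty, mul_zero, mul_zero, add_zero]
      · positivity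
      · intro d hd h3
        refine h (le_trans ?_ (hs d hd).2.2)
        exact_mod_cast Nat.le_of_dvd (pos_of_cop (hs d hd).1) (prod_dvd_of_subset h3)
  refine (sum_le_sum h1).trans ?_
  rw [sum_add_distrib, ← mul_sum, ← mul_sum, ← sum_filter]
  have h2 := sum_pi1 (SP s) fun p hp => ⟨(hS p hp).1, (hS p hp).2.1⟩
  have h3 : ∑ t ∈ (SP s).powerset.filter (fun t => ((∏ p ∈ t, p : ℕ) : ℝ) ≤ b), ∏ p ∈ t, 1 / ((p : ℝ) - 1) ≤
      1.0614 * (1.78 + 4 / 15 * Real.log b) := by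
    refine le_trans ?_ (GU ((Icc 1 ⌊b⌋₊).filter (fun e => e.Coprime 30)) b (by linarith) fun d hd => ?_)
    · have hp : ∀ t ∈ (SP s).powerset.filter (fun t => ((∏ p ∈ t, p : ℕ) : ℝ) ≤ b),
          (∏ p ∈ t, p).primeFactors = t := fun t ht =>
        Nat.primeFactors_prod fun p hp => (hS p (mem_powerset.1 (mem_filter.1 ht).1 hp)).1
      refine sum_le_of_inj _ _ (fun t => ∏ p ∈ t, p) _ _ (fun t ht t' ht' h => ?_) (fun t ht => ?_)
        (fun t ht => ?_) fun _ _ => by positivity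
      · rw [← hp t ht, ← hp t' ht']
        exact congrArg Nat.primeFactors h
      · rw [mem_filter] at ht
        rw [mem_filter, mem_Icc]
        exact ⟨⟨prod_pos' (fun p hp => (hS p hp).1) ht.1, Nat.le_floor ht.2⟩,
          Nat.Coprime.prod_left fun p hp => (hS p (mem_powerset.1 ht.1 hp)).2.2⟩
      · rw [inv_tot (prod_pos' (fun p hp => (hS p hp).1) (mem_filter.1 ht).1), hp t ht, inv_cast_prod,
          ← prod_mul_distrib]
        refine le_of_eq (prod_congr rfl fun p hp => ?_)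
        have h4 : (0 : ℝ) < p := by exact_mod_cast (hS p (mem_powerset.1 (mem_filter.1 ht).1 hp)).1.pos
        rw [one_div_mul_eq_div, div_div_cancel_left' h4.ne', one_div]
    · rw [mem_filter, mem_Icc] at hd
      exact ⟨hd.2, le_trans (by exact_mod_cast hd.1.2) (Nat.floor_le (by linarith))⟩
  have h4 : Real.log a ≤ a / 131072 + 10.79 := by
    have h5 := Real.log_le_sub_one_of_pos (x := a / 2 ^ 17) (by positivity)
    rw [Real.log_div ha0.ne' (by positivity), Real.log_pow] at h5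
    have := Real.log_two_lt_d9
    push_cast at h5
    linarith
  have h5 : 8 / a * ∑ t ∈ (SP s).powerset.filter (fun t => ((∏ p ∈ t, p : ℕ) : ℝ) ≤ b),
      ∏ p ∈ t, 1 / ((p : ℝ) - 1) ≤ 0.00033 := by
    refine (mul_le_mul_of_nonneg_left h3 (by positivity)).trans ?_
    rw [div_mul_eq_mul_div, div_le_iff₀ ha0]
    linarith
  linarith

end GH

open GH

theorem gh3 : GH3 := by
  intro j
  by_cases hj : j < 68
  · exact table3 hj
  have h1 : Wt j = 495 := List.getD_eq_default _ _ (le_trans (by norm_num) (not_lt.1 hj))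
  have h2 := Real.log_two_gt_d9
  have h3 := Real.log_two_lt_d9
  have h4 : (68 : ℝ) ≤ j := by exact_mod_cast not_lt.1 hj
  have h5 : ∀ n : ℕ, Real.exp (n * Real.log 2 / 4) ^ 4 = 2 ^ n := fun n => by
    rw [← Real.exp_nat_mul, show ((4 : ℕ) : ℝ) * (n * Real.log 2 / 4) = n * Real.log 2 by push_cast; ring,
      Real.exp_nat_mul, Real.exp_log (by norm_num)]
  rw [h1]
  refine (bin_le _ (Real.exp (j * Real.log 2 / 4)) (Real.exp ((j + 1 : ℕ) * Real.log 2 / 4)) ?_ ?_ ?_ ?_).trans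
    (by norm_num)
  · refine le_of_pow_le_pow_left₀ (n := 4) (by norm_num) (Real.exp_pos _).le ?_
    rw [h5, show (131072 : ℝ) ^ 4 = 2 ^ 68 by norm_num]
    exact pow_le_pow_right₀ (by norm_num) (not_lt.1 hj)
  · refine Real.exp_le_exp.2 ?_
    push_cast
    linarith
  · rw [Real.log_exp, Real.log_exp]
    push_cast
    linarith
  · intro d hd
    simp only [mem_filter, mem_Icc] at hd
    have h6 : 2 ^ j ≤ d ^ 4 := hd.2.2.2 ▸ Nat.pow_log_le_self 2 (pow_ne_zero _ (by omega))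
    have h7 : d ^ 4 < 2 ^ (j + 1) := hd.2.2.2 ▸ Nat.lt_pow_succ_log_self (by norm_num) _
    refine ⟨Nat.Coprime.coprime_dvd_right (by norm_num) hd.2.2.1, ?_, ?_⟩
    · refine le_of_pow_le_pow_left₀ (n := 4) (by norm_num) (Nat.cast_nonneg _) ?_
      rw [h5]
      exact_mod_cast h6
    · refine le_of_pow_le_pow_left₀ (n := 4) (by norm_num) (Real.exp_pos _).le ?_
      rw [h5]
      exact_mod_cast h7.le

end Cfsg.Agent.Depth.S
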