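import Cfsg.Agent.Depth.S.GH3

/-!
# Depth (S5768): tails of `∑ μ²(d)/φ(d)²` (`GH5`)
-/

set_option autoImplicit false

namespace Cfsg.Agent.Depth.S

open Finset

namespace GH

theorem inv_tot_sq {d : ℕ} (hd : 0 < d) : (1 : ℝ) / (d.totient : ℝ) ^ 2 =
    1 / (d : ℝ) ^ 2 * ∏ p ∈ d.primeFactors, (1 + (2 * (p : ℝ) - 1) / ((p : ℝ) - 1) ^ 2) := by
  rw [← one_div_pow, inv_tot hd, mul_pow, one_div_pow, ← prod_pow]
  congr 1
  refine prod_congr rfl fun p hp => ?_
  have := pm_pos (Nat.prime_of_mem_primeFactors hp)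
  field_simp
  ring

theorem sq_uni (T : Finset ℕ) (a : ℝ) (ha : 0 < a) (hT : ∀ m ∈ T, m.Coprime 30 ∧ a ≤ m) :
    ∑ m ∈ T, (1 : ℝ) / (m : ℝ) ^ 2 ≤ 1.1 / a := by
  have h2 : ∀ m ∈ T, m.Coprime 2 := fun m hm => Nat.Coprime.coprime_dvd_right (by norm_num) (hT m hm).1
  rw [le_div_iff₀ ha]
  by_cases h7 : 7 ≤ a
  · have h1 := sq_le 2 (by norm_num) T a ha fun m hm => ⟨h2 m hm, (hT m hm).2⟩
    rw [Nat.totient_two] at h1
    have h3 := mul_le_mul_of_nonneg_right h1 ha.le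
    have h4 : ((1 : ℕ) : ℝ) * (1 / a ^ 2 + 1 / a / (2 : ℕ)) * a = 1 / a + 1 / 2 := by
      push_cast
      field_simp
    have h5 : 1 / a ≤ 1 / 7 := one_div_le_one_div_of_le (by norm_num) h7
    linarith
  · have h1 := sq_le 2 (by norm_num) (T.filter (fun m => ¬ m = 1)) 7 (by norm_num) fun m hm => by
      rw [mem_filter] at hm
      exact ⟨h2 m hm.1, by exact_mod_cast seven_le (hT m hm.1).1 hm.2⟩
    rw [Nat.totient_two] at h1
    have h3 : 0 ≤ ∑ m ∈ T.filter (fun m => ¬ m = 1), (1 : ℝ) / (m : ℝ) ^ 2 := sum_nonneg fun _ _ => by positivity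
    rw [← sum_filter_add_sum_filter_not T (fun m => m = 1)]
    generalize ∑ m ∈ T.filter (fun m => ¬ m = 1), (1 : ℝ) / (m : ℝ) ^ 2 = X at h1 h3
    have h4 : X ≤ 0.092 := le_trans h1 (by norm_num)
    by_cases h5 : a ≤ 1
    · have h6 : ∑ m ∈ T.filter (fun m => m = 1), (1 : ℝ) / (m : ℝ) ^ 2 ≤ 1 := by
        refine (sum_le_sum_of_subset_of_nonneg (t := {1}) (fun m hm => mem_singleton.2 (mem_filter.1 hm).2)
          fun _ _ _ => by positivity).trans ?_
        simp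
      have h8 := mul_le_mul (add_le_add h6 h4) h5 ha.le (by norm_num)
      linarith
    · rw [filter_eq_empty_iff.2, sum_empty, zero_add]
      · have h8 := mul_le_mul h4 (not_le.1 h7).le ha.le (by norm_num)
        linarith
      · intro m hm h6
        have h8 := (hT m hm).2
        rw [h6, Nat.cast_one] at h8
        exact h5 h8

theorem tail_le (s : Finset ℕ) (D : ℝ) (hD : 256 ≤ D) (hs : ∀ d ∈ s, d.Coprime 30 ∧ D ≤ d) :
    D * ∑ d ∈ s, (1 : ℝ) / (d.totient : ℝ) ^ 2 ≤ 0.445 := by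
  have hS := fun p (hp : p ∈ SP s) => mem_SP (fun d hd => (hs d hd).1) hp
  have hD0 : 0 < D := by linarith
  rw [sum_congr rfl fun d hd => inv_tot_sq (pos_of_cop (hs d hd).1), dec (SP s) s _ _ fun d hd => sub_SP hd,
    mul_sum, ← add_sum_erase _ _ (empty_mem_powerset _)]
  have h1 := pi2 (SP s) fun p hp => ⟨(hS p hp).1, (hS p hp).2.1⟩
  rw [prod_one_add, ← add_sum_erase _ _ (empty_mem_powerset _), prod_empty] at h1
  have h2 : D * ((∏ p ∈ (∅ : Finset ℕ), (2 * (p : ℝ) - 1) / ((p : ℝ) - 1) ^ 2) *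
      ∑ d ∈ s.filter (fun d => ∅ ⊆ d.primeFactors), 1 / (d : ℝ) ^ 2) ≤ 0.298 := by
    have h3 := sq_le 30 (by norm_num) (s.filter (fun d => ∅ ⊆ d.primeFactors)) D hD0 fun m hm =>
      hs m (mem_filter.1 hm).1
    rw [tot30] at h3
    rw [prod_empty, one_mul]
    refine (mul_le_mul_of_nonneg_left h3 hD0.le).trans ?_
    have h4 : D * (8 * (1 / D ^ 2 + 1 / D / (30 : ℕ))) = 8 * (1 / D) + 8 / 30 := by
      push_cast
      field_simp
    have h5 : 1 / D ≤ 1 / 256 := one_div_le_one_div_of_le (by norm_num) hD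
    linarith
  have h3 : ∑ t ∈ (SP s).powerset.erase ∅, D * ((∏ p ∈ t, (2 * (p : ℝ) - 1) / ((p : ℝ) - 1) ^ 2) *
      ∑ d ∈ s.filter (fun d => t ⊆ d.primeFactors), 1 / (d : ℝ) ^ 2) ≤
      1.1 * ∑ t ∈ (SP s).powerset.erase ∅, ∏ p ∈ t, (2 * (p : ℝ) - 1) / ((p : ℝ) - 1) ^ 2 * (1 / p) := by
    rw [mul_sum]
    refine sum_le_sum fun t ht => ?_
    have ht' := mem_of_mem_erase ht
    have he := prod_pos' (fun p hp => (hS p hp).1) ht'
    have hG : 0 ≤ ∏ p ∈ t, (2 * (p : ℝ) - 1) / ((p : ℝ) - 1) ^ 2 := prod_nonneg fun p hp =>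
      div_nonneg (by linarith [one_lt_cast (hS p (mem_powerset.1 ht' hp)).1]) (sq_nonneg _)
    have h4 := inner_le s t 2 (1.1 / (D / (∏ p ∈ t, p : ℕ))) fun T hT => by
      generalize ∏ p ∈ t, p = e at he hT
      have he0 : (0 : ℝ) < e := by exact_mod_cast he
      refine sq_uni T _ (by positivity) fun m hm => ?_
      obtain ⟨h4, h5⟩ := hs _ (hT m hm)
      push_cast at h5
      refine ⟨Nat.Coprime.coprime_mul_left h4, ?_⟩
      rw [div_le_iff₀ he0]
      linarith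
    rw [prod_mul_distrib, ← inv_cast_prod]
    refine (mul_le_mul_of_nonneg_left (mul_le_mul_of_nonneg_left h4 hG) hD0.le).trans (le_of_eq ?_)
    generalize ∏ p ∈ t, p = e at he
    have he0 : (0 : ℝ) < e := by exact_mod_cast he
    field_simp
  linarith

/-- upper bound for `10¹²/φ(d)²` -/
noncomputable def u5 (d : ℕ) : ℕ := cond (Nat.beq (Nat.gcd d 30) 1) (dv (Nat.mul (phT d) (phT d))) 0

theorem u5_spec {d : ℕ} (hs : Squarefree d) (hd : d < 134689) (hc : d.Coprime 30) :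
    (1 : ℝ) / (d.totient : ℝ) ^ 2 ≤ (u5 d : ℝ) / 1000000000000 := by
  have h : u5 d = dv (phT d * phT d) := by
    unfold u5
    rw [cond_beq, if_pos hc.gcd_eq_one]
    rfl
  obtain ⟨h3, h4⟩ := phT_spec hs hd
  rw [h]
  refine le_trans (one_div_le_one_div_of_le (by exact_mod_cast Nat.mul_pos h3 h3) ?_) (dv_spec (Nat.mul_pos h3 h3))
  rw [sq]
  exact_mod_cast Nat.mul_le_mul h4 h4

/-- the table, from the top -/
noncomputable def lp5 (k : ℕ) : ℕ → Bool :=
  Nat.rec (fun _ => true) (fun k ih t =>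
    and (Nat.ble (Nat.mul (Nat.add k 2) (Nat.add t (u5 (Nat.add k 2)))) 460000000000)
      (ih (Nat.add t (u5 (Nat.add k 2))))) k

theorem lp5_run : lp5 254 1738281250 = true := by decide +kernel

theorem lp5_spec (s : Finset ℕ) (hs : ∀ d ∈ s, Squarefree d ∧ d.Coprime 30) (k : ℕ) : ∀ t : ℕ, k ≤ 1000 →
    lp5 k t = true →
    ∑ d ∈ s.filter (fun d => k + 2 ≤ d), (1 : ℝ) / (d.totient : ℝ) ^ 2 ≤ (t : ℝ) / 1000000000000 →
    ∀ m : ℕ, 2 ≤ m → m < k + 2 → m * ∑ d ∈ s.filter (fun d => m ≤ d), (1 : ℝ) / (d.totient : ℝ) ^ 2 ≤ 0.46 := by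
  induction k with
  | zero => intro t _ _ _ m h1 h2; omega
  | succ k ih =>
    intro t hk hr ht m h1 h2
    have h3 : (Nat.ble ((k + 2) * (t + u5 (k + 2))) 460000000000 && lp5 k (t + u5 (k + 2))) = true := hr
    rw [Bool.and_eq_true] at h3
    have h4 : ∑ d ∈ s.filter (fun d => k + 2 ≤ d), (1 : ℝ) / (d.totient : ℝ) ^ 2 ≤
        ((t + u5 (k + 2) : ℕ) : ℝ) / 1000000000000 := by
      rw [← sum_filter_add_sum_filter_not _ (fun d => ¬ d = k + 2), Nat.cast_add, add_div]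
      refine add_le_add (le_trans (sum_le_sum_of_subset_of_nonneg (fun d hd => ?_) fun _ _ _ => by positivity) ht) ?_
      · simp only [mem_filter] at hd ⊢
        exact ⟨hd.1.1, by omega⟩
      · by_cases h5 : k + 2 ∈ s
        · refine (sum_le_sum_of_subset_of_nonneg (t := {k + 2})
            (fun m hm => mem_singleton.2 (not_not.1 (mem_filter.1 hm).2)) fun _ _ _ => by positivity).trans ?_
          rw [sum_singleton]
          exact u5_spec (hs _ h5).1 (by omega) (hs _ h5).2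
        · rw [filter_eq_empty_iff.2, sum_empty]
          · exact div_nonneg (Nat.cast_nonneg _) (by norm_num)
          · intro d hd h6
            exact h5 (not_not.1 h6 ▸ (mem_filter.1 hd).1)
    by_cases h5 : m = k + 2
    · subst h5
      have h6 : (k + 2) * (t + u5 (k + 2)) ≤ 460000000000 := Nat.le_of_ble_eq_true h3.1
      generalize t + u5 (k + 2) = x at h4 h6
      have h7 : ((k + 2 : ℕ) : ℝ) * x ≤ 460000000000 := by exact_mod_cast h6
      refine (mul_le_mul_of_nonneg_left h4 (Nat.cast_nonneg _)).trans ?_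
      rw [← mul_div_assoc, div_le_iff₀ (by norm_num)]
      linarith
    · exact ih _ (by omega) h3.2 h4 m h1 (by omega)

theorem tail_nat (s : Finset ℕ) (hs : ∀ d ∈ s, Squarefree d ∧ d.Coprime 30) (m : ℕ) (hm : 2 ≤ m) :
    m * ∑ d ∈ s.filter (fun d => m ≤ d), (1 : ℝ) / (d.totient : ℝ) ^ 2 ≤ 0.46 := by
  have key : ∀ n : ℕ, 256 ≤ n → n * ∑ d ∈ s.filter (fun d => n ≤ d), (1 : ℝ) / (d.totient : ℝ) ^ 2 ≤ 0.445 :=
    fun n hn => tail_le _ n (by exact_mod_cast hn) fun d hd =>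
      ⟨(hs d (mem_filter.1 hd).1).2, by exact_mod_cast (mem_filter.1 hd).2⟩
  by_cases h : 256 ≤ m
  · exact (key m h).trans (by norm_num)
  · refine lp5_spec s hs 254 _ (by norm_num) lp5_run ?_ m hm (by omega)
    have h1 := key 256 le_rfl
    push_cast at h1 ⊢
    linarith

end GH

open GH

theorem gh5 : GH5 := by
  intro D s hD hs
  have h30 : ∀ d ∈ s, Squarefree d ∧ d.Coprime 30 := fun d hd =>
    ⟨(hs d hd).1, Nat.Coprime.coprime_dvd_right (by norm_num) (hs d hd).2.1⟩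
  constructor
  · have h1 := tail_nat s h30 7 (by norm_num)
    rw [filter_true_of_mem fun d hd => seven_le (h30 d hd).2 (hs d hd).2.2.1.ne'] at h1
    push_cast at h1
    linarith
  · have h1 := tail_nat s h30 (max 2 ⌈D⌉₊) (le_max_left _ _)
    rw [filter_true_of_mem fun d hd => max_le (hs d hd).2.2.1 (Nat.ceil_le.2 (hs d hd).2.2.2)] at h1
    refine le_trans (mul_le_mul_of_nonneg_right ?_ (sum_nonneg fun _ _ => by positivity)) h1
    exact (Nat.le_ceil D).trans (by exact_mod_cast le_max_right _ _)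

end Cfsg.Agent.Depth.S
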