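import Cfsg.Agent.Depth.S.GH1

/-!
# Depth (S5768): lower bounds for `G_60` (`GH2`)
-/

set_option autoImplicit false

namespace Cfsg.Agent.Depth.S

open Finset

namespace GH

/-- binary search for `log₂ x` in `[e, e + 2^k)` -/
noncomputable def l2 (x k : ℕ) : ℕ → ℕ :=
  Nat.rec (fun e => e) (fun k ih e =>
    ih (cond (Nat.ble (Nat.pow 2 (Nat.add e (Nat.pow 2 k))) x) (Nat.add e (Nat.pow 2 k)) e)) k

theorem l2_succ (x k e : ℕ) : l2 x (k + 1) e = l2 x k (if 2 ^ (e + 2 ^ k) ≤ x then e + 2 ^ k else e) := by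
  have h : l2 x (k + 1) e = l2 x k (cond (Nat.ble (2 ^ (e + 2 ^ k)) x) (e + 2 ^ k) e) := rfl
  rw [h]
  split_ifs with h1
  · rw [Nat.ble_eq_true_of_le h1, cond_true]
  · have h2 : Nat.ble (2 ^ (e + 2 ^ k)) x = false := by
      rw [← Bool.not_eq_true]
      exact fun h2 => h1 (Nat.le_of_ble_eq_true h2)
    rw [h2, cond_false]

theorem l2_le (x k : ℕ) : ∀ e, 2 ^ e ≤ x → 2 ^ l2 x k e ≤ x := by
  induction k with
  | zero => exact fun e h => h
  | succ k ih =>
    intro e h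
    rw [l2_succ]
    split_ifs with h1
    · exact ih _ h1
    · exact ih _ h

theorem lt_l2 (x k : ℕ) : ∀ e, x < 2 ^ (e + 2 ^ k) → x < 2 ^ (l2 x k e + 1) := by
  induction k with
  | zero => exact fun e h => h
  | succ k ih =>
    intro e h
    rw [l2_succ]
    split_ifs with h1
    · refine ih _ ?_
      rwa [show e + 2 ^ k + 2 ^ k = e + 2 ^ (k + 1) by ring]
    · exact ih _ (not_le.1 h1)

/-- `256 log₂ n`, rounded down (for `n < 2^32`) -/
noncomputable def lg (n : ℕ) : ℕ := l2 (Nat.pow n 256) 13 0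

theorem lg_le {n : ℕ} (hn : 0 < n) : (lg n : ℝ) / 256 * Real.log 2 ≤ Real.log n := by
  have h1 : 2 ^ lg n ≤ n ^ 256 := l2_le _ _ _ (Nat.one_le_pow _ _ hn)
  have h2 : ((2 : ℝ)) ^ lg n ≤ (n : ℝ) ^ 256 := by exact_mod_cast h1
  have h3 := Real.log_le_log (by positivity) h2
  rw [Real.log_pow, Real.log_pow] at h3
  push_cast at h3
  linarith

theorem le_lg {n : ℕ} (hn : 0 < n) (hn' : n < 2 ^ 32) : Real.log n ≤ ((lg n : ℝ) + 1) / 256 * Real.log 2 := by
  have h1 : n ^ 256 ≤ 2 ^ (lg n + 1) := by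
    refine (lt_l2 (n ^ 256) 13 0 ?_).le
    calc n ^ 256 < (2 ^ 32) ^ 256 := Nat.pow_lt_pow_left hn' (by norm_num)
      _ = 2 ^ (0 + 2 ^ 13) := by rw [← pow_mul, show 32 * 256 = 0 + 2 ^ 13 by norm_num]
  have h2 : (n : ℝ) ^ 256 ≤ ((2 : ℝ)) ^ (lg n + 1) := by exact_mod_cast h1
  have h0 : (0 : ℝ) < n := by exact_mod_cast hn
  have h3 := Real.log_le_log (by positivity) h2
  rw [Real.log_pow, Real.log_pow] at h3
  push_cast at h3
  linarith

/-- the test `c/10 + log n ≤ (15/4) h 10⁻¹²` -/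
noncomputable def ok2 (c n h : ℕ) : Bool :=
  Nat.ble (Nat.mul 400 (Nat.add (Nat.mul 256000000000 c) (Nat.mul 6931471808 (Nat.add (lg n) 1))))
    (Nat.mul 3840 h)

theorem ok2_spec {c n h : ℕ} {x : ℝ} (hn : 0 < n) (hn' : n < 2 ^ 32) (hk : ok2 c n h = true) (hx : (h : ℝ) ≤ 10 ^ 12 * x) :
    (c : ℝ) / 10 + Real.log n ≤ 15 / 4 * x := by
  have h1 : 400 * (256000000000 * c + 6931471808 * (lg n + 1)) ≤ 3840 * h := Nat.le_of_ble_eq_true hk
  have h2 : (400 : ℝ) * (256000000000 * c + 6931471808 * (lg n + 1)) ≤ 3840 * h := by exact_mod_cast h1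
  have h3 := le_lg hn hn'
  generalize lg n = a at h2 h3
  have h4 : ((a : ℝ) + 1) / 256 * Real.log 2 ≤ ((a : ℝ) + 1) / 256 * 0.6931471808 :=
    mul_le_mul_of_nonneg_left Real.log_two_lt_d9.le (by positivity)
  linarith

/-- `10¹²/m` rounded down on the integers coprime to `60` -/
def w2 (m : ℕ) : ℕ := cond (Nat.beq (Nat.gcd m 60) 1) (Nat.div 1000000000000 m) 0

theorem HH_succ (k m : ℕ) : HH k (m + 1) = HH k m + if (m + 1).Coprime k then (1 : ℝ) / (m + 1 : ℕ) else 0 := by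
  unfold HH
  rw [sum_filter, sum_filter, sum_Icc_succ_top (by omega)]

theorem w2_spec (m : ℕ) : (w2 (m + 1) : ℝ) ≤ 10 ^ 12 * (HH 60 (m + 1) - HH 60 m) := by
  rw [HH_succ, add_sub_cancel_left]
  unfold w2
  by_cases h : (m + 1).Coprime 60
  · have h1 : Nat.beq (Nat.gcd (m + 1) 60) 1 = true := by rw [h.gcd_eq_one]; rfl
    rw [h1, if_pos h, cond_true]
    have h2 : ((1000000000000 / (m + 1) : ℕ) : ℝ) ≤ (1000000000000 : ℕ) / (m + 1 : ℕ) := Nat.cast_div_le
    refine le_trans h2 (le_of_eq ?_)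
    push_cast
    ring
  · have h1 : Nat.beq (Nat.gcd (m + 1) 60) 1 = false := by
      rw [← Bool.not_eq_true]
      exact fun h2 => h (Nat.eq_of_beq_eq_true h2)
    rw [h1, if_neg h, cond_false]
    simp

/-- the constant -/
def c2 (m : ℕ) : ℕ := cond (Nat.ble 1000 m) 22 18

/-- the table -/
noncomputable def lp2 (k : ℕ) : ℕ → ℕ → Bool :=
  Nat.rec (fun m h => ok2 22 (Nat.add m 60) h)
    (fun _ ih m h => and (ok2 (c2 m) (Nat.add m 1) h) (ih (Nat.add m 1) (Nat.add h (w2 (Nat.add m 1))))) k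

theorem lp2_spec (k : ℕ) : ∀ m h : ℕ, m + k ≤ 10 ^ 6 → lp2 k m h = true → (h : ℝ) ≤ 10 ^ 12 * HH 60 m →
    (∀ n, m ≤ n → n < m + k → (c2 n : ℝ) / 10 + Real.log (n + 1 : ℕ) ≤ 15 / 4 * HH 60 n) ∧
      2.2 + Real.log (m + k + 60 : ℕ) ≤ 15 / 4 * HH 60 (m + k) := by
  induction k with
  | zero =>
    intro m h hb hk hx
    refine ⟨fun n h1 h2 => by omega, ?_⟩
    have h1 := ok2_spec (c := 22) (n := m + 60) (by omega) (by omega) hk hx
    norm_num at h1 ⊢
    exact h1
  | succ k ih =>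
    intro m h hb hk hx
    have h1 : (ok2 (c2 m) (m + 1) h && lp2 k (m + 1) (h + w2 (m + 1))) = true := hk
    rw [Bool.and_eq_true] at h1
    have h2 := w2_spec m
    obtain ⟨h3, h4⟩ := ih (m + 1) (h + w2 (m + 1)) (by omega) h1.2 (by push_cast; linarith)
    refine ⟨fun n h5 h6 => ?_, ?_⟩
    · rcases h5.eq_or_lt with rfl | h7
      · exact ok2_spec (by omega) (by omega) h1.1 hx
      · exact h3 n h7 (by omega)
    · rwa [show m + (k + 1) = m + 1 + k by omega]

theorem lp2_run : lp2 3599 1 1000000000000 = true := by decide +kernel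

theorem HH_one (k : ℕ) : HH k 1 = 1 := by
  unfold HH
  rw [Icc_self, filter_true_of_mem fun n hn => by rw [mem_singleton.1 hn]; exact Nat.coprime_one_left k]
  simp

theorem HH_mono (k : ℕ) {m n : ℕ} (h : m ≤ n) : HH k m ≤ HH k n :=
  sum_le_sum_of_subset_of_nonneg (filter_subset_filter _ (Icc_subset_Icc_right h)) fun _ _ _ => by positivity

theorem HH_block (k m : ℕ) (hk : 0 < k) : HH k m + (k.totient : ℝ) / (m + k) ≤ HH k (m + k) := by
  unfold HH
  have h1 : Icc 1 (m + k) = Icc 1 m ∪ Ico (m + 1) (m + 1 + k) := by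
    ext n
    simp only [mem_Icc, mem_union, mem_Ico]
    omega
  rw [h1, filter_union, sum_union]
  · refine add_le_add le_rfl ?_
    rw [← Nat.filter_coprime_Ico_eq_totient k (m + 1), div_eq_mul_one_div, ← nsmul_eq_mul]
    rw [filter_congr (q := fun x => k.Coprime x) fun n _ => Nat.coprime_comm]
    refine card_nsmul_le_sum _ _ _ fun n hn => ?_
    simp only [mem_filter, mem_Ico] at hn
    refine one_div_le_one_div_of_le (by exact_mod_cast (by omega : 0 < n)) ?_
    exact_mod_cast (by omega : n ≤ m + k)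
  · rw [disjoint_left]
    intro n h2 h3
    simp only [mem_filter, mem_Icc, mem_Ico] at h2 h3
    omega

theorem log_succ_le {a b : ℝ} (ha : 0 < a) (hb : 0 ≤ b) : Real.log (a + b) ≤ Real.log a + b / a := by
  have h1 := Real.log_le_sub_one_of_pos (x := (a + b) / a) (by positivity)
  rw [Real.log_div (by positivity) ha.ne'] at h1
  have h2 : (a + b) / a - 1 = b / a := by field_simp; ring
  linarith

theorem HH_far (K : ℕ) : 2.2 + Real.log (3600 + 60 * K + 60 : ℕ) ≤ 15 / 4 * HH 60 (3600 + 60 * K) := by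
  induction K with
  | zero =>
    have h := (lp2_spec 3599 1 _ (by norm_num) lp2_run (by rw [HH_one]; norm_num)).2
    norm_num at h ⊢
    exact h
  | succ K ih =>
    have h1 := HH_block 60 (3600 + 60 * K) (by norm_num)
    have h2 : Nat.totient 60 = 16 := by decide +kernel
    rw [h2] at h1
    have h3 := log_succ_le (a := (3600 + 60 * K + 60 : ℕ)) (b := 60) (by positivity) (by norm_num)
    rw [show 3600 + 60 * (K + 1) = 3600 + 60 * K + 60 by ring]
    have h4 : (60 : ℝ) / (3600 + 60 * K + 60 : ℕ) = 15 / 4 * ((16 : ℕ) / ((3600 + 60 * K : ℕ) + (60 : ℕ))) := by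
      push_cast
      field_simp
      norm_num
    have h5 : ((3600 + 60 * K + 60 + 60 : ℕ) : ℝ) = (3600 + 60 * K + 60 : ℕ) + 60 := by push_cast; ring
    rw [h5]
    linarith

theorem HH_low (n : ℕ) (hn : 1 ≤ n) : (c2 n : ℝ) / 10 + Real.log (n + 1 : ℕ) ≤ 15 / 4 * HH 60 n := by
  by_cases h : n < 3600
  · exact (lp2_spec 3599 1 _ (by norm_num) lp2_run (by rw [HH_one]; norm_num)).1 n hn (by omega)
  · have h1 := HH_far ((n - 3600) / 60)
    have h2 := HH_mono 60 (show 3600 + 60 * ((n - 3600) / 60) ≤ n by omega)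
    have h3 : Real.log (n + 1 : ℕ) ≤ Real.log (3600 + 60 * ((n - 3600) / 60) + 60 : ℕ) :=
      Real.log_le_log (by positivity) (by exact_mod_cast (by omega))
    have h4 : c2 n = 22 := by
      unfold c2
      rw [Nat.ble_eq_true_of_le (by omega : 1000 ≤ n), cond_true]
    rw [h4]
    norm_num at h1 h3 ⊢
    linarith

end GH

open GH

theorem gh2 : GH2 := by
  intro y hy
  have h1 : 1 ≤ ⌊y⌋₊ := Nat.le_floor (by exact_mod_cast hy)
  have h2 := HH_le_Gs 60 y
  have h3 := HH_low _ h1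
  have h4 : Real.log y ≤ Real.log (⌊y⌋₊ + 1 : ℕ) :=
    Real.log_le_log (by linarith) (by push_cast; exact (Nat.lt_floor_add_one y).le)
  refine ⟨?_, ?_, fun h5 => ?_⟩
  · exact le_trans (by rw [← HH_one 60]; exact HH_mono 60 h1) h2
  · have h6 : (18 : ℝ) ≤ c2 ⌊y⌋₊ := by
      unfold c2
      cases Nat.ble 1000 ⌊y⌋₊ <;> norm_num
    linarith
  · have h6 : c2 ⌊y⌋₊ = 22 := by
      unfold c2
      rw [Nat.ble_eq_true_of_le (Nat.le_floor (by exact_mod_cast h5)), cond_true]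
    rw [h6] at h3
    norm_num at h3 h4 ⊢
    linarith

end Cfsg.Agent.Depth.S
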