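import Cfsg.Agent.Depth.S.Basic

/-!
# Depth (S5768): the dual large sieve (helper50)

The trapezoid majorant is the average of `Y0` shifted windows: `∑_{v < Y0} ∑_{u < L} F (a + u + v)`.

* `window_le`, `le_window` : comparison of the double sum with the sums over intervals;
* `window_ex` : the double sum of `ex (θ j)` is a product of two Dirichlet kernels `Dk`;
* `schur`, `spaced_sum` : Schur's test, sums over `δ`-spaced points;
* `ls : LS`.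
-/

set_option autoImplicit false

namespace Cfsg.Agent.Depth.S

open Finset Real

/-- Dirichlet kernel -/
noncomputable def Dk (n : ℕ) (x : ℝ) : ℂ := ∑ i ∈ range n, ex (x * i)

theorem norm_Dk_le (n : ℕ) (x : ℝ) : ‖Dk n x‖ ≤ n := norm_geom_le x n

theorem norm_Dk_neg (n : ℕ) (x : ℝ) : ‖Dk n (-x)‖ = ‖Dk n x‖ := by
  rw [← Complex.norm_conj (Dk n x), Dk, Dk, map_sum]
  simp only [conj_ex, neg_mul]

theorem norm_Dk_mul_sin (n n' : ℕ) {x : ℝ} (h : 0 < nd x) : ‖Dk n x‖ * ‖Dk n' x‖ ≤ 1 / sin (π * x) ^ 2 := by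
  have h0 : sin (π * x) ≠ 0 := abs_pos.1 (lt_of_lt_of_le (by linarith) (two_nd_le_sin x))
  rw [← sq_abs, pow_two, ← one_div_mul_one_div]
  exact mul_le_mul (norm_geom_le_sin h0 n) (norm_geom_le_sin h0 n') (norm_nonneg _) (by positivity)

theorem norm_Dk_mul_nd (n n' : ℕ) {x : ℝ} (h : 0 < nd x) : ‖Dk n x‖ * ‖Dk n' x‖ ≤ 1 / (4 * nd x ^ 2) := by
  rw [show 4 * nd x ^ 2 = (2 * nd x) * (2 * nd x) by ring, ← one_div_mul_one_div]
  exact mul_le_mul (norm_geom_le_nd h n) (norm_geom_le_nd h n') (norm_nonneg _) (by positivity)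

theorem sum_range_shift {M : Type*} [AddCommMonoid M] (F : ℤ → M) (a : ℤ) (L : ℕ) :
    ∑ u ∈ range L, F (a + u) = ∑ j ∈ Ico a (a + L), F j := by
  refine sum_bij (fun u _ => a + (u : ℤ)) (fun u hu => ?_) (fun u _ v _ h => ?_) (fun j hj => ?_) fun _ _ => rfl
  · rw [mem_range] at hu
    rw [mem_Ico]
    omega
  · omega
  · rw [mem_Ico] at hj
    exact ⟨(j - a).toNat, mem_range.2 (by omega), by omega⟩

/-- the trapezoid is at least `1` on the interval -/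
theorem window_le (F : ℤ → ℝ) (hF : ∀ j, 0 ≤ F j) {a j0 : ℤ} {Y Y0 L : ℕ} (h1 : a + Y0 ≤ j0 + 1)
    (h2 : j0 + Y ≤ a + L) :
    Y0 * ∑ j ∈ Ico j0 (j0 + Y), F j ≤ ∑ v ∈ range Y0, ∑ u ∈ range L, F (a + v + u) := by
  rw [← nsmul_eq_mul, ← card_range Y0, card_range, ← card_range Y0, ← sum_const, card_range]
  refine sum_le_sum fun v hv => ?_
  rw [sum_range_shift]
  rw [mem_range] at hv
  exact sum_le_sum_of_subset_of_nonneg (Ico_subset_Ico (by omega) (by omega)) fun j _ _ => hF j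

/-- the trapezoid is at most `1` -/
theorem le_window (F : ℤ → ℝ) (hF : ∀ j, 0 ≤ F j) {a b c : ℤ} {Y0 L : ℕ} (h1 : b ≤ a) (h2 : a + Y0 + L ≤ c + 1) :
    ∑ v ∈ range Y0, ∑ u ∈ range L, F (a + v + u) ≤ Y0 * ∑ j ∈ Ico b c, F j := by
  rw [← nsmul_eq_mul, ← card_range Y0, card_range, ← card_range Y0, ← sum_const, card_range]
  refine sum_le_sum fun v hv => ?_
  rw [sum_range_shift]
  rw [mem_range] at hv
  exact sum_le_sum_of_subset_of_nonneg (Ico_subset_Ico (by omega) (by omega)) fun j _ _ => hF j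

theorem window_ex (θ : ℝ) (a : ℤ) (Y0 L : ℕ) :
    ∑ v ∈ range Y0, ∑ u ∈ range L, ex (θ * ((a + v + u : ℤ) : ℝ)) = ex (θ * a) * (Dk Y0 θ * Dk L θ) := by
  rw [Dk, Dk, sum_mul_sum, mul_sum]
  refine sum_congr rfl fun v _ => ?_
  rw [mul_sum]
  refine sum_congr rfl fun u _ => ?_
  rw [← ex_add, ← ex_add]
  congr 1
  push_cast
  ring

theorem norm_window_ex (θ : ℝ) (a : ℤ) (Y0 L : ℕ) :
    ‖∑ v ∈ range Y0, ∑ u ∈ range L, ex (θ * ((a + v + u : ℤ) : ℝ))‖ = ‖Dk Y0 θ‖ * ‖Dk L θ‖ := by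
  rw [window_ex, norm_mul, norm_ex, one_mul, norm_mul]

/-- Schur's test -/
theorem schur {ι : Type*} (s : Finset ι) (a : ι → ℝ) (K : ι → ι → ℝ) {B : ℝ} (h0 : ∀ r ∈ s, ∀ r' ∈ s, 0 ≤ K r r')
    (h1 : ∀ r ∈ s, ∑ r' ∈ s, K r r' ≤ B) (h2 : ∀ r' ∈ s, ∑ r ∈ s, K r r' ≤ B) :
    ∑ r ∈ s, ∑ r' ∈ s, a r * a r' * K r r' ≤ B * ∑ r ∈ s, a r ^ 2 := by
  have e1 : ∑ r ∈ s, ∑ r' ∈ s, a r ^ 2 * K r r' ≤ B * ∑ r ∈ s, a r ^ 2 := by
    rw [mul_sum]
    refine sum_le_sum fun r hr => ?_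
    rw [← mul_sum, mul_comm]
    exact mul_le_mul_of_nonneg_right (h1 r hr) (sq_nonneg _)
  have e2 : ∑ r ∈ s, ∑ r' ∈ s, a r' ^ 2 * K r r' ≤ B * ∑ r ∈ s, a r ^ 2 := by
    rw [sum_comm, mul_sum]
    refine sum_le_sum fun r hr => ?_
    rw [← mul_sum, mul_comm]
    exact mul_le_mul_of_nonneg_right (h2 r hr) (sq_nonneg _)
  have e3 : 2 * ∑ r ∈ s, ∑ r' ∈ s, a r * a r' * K r r' ≤
      ∑ r ∈ s, ∑ r' ∈ s, a r ^ 2 * K r r' + ∑ r ∈ s, ∑ r' ∈ s, a r' ^ 2 * K r r' := by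
    rw [mul_sum, ← sum_add_distrib]
    refine sum_le_sum fun r hr => ?_
    rw [mul_sum, ← sum_add_distrib]
    refine sum_le_sum fun r' hr' => ?_
    nlinarith [mul_nonneg (sq_nonneg (a r - a r')) (h0 r hr r' hr')]
  linarith

/-- the double sum of the squares, bounded by the kernel -/
theorem window_sq_le {ι : Type*} (s : Finset ι) (x : ι → ℝ) (γ : ι → ℂ) (a : ℤ) (Y0 L : ℕ) :
    ∑ v ∈ range Y0, ∑ u ∈ range L, ‖∑ r ∈ s, γ r * ex (x r * ((a + v + u : ℤ) : ℝ))‖ ^ 2 ≤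
      ∑ r ∈ s, ∑ r' ∈ s, ‖γ r‖ * ‖γ r'‖ * (‖Dk Y0 (x r - x r')‖ * ‖Dk L (x r - x r')‖) := by
  have e : ((∑ v ∈ range Y0, ∑ u ∈ range L, ‖∑ r ∈ s, γ r * ex (x r * ((a + v + u : ℤ) : ℝ))‖ ^ 2 : ℝ) : ℂ) =
      ∑ r ∈ s, ∑ r' ∈ s, γ r * (starRingEnd ℂ) (γ r') *
        ∑ v ∈ range Y0, ∑ u ∈ range L, ex ((x r - x r') * ((a + v + u : ℤ) : ℝ)) := by
    simp only [Complex.ofReal_sum, normSq_sum, mul_sum]
    rw [sum_comm]
    simp only [sum_comm (s := range Y0) (t := s)]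
    rw [sum_comm]
    refine sum_congr rfl fun r _ => ?_
    rw [sum_comm]
    exact sum_congr rfl fun r' _ => sum_comm
  refine (le_abs_self _).trans ?_
  rw [← Real.norm_eq_abs, ← Complex.norm_real, e]
  refine (norm_sum_le _ _).trans (sum_le_sum fun r _ => (norm_sum_le _ _).trans (sum_le_sum fun r' _ => le_of_eq ?_))
  rw [norm_mul, norm_mul, Complex.norm_conj, norm_window_ex]

/-- sums over `δ`-spaced points: every `k = ⌊nd y / δ⌋` occurs at most twice -/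
theorem spaced_sum {ι : Type*} (s : Finset ι) (y : ι → ℝ) {δ : ℝ} (hδ : 0 < δ)
    (hs : ∀ r ∈ s, ∀ r' ∈ s, r ≠ r' → δ ≤ nd (y r - y r')) (g : ι → ℝ) (G : ℕ → ℝ) (K : Finset ℕ)
    (hG : ∀ k ∈ K, 0 ≤ G k) (hK : ∀ r ∈ s, ⌊nd (y r) / δ⌋₊ ∈ K) (hg : ∀ r ∈ s, g r ≤ G ⌊nd (y r) / δ⌋₊) :
    ∑ r ∈ s, g r ≤ 2 * ∑ k ∈ K, G k := by
  classical
  have key : ∀ t : Finset ι, t ⊆ s → (∀ r ∈ t, ∀ r' ∈ t, nd (y r - y r') ≤ |nd (y r) - nd (y r')|) →
      ∑ r ∈ t, g r ≤ ∑ k ∈ K, G k := by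
    intro t ht h
    have hinj : Set.InjOn (fun r => ⌊nd (y r) / δ⌋₊) t := by
      intro r hr r' hr' e
      by_contra hne
      have h1 := (hs r (ht hr) r' (ht hr') hne).trans (h r hr r' hr')
      have h2 := Nat.floor_le (div_nonneg (nd_nonneg (y r)) hδ.le)
      have h3 := Nat.floor_le (div_nonneg (nd_nonneg (y r')) hδ.le)
      have h4 := Nat.lt_floor_add_one (nd (y r) / δ)
      have h5 := Nat.lt_floor_add_one (nd (y r') / δ)
      have e' : (⌊nd (y r) / δ⌋₊ : ℝ) = ⌊nd (y r') / δ⌋₊ := by exact_mod_cast e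
      rw [le_div_iff₀ hδ] at h2 h3
      rw [div_lt_iff₀ hδ] at h4 h5
      rw [e'] at h2 h4
      refine absurd h1 (not_le.2 (abs_lt.2 ⟨?_, ?_⟩)) <;> linarith
    calc ∑ r ∈ t, g r ≤ ∑ r ∈ t, G ⌊nd (y r) / δ⌋₊ := sum_le_sum fun r hr => hg r (ht hr)
      _ = ∑ k ∈ t.image fun r => ⌊nd (y r) / δ⌋₊, G k := (sum_image hinj).symm
      _ ≤ _ := sum_le_sum_of_subset_of_nonneg (image_subset_iff.2 fun r hr => hK r (ht hr)) fun k hk _ => hG k hk
  have hd : ∀ r r', nd (y r - y r') ≤ |(y r - round (y r)) - (y r' - round (y r'))| := fun r r' => by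
    refine (nd_le _ (round (y r) - round (y r'))).trans (le_of_eq ?_)
    push_cast
    congr 1
    ring
  rw [← sum_filter_add_sum_filter_not s fun r => 0 ≤ y r - round (y r), two_mul]
  refine add_le_add (key _ (filter_subset _ _) fun r hr r' hr' => ?_) (key _ (filter_subset _ _) fun r hr r' hr' => ?_)
  · refine (hd r r').trans (le_of_eq ?_)
    unfold nd
    rw [abs_of_nonneg (mem_filter.1 hr).2, abs_of_nonneg (mem_filter.1 hr').2]
  · refine (hd r r').trans (le_of_eq ?_)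
    unfold nd
    rw [abs_of_neg (not_le.1 (mem_filter.1 hr).2), abs_of_neg (not_le.1 (mem_filter.1 hr').2), ← abs_neg]
    congr 1
    ring

theorem inv_sin_sq_le {x : ℝ} (h : 0 < nd x) : 1 / sin (π * x) ^ 2 ≤ 1 / (π * nd x) ^ 2 + 1 := by
  rw [← sq_abs, abs_sin_eq]
  have h1 : 0 < π * nd x := mul_pos pi_pos h
  have h2 : π * nd x ≤ π / 2 := by nlinarith [nd_le_half x, pi_pos]
  generalize π * nd x = t at h1 h2
  have h3 : 0 < sin t := sin_pos_of_pos_of_lt_pi h1 (by linarith [pi_pos])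
  have h4 : 0 ≤ cos t := cos_nonneg_of_neg_pi_div_two_le_of_le (by linarith [pi_pos]) h2
  have h5 : t * cos t ≤ sin t := by
    rcases h2.lt_or_eq with h6 | h6
    · have h7 := lt_tan h1 h6
      rw [tan_eq_sin_div_cos, lt_div_iff₀ (cos_pos_of_mem_Ioo ⟨by linarith [pi_pos], h6⟩)] at h7
      exact h7.le
    · rw [h6, cos_pi_div_two, mul_zero, sin_pi_div_two]
      exact zero_le_one
  have h6 : (t * cos t) ^ 2 ≤ sin t ^ 2 := pow_le_pow_left₀ (by positivity) h5 2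
  rw [div_add_one (by positivity), div_le_div_iff₀ (by positivity) (by positivity)]
  nlinarith [sin_sq_add_cos_sq t]

theorem sum_inv_sq_le (K : Finset ℕ) : ∑ k ∈ K, (1 : ℝ) / (k : ℝ) ^ 2 ≤ π ^ 2 / 6 :=
  sum_le_hasSum K (fun _ _ => by positivity) hasSum_zeta_two

/-- the off-diagonal terms -/
theorem off_diag {ι : Type*} (s : Finset ι) (y : ι → ℝ) {δ : ℝ} (hδ : 0 < δ)
    (hs : ∀ r ∈ s, ∀ r' ∈ s, r ≠ r' → δ ≤ nd (y r - y r')) (h0 : ∀ r ∈ s, δ ≤ nd (y r)) :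
    ∑ r ∈ s, 1 / sin (π * y r) ^ 2 ≤ 1 / (3 * δ ^ 2) + 1 / δ := by
  refine (spaced_sum s y hδ hs _ (fun k => 1 / (π * δ) ^ 2 * (1 / (k : ℝ) ^ 2) + 1) (Icc 1 ⌊1 / (2 * δ)⌋₊)
    (fun k _ => by positivity) (fun r hr => ?_) fun r hr => ?_).trans ?_
  · rw [mem_Icc]
    refine ⟨Nat.le_floor (by rw [Nat.cast_one, le_div_iff₀ hδ, one_mul]; exact h0 r hr), Nat.floor_le_floor ?_⟩
    rw [div_le_div_iff₀ hδ (by positivity)]
    nlinarith [nd_le_half (y r)]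
  · refine (inv_sin_sq_le (hδ.trans_le (h0 r hr))).trans (add_le_add ?_ le_rfl)
    have h1 : (1 : ℝ) ≤ ⌊nd (y r) / δ⌋₊ := by
      exact_mod_cast Nat.le_floor (by rw [Nat.cast_one, le_div_iff₀ hδ, one_mul]; exact h0 r hr)
    have h2 := Nat.floor_le (div_nonneg (nd_nonneg (y r)) hδ.le)
    rw [le_div_iff₀ hδ] at h2
    rw [one_div_mul_one_div, ← mul_pow]
    refine one_div_le_one_div_of_le (by have := pi_pos; positivity) (pow_le_pow_left₀ (by have := pi_pos; positivity) ?_ 2)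
    nlinarith [pi_pos]
  · rw [sum_add_distrib, ← mul_sum, sum_const, Nat.card_Icc, add_tsub_cancel_right, nsmul_eq_mul, mul_one]
    have h1 := sum_inv_sq_le (Icc 1 ⌊1 / (2 * δ)⌋₊)
    have h2 : (⌊1 / (2 * δ)⌋₊ : ℝ) ≤ 1 / (2 * δ) := Nat.floor_le (by positivity)
    have h3 : 1 / (π * δ) ^ 2 * (π ^ 2 / 6) = 1 / (6 * δ ^ 2) := by
      have := pi_pos
      field_simp
    have h4 := mul_le_mul_of_nonneg_left h1 (show 0 ≤ 1 / (π * δ) ^ 2 by positivity)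
    have h5 : 1 / (3 * δ ^ 2) = 2 * (1 / (6 * δ ^ 2)) := by field_simp; norm_num
    have h6 : 1 / δ = 2 * (1 / (2 * δ)) := by field_simp
    rw [h5, h6]
    linarith

/-- the dual large sieve, any index type -/
theorem ls' {ι : Type*} (s : Finset ι) (x : ι → ℝ) (γ : ι → ℂ) {δ : ℝ} (j0 : ℤ) (Y : ℕ) (hδ : 0 < δ)
    (hs : ∀ r ∈ s, ∀ r' ∈ s, r ≠ r' → δ ≤ nd (x r - x r')) :
    ∑ j ∈ Ico j0 (j0 + Y), ‖∑ r ∈ s, γ r * ex (x r * j)‖ ^ 2 ≤ (Y + 1.2 / δ + 2) * ∑ r ∈ s, ‖γ r‖ ^ 2 := by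
  classical
  obtain ⟨Z, hZ⟩ : ∃ Z : ℕ, ⌈0.6 / δ⌉₊ = Z + 1 := ⟨⌈0.6 / δ⌉₊ - 1, by
    have : 0 < ⌈0.6 / δ⌉₊ := Nat.ceil_pos.2 (by positivity)
    omega⟩
  have hZ1 : 0.6 / δ ≤ (Z : ℝ) + 1 := by
    have := Nat.le_ceil (0.6 / δ)
    rw [hZ] at this
    exact_mod_cast this
  have hZ2 : (Z : ℝ) ≤ 0.6 / δ := by
    have := Nat.ceil_lt_add_one (show 0 ≤ 0.6 / δ by positivity)
    rw [hZ] at this
    push_cast at this
    linarith
  have h1 := window_le (fun j => ‖∑ r ∈ s, γ r * ex (x r * j)‖ ^ 2) (fun _ => by positivity) (a := j0 - Z) (j0 := j0)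
    (Y := Y) (Y0 := Z + 1) (L := Y + Z) (by push_cast; omega) (by push_cast; omega)
  have row : ∀ (y : ι → ℝ) (r : ι), r ∈ s → y r = 0 → (∀ r ∈ s, ∀ r' ∈ s, r ≠ r' → δ ≤ nd (y r - y r')) →
      ∑ r' ∈ s, ‖Dk (Z + 1) (y r')‖ * ‖Dk (Y + Z) (y r')‖ ≤
        ((Z : ℝ) + 1) * (Y + Z) + (1 / (3 * δ ^ 2) + 1 / δ) := by
    intro y r hr hy h
    rw [← add_sum_erase s _ hr]
    have h0 : ∀ r' ∈ s.erase r, δ ≤ nd (y r') := fun r' hr' => by
      have := h r' (mem_of_mem_erase hr') r hr (ne_of_mem_erase hr')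
      rwa [hy, sub_zero] at this
    refine add_le_add ?_ ((sum_le_sum fun r' hr' => norm_Dk_mul_sin _ _ (hδ.trans_le (h0 r' hr'))).trans
      (off_diag _ y hδ (fun a ha b hb => h a (mem_of_mem_erase ha) b (mem_of_mem_erase hb)) h0))
    have := mul_le_mul (norm_Dk_le (Z + 1) (y r)) (norm_Dk_le (Y + Z) (y r)) (norm_nonneg _) (by positivity)
    exact_mod_cast this
  have h2 := schur s (fun r => ‖γ r‖) (fun r r' => ‖Dk (Z + 1) (x r - x r')‖ * ‖Dk (Y + Z) (x r - x r')‖)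
    (fun _ _ _ _ => by positivity)
    (fun r hr => row (fun r' => x r - x r') r hr (sub_self _) fun a ha b hb hab => by
      rw [show x r - x a - (x r - x b) = x b - x a by ring]
      exact hs b hb a ha hab.symm)
    (fun r hr => row (fun r' => x r' - x r) r hr (sub_self _) fun a ha b hb hab => by
      rw [show x a - x r - (x b - x r) = x a - x b by ring]
      exact hs a ha b hb hab)
  have h3 := h1.trans ((window_sq_le s x γ _ _ _).trans h2)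
  have h4 : ((Z : ℝ) + 1) * (Y + Z) + (1 / (3 * δ ^ 2) + 1 / δ) ≤ ((Z : ℝ) + 1) * (Y + 1.2 / δ + 2) := by
    have e1 : 1.2 / δ = 1.2 * (1 / δ) := by ring
    have e2 : 0.6 / δ = 0.6 * (1 / δ) := by ring
    have e3 : 1 / (3 * δ ^ 2) = (1 / δ) ^ 2 / 3 := by field_simp
    have h5 : 0 < 1 / δ := by positivity
    rw [e1, e3]
    rw [e2] at hZ1 hZ2
    generalize 1 / δ = w at *
    nlinarith [mul_le_mul_of_nonneg_right hZ1 h5.le, mul_le_mul_of_nonneg_left hZ2 (show (0 : ℝ) ≤ Z + 1 by positivity)]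
  have h5 : (0 : ℝ) < Z + 1 := by positivity
  refine le_of_mul_le_mul_left ?_ h5
  push_cast at h3
  rw [← mul_assoc]
  exact h3.trans (mul_le_mul_of_nonneg_right h4 (sum_nonneg fun _ _ => by positivity))

theorem ls : LS := fun _ s x γ _ j0 Y hδ hs => ls' s x γ j0 Y hδ hs

end Cfsg.Agent.Depth.S
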