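import Cfsg.Agent.Depth.S.Basic

/-!
# Depth (S5768): three abstract lemmas for the enveloping sieve (helper36)
-/

set_option autoImplicit false

namespace Cfsg.Agent.Depth.S.E

open Finset

/-- one-sided spacing bound -/
theorem space1 {Θ : Type*} (s : Finset Θ) (ρ m : Θ → ℝ) {δ T : ℝ} (hδ : 0 < δ) (hT : 0 < T)
    (h0 : ∀ i ∈ s, 0 ≤ ρ i) (hsp : ∀ i ∈ s, ∀ j ∈ s, i ≠ j → δ ≤ |ρ i - ρ j|)
    (h1 : ∀ i ∈ s, m i ≤ T) (h2 : ∀ i ∈ s, m i * ρ i ^ 2 * T ≤ 4) : ∑ i ∈ s, m i ≤ T + 8 / δ := by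
  classical
  obtain ⟨σ, hσ⟩ : ∃ σ : ℝ, σ = 2 / (T * δ) := ⟨_, rfl⟩
  have hσ0 : 0 < σ := by rw [hσ]; positivity
  obtain ⟨K, hK⟩ : ∃ K : ℝ, K = 4 * T * σ ^ 2 := ⟨_, rfl⟩
  have hK0 : 0 < K := by rw [hK]; positivity
  let g : ℕ → ℝ := fun n => if n = 0 then T else K / (n - 1 + σ) - K / (n + σ)
  let ν : Θ → ℕ := fun i => ⌊ρ i / δ⌋₊
  have hg : ∀ n : ℕ, n ≠ 0 → K / (n + σ) ^ 2 ≤ g n := by
    intro n hn
    have hn1 : (1 : ℝ) ≤ n := by exact_mod_cast Nat.one_le_iff_ne_zero.2 hn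
    have ha : 0 < (n : ℝ) - 1 + σ := by linarith
    have hb : 0 < (n : ℝ) + σ := by linarith
    simp only [g, if_neg hn]
    rw [div_sub_div _ _ ha.ne' hb.ne', show K * (n + σ) - (n - 1 + σ) * K = K by ring]
    refine div_le_div_of_nonneg_left hK0.le (mul_pos ha hb) ?_
    nlinarith
  have hg0 : ∀ n : ℕ, 0 ≤ g n := by
    intro n
    by_cases hn : n = 0
    · simp only [g, if_pos hn]; exact hT.le
    · exact le_trans (by positivity) (hg n hn)
  have hinj : Set.InjOn ν s := by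
    intro i hi j hj e
    by_contra hne
    have h := hsp i hi j hj hne
    have a1 := Nat.floor_le (div_nonneg (h0 i hi) hδ.le)
    have a2 := Nat.lt_floor_add_one (ρ i / δ)
    have a3 := Nat.floor_le (div_nonneg (h0 j hj) hδ.le)
    have a4 := Nat.lt_floor_add_one (ρ j / δ)
    have e' : (⌊ρ i / δ⌋₊ : ℝ) = ⌊ρ j / δ⌋₊ := by exact_mod_cast e
    rw [le_div_iff₀ hδ] at a1 a3
    rw [div_lt_iff₀ hδ] at a2 a4
    rw [e'] at a1 a2
    have : |ρ i - ρ j| < δ := abs_lt.2 ⟨by nlinarith, by nlinarith⟩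
    linarith
  have hm : ∀ i ∈ s, m i ≤ g (ν i) := by
    intro i hi
    by_cases hn : ν i = 0
    · simp only [g, if_pos hn]; exact h1 i hi
    refine le_trans ?_ (hg _ hn)
    have hn1 : (1 : ℝ) ≤ ν i := by exact_mod_cast Nat.one_le_iff_ne_zero.2 hn
    have hb : 0 < (ν i : ℝ) + σ := by linarith
    rw [le_div_iff₀ (by positivity)]
    rcases le_total (ν i : ℝ) σ with hc | hc
    · have : ((ν i : ℝ) + σ) ^ 2 ≤ 4 * σ ^ 2 := by nlinarith
      rcases le_total (m i) 0 with hm | hm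
      · exact (mul_nonpos_of_nonpos_of_nonneg hm (by positivity)).trans hK0.le
      · calc m i * ((ν i : ℝ) + σ) ^ 2 ≤ T * (4 * σ ^ 2) := mul_le_mul (h1 i hi) this (by positivity) hT.le
          _ = K := by rw [hK]; ring
    · rcases le_total (m i) 0 with hm | hm
      · exact (mul_nonpos_of_nonpos_of_nonneg hm (by positivity)).trans hK0.le
      have a1 : (ν i : ℝ) * δ ≤ ρ i := by
        have := Nat.floor_le (div_nonneg (h0 i hi) hδ.le)
        rwa [le_div_iff₀ hδ] at this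
      have a2 : ((ν i : ℝ) + σ) ^ 2 ≤ 4 * (ν i : ℝ) ^ 2 := by nlinarith
      have a3 : ((ν i : ℝ) * δ) ^ 2 ≤ ρ i ^ 2 := pow_le_pow_left₀ (by positivity) a1 2
      have a4 : m i * ((ν i : ℝ) * δ) ^ 2 * T ≤ 4 :=
        le_trans (mul_le_mul_of_nonneg_right (mul_le_mul_of_nonneg_left a3 hm) hT.le) (h2 i hi)
      have a5 : K * (δ ^ 2 * T) = 16 := by rw [hK, hσ]; field_simp; norm_num
      refine le_of_mul_le_mul_right ?_ (show 0 < δ ^ 2 * T by positivity)
      rw [a5]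
      calc m i * ((ν i : ℝ) + σ) ^ 2 * (δ ^ 2 * T) ≤ m i * (4 * (ν i : ℝ) ^ 2) * (δ ^ 2 * T) :=
            mul_le_mul_of_nonneg_right (mul_le_mul_of_nonneg_left a2 hm) (by positivity)
        _ = 4 * (m i * ((ν i : ℝ) * δ) ^ 2 * T) := by ring
        _ ≤ 16 := by linarith
  have hsum : ∀ N : ℕ, ∑ n ∈ range (N + 1), g n = T + K / σ - K / (N + σ) := by
    intro N
    induction N with
    | zero => simp [g]
    | succ N ih =>
      rw [sum_range_succ, ih]
      simp only [g, if_neg (Nat.succ_ne_zero N)]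
      push_cast
      rw [show (N : ℝ) + 1 - 1 + σ = N + σ by ring]
      ring
  calc ∑ i ∈ s, m i ≤ ∑ i ∈ s, g (ν i) := sum_le_sum hm
    _ = ∑ n ∈ s.image ν, g n := (sum_image hinj).symm
    _ ≤ ∑ n ∈ range (s.sup ν + 1), g n := by
        refine sum_le_sum_of_subset_of_nonneg (fun n hn => ?_) fun n _ _ => hg0 n
        obtain ⟨i, hi, rfl⟩ := mem_image.1 hn
        exact mem_range.2 (Nat.lt_succ_of_le (le_sup hi))
    _ ≤ T + K / σ := by
        rw [hsum]
        have : 0 ≤ K / ((s.sup ν : ℕ) + σ) := by positivity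
        linarith
    _ = T + 8 / δ := by
        rw [hK, hσ]; field_simp; norm_num

/-- spacing bound modulo one -/
theorem space {Θ : Type*} (s : Finset Θ) (y m : Θ → ℝ) {δ T : ℝ} (hδ : 0 < δ) (hT : 0 < T)
    (hsp : ∀ i ∈ s, ∀ j ∈ s, i ≠ j → δ ≤ nd (y i - y j))
    (h1 : ∀ i ∈ s, m i ≤ T) (h2 : ∀ i ∈ s, m i * nd (y i) ^ 2 * T ≤ 4) : ∑ i ∈ s, m i ≤ 2 * T + 16 / δ := by
  classical
  have key : ∀ i ∈ s, ∀ j ∈ s, i ≠ j → δ ≤ |(y i - round (y i)) - (y j - round (y j))| := by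
    intro i hi j hj hne
    refine (hsp i hi j hj hne).trans ((nd_le _ (round (y i) - round (y j))).trans (le_of_eq ?_))
    push_cast
    congr 1
    ring
  rw [← sum_filter_add_sum_filter_not s (fun i => 0 ≤ y i - round (y i))]
  have a := space1 (s.filter fun i => 0 ≤ y i - round (y i)) (fun i => y i - round (y i)) m hδ hT
    (fun i hi => (mem_filter.1 hi).2)
    (fun i hi j hj => key i (mem_filter.1 hi).1 j (mem_filter.1 hj).1) (fun i hi => h1 i (mem_filter.1 hi).1)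
    (fun i hi => by have := h2 i (mem_filter.1 hi).1; rwa [nd, sq_abs] at this)
  have b := space1 (s.filter fun i => ¬ 0 ≤ y i - round (y i)) (fun i => -(y i - round (y i))) m hδ hT
    (fun i hi => by have := (mem_filter.1 hi).2; linarith)
    (fun i hi j hj hne => by
      have := key j (mem_filter.1 hj).1 i (mem_filter.1 hi).1 hne.symm
      rwa [show -(y i - round (y i)) - -(y j - round (y j)) = (y j - round (y j)) - (y i - round (y i)) by ring])
    (fun i hi => h1 i (mem_filter.1 hi).1)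
    (fun i hi => by have := h2 i (mem_filter.1 hi).1; rwa [nd, sq_abs, ← neg_sq] at this)
  have : 16 / δ = 8 / δ + 8 / δ := by ring
  linarith

/-- partial summation over the heights -/
theorem abel {Θ : Type*} (s : Finset Θ) (r : Θ → ℕ) (m : Θ → ℝ) (w : ℕ → ℝ) {a C : ℝ} (hC : 0 ≤ C)
    (hr : ∀ i ∈ s, 1 ≤ r i) (hw0 : ∀ n, 0 ≤ w n) (hw : ∀ n, 1 ≤ n → w (n + 1) ≤ w n)
    (hA : ∀ n : ℕ, 1 ≤ n → ∑ i ∈ s.filter (fun i => r i ≤ n), m i ≤ a + C * (n : ℝ) ^ 2) (N : ℕ) (hN : 1 ≤ N) :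
    ∑ i ∈ s.filter (fun i => r i ≤ N), w (r i) * m i ≤ a * w 1 + 2 * C * ∑ n ∈ range N, ((n + 1 : ℕ) : ℝ) * w (n + 1) := by
  classical
  have key : ∑ i ∈ s.filter (fun i => r i ≤ N), w (r i) * m i +
      w N * (a + C * (N : ℝ) ^ 2 - ∑ i ∈ s.filter (fun i => r i ≤ N), m i) ≤
      a * w 1 + 2 * C * ∑ n ∈ range N, ((n + 1 : ℕ) : ℝ) * w (n + 1) := by
    induction N, hN using Nat.le_induction with
    | base =>
      have e : ∑ i ∈ s.filter (fun i => r i ≤ 1), w (r i) * m i = w 1 * ∑ i ∈ s.filter (fun i => r i ≤ 1), m i := by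
        rw [mul_sum]
        refine sum_congr rfl fun i hi => ?_
        rw [le_antisymm (mem_filter.1 hi).2 (hr i (mem_filter.1 hi).1)]
      rw [e]
      simp only [range_one, sum_singleton, zero_add, Nat.cast_one]
      nlinarith [mul_nonneg hC (hw0 1)]
    | succ N hN ih =>
      have split : ∀ F : Θ → ℝ, ∑ i ∈ s.filter (fun i => r i ≤ N + 1), F i =
          ∑ i ∈ s.filter (fun i => r i ≤ N), F i + ∑ i ∈ s.filter (fun i => r i = N + 1), F i := by
        intro F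
        rw [← sum_union (disjoint_filter.2 fun i _ h1 h2 => by omega), ← filter_or]
        exact sum_congr (filter_congr fun i _ => by omega) fun _ _ => rfl
      have e : ∑ i ∈ s.filter (fun i => r i = N + 1), w (r i) * m i =
          w (N + 1) * ∑ i ∈ s.filter (fun i => r i = N + 1), m i := by
        rw [mul_sum]
        exact sum_congr rfl fun i hi => by rw [(mem_filter.1 hi).2]
      rw [split, split, e, sum_range_succ]
      have h1 := mul_nonneg (sub_nonneg.2 (hw N hN)) (sub_nonneg.2 (hA N hN))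
      have h2 := mul_nonneg hC (hw0 (N + 1))
      push_cast at ih ⊢
      nlinarith
  have := mul_nonneg (hw0 N) (sub_nonneg.2 (hA N hN))
  linarith

/-- the square of the sieve weight, expanded over sets of primes -/
theorem comb {I K : Type*} [DecidableEq I] (D Rr : Finset (Finset I)) (κs : Finset K) (ω : K → ℝ) (h : I → K → ℝ)
    (a κ : I → ℝ) (ha : ∀ i, 0 ≤ a i) (hκ : ∀ i, |κ i| ≤ 1) (hh : ∀ i k, h i k ^ 2 = κ i * h i k + a i)
    (hD : ∀ S ∈ D, ∀ S' ⊆ S, S' ∈ D) (hR : ∀ S ∈ D, ∀ S' ∈ D, ∀ r ⊆ S ∪ S', r ∈ Rr) :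
    ∑ k ∈ κs, ω k * (∑ S ∈ D, ∏ i ∈ S, h i k) ^ 2 ≤
      (∑ S ∈ D, ∏ i ∈ S, a i) * ∑ r ∈ Rr, 3 ^ r.card * |∑ k ∈ κs, ω k * ∏ i ∈ r, h i k| := by
  classical
  let F : Finset I → ℝ := fun r => |∑ k ∈ κs, ω k * ∏ i ∈ r, h i k|
  have hprod : ∀ (S S' : Finset I) (k : K), (∏ i ∈ S, h i k) * ∏ i ∈ S', h i k =
      ∑ U ∈ (S ∩ S').powerset, ((∏ i ∈ U, κ i) * ∏ i ∈ (S ∩ S') \ U, a i) *
        ∏ i ∈ (S \ S') ∪ (S' \ S) ∪ U, h i k := by
    intro S S' k
    rw [← prod_inter_mul_prod_sdiff S S', ← prod_inter_mul_prod_sdiff S' S, inter_comm S' S]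
    have e1 : (∏ i ∈ S ∩ S', h i k) * ∏ i ∈ S ∩ S', h i k = ∏ i ∈ S ∩ S', (κ i * h i k + a i) := by
      rw [← prod_mul_distrib]
      exact prod_congr rfl fun i _ => by rw [← hh, sq]
    rw [mul_mul_mul_comm, e1, prod_add, sum_mul]
    refine sum_congr rfl fun U hU => ?_
    have hU' := mem_powerset.1 hU
    have d1 : Disjoint (S \ S') (S' \ S) := disjoint_sdiff_sdiff
    have d2 : Disjoint (S \ S' ∪ S' \ S) U := by
      refine disjoint_left.2 fun i hi hiU => ?_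
      have := mem_inter.1 (hU' hiU)
      simp only [mem_union, mem_sdiff] at hi
      tauto
    rw [prod_union d2, prod_union d1, prod_mul_distrib]
    ring
  have step1 : ∑ k ∈ κs, ω k * (∑ S ∈ D, ∏ i ∈ S, h i k) ^ 2 ≤
      ∑ S ∈ D, ∑ S' ∈ D, ∑ U ∈ (S ∩ S').powerset, (∏ i ∈ (S ∩ S') \ U, a i) * F ((S \ S') ∪ (S' \ S) ∪ U) := by
    have e : ∑ k ∈ κs, ω k * (∑ S ∈ D, ∏ i ∈ S, h i k) ^ 2 =
        ∑ S ∈ D, ∑ S' ∈ D, ∑ U ∈ (S ∩ S').powerset, ((∏ i ∈ U, κ i) * ∏ i ∈ (S ∩ S') \ U, a i) *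
          ∑ k ∈ κs, ω k * ∏ i ∈ (S \ S') ∪ (S' \ S) ∪ U, h i k := by
      simp only [sq, sum_mul_sum, hprod]
      simp only [mul_sum]
      rw [sum_comm]
      refine sum_congr rfl fun S _ => ?_
      rw [sum_comm]
      refine sum_congr rfl fun S' _ => ?_
      rw [sum_comm]
      refine sum_congr rfl fun U _ => sum_congr rfl fun k _ => by ring
    rw [e]
    refine sum_le_sum fun S _ => sum_le_sum fun S' _ => sum_le_sum fun U _ => (le_abs_self _).trans ?_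
    have p1 : 0 ≤ ∏ i ∈ (S ∩ S') \ U, a i := prod_nonneg fun i _ => ha i
    have p2 : |∏ i ∈ U, κ i| ≤ 1 := by
      rw [abs_prod]
      exact prod_le_one (fun i _ => abs_nonneg _) fun i _ => hκ i
    rw [abs_mul, abs_mul, abs_of_nonneg p1]
    exact mul_le_mul_of_nonneg_right (mul_le_of_le_one_left p1 p2) (abs_nonneg _)
  refine step1.trans ?_
  -- the injection
  let X : Finset (Σ _ : Finset I, Σ _ : Finset I, Finset I) :=
    D.sigma fun S => D.sigma fun S' => (S ∩ S').powerset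
  let Y : Finset (Σ _ : Finset I, Σ _ : Finset I, Σ _ : Finset I, Finset I) :=
    D.sigma fun _ => Rr.sigma fun r => r.powerset.sigma fun r1 => (r \ r1).powerset
  let φ : (Σ _ : Finset I, Σ _ : Finset I, Finset I) → (Σ _ : Finset I, Σ _ : Finset I, Σ _ : Finset I, Finset I) :=
    fun x => ⟨(x.1 ∩ x.2.1) \ x.2.2, (x.1 \ x.2.1) ∪ (x.2.1 \ x.1) ∪ x.2.2, x.1 \ x.2.1, x.2.1 \ x.1⟩
  let g : (Σ _ : Finset I, Σ _ : Finset I, Σ _ : Finset I, Finset I) → ℝ := fun y => (∏ i ∈ y.1, a i) * F y.2.1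
  have hinj : Set.InjOn φ X := by
    rintro ⟨S, S', U⟩ hx ⟨T, T', V⟩ hy e
    simp only [X, mem_coe, mem_sigma, mem_powerset] at hx hy
    simp only [φ, Sigma.mk.injEq, heq_eq_eq] at e
    obtain ⟨e1, e2, e3, e4⟩ := e
    have q : ∀ i, (i ∈ S ↔ i ∈ T) ∧ (i ∈ S' ↔ i ∈ T') ∧ (i ∈ U ↔ i ∈ V) := by
      intro i
      have a1 := Finset.ext_iff.1 e1 i
      have a2 := Finset.ext_iff.1 e2 i
      have a3 := Finset.ext_iff.1 e3 i
      have a4 := Finset.ext_iff.1 e4 i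
      have a5 := @hx.2.2 i
      have a6 := @hy.2.2 i
      simp only [mem_sdiff, mem_inter, mem_union] at a1 a2 a3 a4 a5 a6
      clear e1 e2 e3 e4 hx hy step1 hprod
      grind
    obtain rfl : S = T := Finset.ext fun i => (q i).1
    obtain rfl : S' = T' := Finset.ext fun i => (q i).2.1
    obtain rfl : U = V := Finset.ext fun i => (q i).2.2
    rfl
  have hsub : X.image φ ⊆ Y := by
    intro y hy
    obtain ⟨⟨S, S', U⟩, hx, rfl⟩ := mem_image.1 hy
    simp only [X, mem_sigma, mem_powerset] at hx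
    simp only [Y, φ, mem_sigma, mem_powerset]
    refine ⟨hD S hx.1 _ (sdiff_subset.trans inter_subset_left), hR S hx.1 S' hx.2.1 _ fun i hi => ?_,
      subset_union_left.trans subset_union_left, fun i hi => ?_⟩
    · have a5 := @hx.2.2 i
      simp only [mem_sdiff, mem_inter, mem_union] at a5 hi ⊢
      tauto
    · simp only [mem_sdiff, mem_union] at hi ⊢
      tauto
  calc ∑ S ∈ D, ∑ S' ∈ D, ∑ U ∈ (S ∩ S').powerset, (∏ i ∈ (S ∩ S') \ U, a i) * F ((S \ S') ∪ (S' \ S) ∪ U)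
      = ∑ x ∈ X, g (φ x) := by simp only [X, sum_sigma, g, φ]
    _ = ∑ y ∈ X.image φ, g y := (sum_image hinj).symm
    _ ≤ ∑ y ∈ Y, g y := sum_le_sum_of_subset_of_nonneg hsub fun y _ _ =>
        mul_nonneg (prod_nonneg fun i _ => ha i) (abs_nonneg _)
    _ = _ := by
        simp only [Y, sum_sigma, g]
        rw [sum_mul_sum]
        refine sum_congr rfl fun S _ => sum_congr rfl fun r _ => ?_
        have e3 : (3 : ℝ) ^ r.card = ∑ r1 ∈ r.powerset, 1 ^ r1.card * 2 ^ (r.card - r1.card) := by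
          rw [sum_pow_mul_eq_add_pow]; norm_num
        rw [e3, sum_mul, mul_sum]
        refine sum_congr rfl fun r1 h1 => ?_
        rw [sum_const, card_powerset, card_sdiff_of_subset (mem_powerset.1 h1), nsmul_eq_mul]
        push_cast
        simp only [F]
        ring

end Cfsg.Agent.Depth.S.E
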