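import Cfsg.Agent.Depth.S.E1

/-!
# Depth (S5768): the enveloping sieve, frequencies and the error term (helper36)
-/

set_option autoImplicit false

namespace Cfsg.Agent.Depth.S.E

open Finset

/-- the local factor `-c_p(n)/(p-1)` -/
noncomputable def hh (p : ℕ) (n : ℤ) : ℝ := if (p : ℤ) ∣ n then -1 else 1 / ((p : ℝ) - 1)

theorem hh_sq {p : ℕ} (hp : 2 ≤ p) (n : ℤ) :
    hh p n ^ 2 = -(((p : ℝ) - 2) / ((p : ℝ) - 1)) * hh p n + 1 / ((p : ℝ) - 1) := by
  have h2 : (2 : ℝ) ≤ p := by exact_mod_cast hp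
  have h1 : (p : ℝ) - 1 ≠ 0 := by linarith
  unfold hh
  split_ifs
  · field_simp; ring
  · field_simp; ring

theorem hh_ex {p : ℕ} (hp : 2 ≤ p) (n : ℤ) :
    (hh p n : ℂ) = ((-(1 / ((p : ℝ) - 1)) : ℝ) : ℂ) * ∑ b ∈ Ico 1 p, ex ((b : ℝ) / p * n) := by
  have h2 : (2 : ℝ) ≤ p := by exact_mod_cast hp
  have h1 : (p : ℂ) - 1 ≠ 0 := by
    have : (p : ℝ) - 1 ≠ 0 := by linarith
    exact_mod_cast this
  have h := ortho' (M := p) (by omega) n
  rw [range_eq_Ico, sum_eq_sum_Ico_succ_bot (by omega)] at h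
  simp only [Nat.cast_zero, zero_mul, zero_div, ex_zero, zero_add] at h
  have e : ∑ b ∈ Ico 1 p, ex ((b : ℝ) / p * n) = ∑ b ∈ Ico 1 p, ex ((b : ℝ) * n / p) :=
    sum_congr rfl fun b _ => by congr 1; ring
  rw [e, eq_sub_of_add_eq' h]
  unfold hh
  split_ifs
  · push_cast; field_simp
  · push_cast; field_simp; ring

theorem ex_sum {I : Type*} (s : Finset I) (y : I → ℝ) : ex (∑ i ∈ s, y i) = ∏ i ∈ s, ex (y i) := by
  classical
  induction s using Finset.induction_on with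
  | empty => simp [ex_zero]
  | insert i s hi ih => rw [sum_insert hi, prod_insert hi, ex_add, ih]

variable {I : Type} [Fintype I] [DecidableEq I] (p : I → ℕ)

/-- numerators with support `r` -/
def BB (r : Finset I) : Finset (I → ℕ) := Fintype.piFinset fun i => if i ∈ r then Ico 1 (p i) else {0}

/-- the frequency of a family of numerators -/
noncomputable def th (b : I → ℕ) : ℝ := ∑ i, (b i : ℝ) / p i

variable {p}

theorem prod_hh (hp : ∀ i, 2 ≤ p i) (r : Finset I) (n : ℤ) :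
    ((∏ i ∈ r, hh (p i) n : ℝ) : ℂ) =
      ((∏ i ∈ r, -(1 / ((p i : ℝ) - 1)) : ℝ) : ℂ) * ∑ b ∈ BB p r, ex (th p b * n) := by
  have e1 : ∑ b ∈ BB p r, ex (th p b * n) = ∏ i ∈ r, ∑ b ∈ Ico 1 (p i), ex ((b : ℝ) / p i * n) := by
    have e2 : ∀ b, ex (th p b * n) = ∏ i, ex ((b i : ℝ) / p i * n) := fun b => by rw [th, sum_mul, ex_sum]
    simp only [e2, BB]
    rw [← prod_univ_sum (fun i => if i ∈ r then Ico 1 (p i) else {0}) (fun i b => ex ((b : ℝ) / p i * n)),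
      ← prod_subset (subset_univ r)]
    · exact prod_congr rfl fun i hi => by rw [if_pos hi]
    · intro i _ hi
      rw [if_neg hi]
      simp [ex_zero]
  rw [e1, Complex.ofReal_prod, Complex.ofReal_prod, ← prod_mul_distrib]
  exact prod_congr rfl fun i _ => hh_ex (hp i) n

omit [Fintype I] in
theorem clear_den (hp : ∀ i, 2 ≤ p i) (S : Finset I) (d : I → ℤ) :
    ∃ m : ℤ, ((∏ i ∈ S, p i : ℕ) : ℝ) * ∑ i ∈ S, (d i : ℝ) / p i = m := by
  refine ⟨∑ i ∈ S, d i * ∏ j ∈ S.erase i, (p j : ℤ), ?_⟩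
  rw [mul_sum]
  push_cast
  refine sum_congr rfl fun i hi => ?_
  have h0 : (p i : ℝ) ≠ 0 := by
    have := hp i
    have : p i ≠ 0 := by omega
    exact_mod_cast this
  rw [← mul_prod_erase S _ hi]
  field_simp

theorem mem_BB {r : Finset I} {b : I → ℕ} (hp : ∀ i, 2 ≤ p i) (hb : b ∈ BB p r) (i : I) :
    b i < p i ∧ (i ∈ r ↔ b i ≠ 0) := by
  have h := Fintype.mem_piFinset.1 hb i
  have := hp i
  by_cases hi : i ∈ r
  · rw [if_pos hi, mem_Ico] at h
    exact ⟨h.2, fun _ => by omega, fun _ => hi⟩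
  · rw [if_neg hi, mem_singleton] at h
    exact ⟨by omega, fun h' => absurd h' hi, fun h' => absurd h h'⟩

theorem th_den (hp : ∀ i, 2 ≤ p i) {r : Finset I} {b : I → ℕ} (hb : b ∈ BB p r) :
    ∃ m : ℤ, ((∏ i ∈ r, p i : ℕ) : ℝ) * th p b = m := by
  obtain ⟨m, hm⟩ := clear_den hp r (fun i => b i)
  refine ⟨m, ?_⟩
  rw [← hm, th, ← sum_subset (subset_univ r)]
  · simp
  · intro i _ hi
    have : b i = 0 := by
      by_contra h
      exact hi ((mem_BB hp hb i).2.2 h)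
    simp [this]

theorem th_not_int (hp : ∀ i, (p i).Prime) (hinj : Function.Injective p) {W : ℕ} (hW : ∀ i, ¬ p i ∣ W)
    {b b' : I → ℕ} (hb : ∀ i, b i < p i) (hb' : ∀ i, b' i < p i) (hne : b ≠ b') (z : ℤ) :
    W * th p b - W * th p b' ≠ z := by
  intro e
  obtain ⟨i, hi⟩ := Function.ne_iff.1 hne
  obtain ⟨m, hm⟩ := clear_den (fun i => (hp i).two_le) (univ.erase i) (fun j => (b j : ℤ) - b' j)
  have h0 : (p i : ℝ) ≠ 0 := by exact_mod_cast (hp i).ne_zero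
  have e1 : th p b - th p b' = ((b i : ℝ) - b' i) / p i + ∑ j ∈ univ.erase i, (((b j : ℤ) - b' j : ℤ) : ℝ) / p j := by
    rw [th, th, ← sum_sub_distrib, ← add_sum_erase _ _ (mem_univ i), sub_div]
    congr 1
    refine sum_congr rfl fun j _ => ?_
    push_cast
    rw [sub_div]
  obtain ⟨Q, hQ⟩ : ∃ Q : ℕ, Q = ∏ j ∈ univ.erase i, p j := ⟨_, rfl⟩
  rw [← hQ] at hm
  have e2 : (W : ℝ) * Q * ((b i : ℝ) - b' i) = p i * (Q * z - W * m) := by
    rw [← hm, ← e, ← mul_sub, e1]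
    field_simp
    ring
  have e3 : (W : ℤ) * Q * ((b i : ℤ) - b' i) = p i * (Q * z - W * m) := by exact_mod_cast e2
  have hpi : Prime (p i : ℤ) := Nat.prime_iff_prime_int.1 (hp i)
  rcases hpi.dvd_or_dvd ⟨_, e3⟩ with h | h
  · rcases hpi.dvd_or_dvd h with h | h
    · exact hW i (Int.natCast_dvd_natCast.1 h)
    · rw [Int.natCast_dvd_natCast, hQ] at h
      obtain ⟨j, hj, h⟩ := (Prime.dvd_finsetProd_iff (hp i).prime _).1 h
      exact (mem_erase.1 hj).1 (hinj ((Nat.prime_dvd_prime_iff_eq (hp i) (hp j)).1 h)).symm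
  · have := Int.eq_zero_of_abs_lt_dvd h (abs_lt.2 ⟨by have := hb' i; omega, by have := hb i; omega⟩)
    omega

theorem th_space (hp : ∀ i, (p i).Prime) (hinj : Function.Injective p) {W : ℕ} (hW : ∀ i, ¬ p i ∣ W)
    {r r' : Finset I} {b b' : I → ℕ} (hb : b ∈ BB p r) (hb' : b' ∈ BB p r') (hne : b ≠ b') {n : ℕ}
    (hr : ∏ i ∈ r, p i ≤ n) (hr' : ∏ i ∈ r', p i ≤ n) : 1 / (n : ℝ) ^ 2 ≤ nd (W * th p b - W * th p b') := by
  have hp2 : ∀ i, 2 ≤ p i := fun i => (hp i).two_le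
  obtain ⟨m, hm⟩ := th_den hp2 hb
  obtain ⟨m', hm'⟩ := th_den hp2 hb'
  obtain ⟨A, hA⟩ : ∃ A : ℕ, A = ∏ i ∈ r, p i := ⟨_, rfl⟩
  obtain ⟨A', hA'⟩ : ∃ A : ℕ, A = ∏ i ∈ r', p i := ⟨_, rfl⟩
  have hA0 : 0 < A := hA ▸ prod_pos fun i _ => (hp i).pos
  have hA0' : 0 < A' := hA' ▸ prod_pos fun i _ => (hp i).pos
  rw [← hA] at hm hr
  rw [← hA'] at hm' hr'
  have a0 : (0 : ℝ) < A := by exact_mod_cast hA0
  have a0' : (0 : ℝ) < A' := by exact_mod_cast hA0'
  have e : (W : ℝ) * th p b - W * th p b' = ((W * (m * A' - m' * A) : ℤ) : ℝ) / ((A * A' : ℕ) : ℝ) := by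
    push_cast
    rw [← hm, ← hm']
    field_simp
  have hnd : ¬ ((A * A' : ℕ) : ℤ) ∣ W * (m * A' - m' * A) := by
    rintro ⟨z, hz⟩
    refine th_not_int hp hinj hW (fun i => (mem_BB hp2 hb i).1) (fun i => (mem_BB hp2 hb' i).1) hne z ?_
    rw [e, hz]
    push_cast
    field_simp
  rw [e]
  refine le_trans ?_ (one_div_le_nd (Nat.mul_pos hA0 hA0') hnd)
  refine one_div_le_one_div_of_le (by push_cast; positivity) ?_
  rw [sq]
  exact_mod_cast Nat.mul_le_mul hr hr'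

/-- the weight majorant -/
noncomputable def ww (z : ℝ) (n : ℕ) : ℝ := min (3.5 / z) ((n : ℝ) ^ (-0.96 : ℝ))

theorem three_le {q : ℝ} (hq : 10 ^ 12 ≤ q) : 3 * (1 / (q - 1)) ≤ q ^ (-0.96 : ℝ) := by
  have h0 : 0 < q := lt_of_lt_of_le (by norm_num) hq
  have h1 : (3.01 : ℝ) ≤ q ^ (0.04 : ℝ) := by
    refine le_of_pow_le_pow_left₀ (n := 25) (by norm_num) (by positivity) ?_
    rw [← Real.rpow_natCast (q ^ (0.04 : ℝ)), ← Real.rpow_mul h0.le]
    norm_num
    linarith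
  have h2 : q ^ (-0.96 : ℝ) * q = q ^ (0.04 : ℝ) := by
    rw [← Real.rpow_add_one h0.ne']
    norm_num
  have h3 : 0 < q - 1 := by linarith
  rw [mul_one_div, div_le_iff₀ h3]
  refine le_of_mul_le_mul_right ?_ h0
  rw [mul_right_comm, h2]
  nlinarith

omit [Fintype I] in
theorem weight_le {z : ℝ} (hz : 10 ^ 12 ≤ z) (hp : ∀ i, z < p i) {r : Finset I} (hr : r.Nonempty) :
    3 ^ r.card * ∏ i ∈ r, 1 / ((p i : ℝ) - 1) ≤ ww z (∏ i ∈ r, p i) := by
  have hz0 : 0 < z := lt_of_lt_of_le (by norm_num) hz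
  have h1 : ∀ i, 0 < (p i : ℝ) - 1 := fun i => by have := hp i; linarith
  have h0 : ∀ i, 0 ≤ 3 * (1 / ((p i : ℝ) - 1)) := fun i => by have := h1 i; positivity
  rw [← prod_const, ← prod_mul_distrib]
  refine le_min ?_ ?_
  · obtain ⟨i, hi⟩ := hr
    have h2 : ∀ i, 3 * (1 / ((p i : ℝ) - 1)) ≤ 3.5 / z := fun i => by
      rw [mul_one_div, div_le_div_iff₀ (h1 i) hz0]
      have := hp i
      linarith
    have h3 : 3.5 / z ≤ 1 := by rw [div_le_one hz0]; linarith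
    rw [← mul_prod_erase r _ hi]
    exact (mul_le_of_le_one_right (h0 i) (prod_le_one (fun j _ => h0 j) fun j _ => (h2 j).trans h3)).trans (h2 i)
  · push_cast
    rw [← Real.finsetProd_rpow _ _ (fun i _ => Nat.cast_nonneg _)]
    exact prod_le_prod (fun i _ => h0 i) fun i _ => three_le (hz.trans (hp i).le)

/-- the total weight of the non-zero frequencies near a point -/
theorem omega_le {z T : ℝ} (hz : 10 ^ 12 ≤ z) (hT : 0 < T) (hp : ∀ i, (p i).Prime) (hinj : Function.Injective p)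
    (hzp : ∀ i, z < p i) {W : ℕ} (hW : ∀ i, ¬ p i ∣ W) (M : ℝ → ℝ) (hM0 : ∀ y, 0 ≤ M y) (hM1 : ∀ y, M y ≤ T)
    (hM2 : ∀ y, M y * nd y ^ 2 * T ≤ 4) {N : ℕ} (hN : 1 ≤ N) (ξ : ℝ) :
    ∑ r ∈ (univ.filter fun r : Finset I => ∏ i ∈ r, p i ≤ N).erase ∅,
      (3 ^ r.card * ∏ i ∈ r, 1 / ((p i : ℝ) - 1)) * ∑ b ∈ BB p r, M (ξ + W * th p b) ≤
      7 * T / z + 32 * (N : ℝ) ^ (1.04 : ℝ) := by
  have hz0 : 0 < z := lt_of_lt_of_le (by norm_num) hz
  have hp2 : ∀ i, 2 ≤ p i := fun i => (hp i).two_le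
  let Θ : Finset (Σ _ : Finset I, I → ℕ) := (univ : Finset (Finset I)).sigma fun r => BB p r
  have hab := abel Θ (fun x => ∏ i ∈ x.1, p i) (fun x => M (ξ + W * th p x.2)) (ww z) (a := 2 * T) (C := 16)
    (by norm_num) (fun x _ => prod_pos fun i _ => (hp i).pos)
    (fun n => le_min (by positivity) (by positivity))
    (fun n hn => min_le_min le_rfl (Real.rpow_le_rpow_of_nonpos (by exact_mod_cast hn) (by push_cast; linarith)
      (by norm_num)))
    (fun n hn => by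
      have hn0 : (0 : ℝ) < n := by exact_mod_cast hn
      have := space (Θ.filter fun x => ∏ i ∈ x.1, p i ≤ n) (fun x => ξ + W * th p x.2)
        (fun x => M (ξ + W * th p x.2)) (δ := 1 / (n : ℝ) ^ 2) (by positivity) hT ?_ (fun x _ => hM1 _)
        (fun x _ => hM2 _)
      · rwa [div_div_eq_mul_div, div_one] at this
      · rintro ⟨r, b⟩ hx ⟨r', b'⟩ hy hne
        simp only [Θ, mem_filter, mem_sigma, mem_univ, true_and] at hx hy
        rw [add_sub_add_left_eq_sub]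
        refine th_space hp hinj hW hx.1 hy.1 (fun e => hne ?_) hx.2 hy.2
        subst e
        obtain rfl : r = r' := Finset.ext fun i => (mem_BB hp2 hx.1 i).2.trans (mem_BB hp2 hy.1 i).2.symm
        rfl) N hN
  have h1 : ∑ r ∈ (univ.filter fun r : Finset I => ∏ i ∈ r, p i ≤ N).erase ∅,
      (3 ^ r.card * ∏ i ∈ r, 1 / ((p i : ℝ) - 1)) * ∑ b ∈ BB p r, M (ξ + W * th p b) ≤
      ∑ x ∈ Θ.filter (fun x => ∏ i ∈ x.1, p i ≤ N), ww z (∏ i ∈ x.1, p i) * M (ξ + W * th p x.2) := by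
    have e : Θ.filter (fun x => ∏ i ∈ x.1, p i ≤ N) =
        (univ.filter fun r : Finset I => ∏ i ∈ r, p i ≤ N).sigma fun r => BB p r := by
      ext ⟨r, b⟩
      simp only [Θ, mem_filter, mem_sigma, mem_univ, true_and]
      exact and_comm
    rw [e, sum_sigma]
    refine le_trans (sum_le_sum fun r hr => ?_) (sum_le_sum_of_subset_of_nonneg (erase_subset ∅ _) fun r _ _ =>
      sum_nonneg fun b _ => mul_nonneg (le_min (by positivity) (by positivity)) (hM0 _))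
    dsimp only
    rw [← mul_sum]
    exact mul_le_mul_of_nonneg_right (weight_le hz hzp (nonempty_iff_ne_empty.2 (mem_erase.1 hr).1))
      (sum_nonneg fun b _ => hM0 _)
  have h2 : 2 * T * ww z 1 ≤ 7 * T / z := by
    refine (mul_le_mul_of_nonneg_left (min_le_left _ _) (by positivity)).trans (le_of_eq ?_)
    ring
  have hN0 : (0 : ℝ) < N := by exact_mod_cast hN
  have h3 : ∑ n ∈ range N, ((n + 1 : ℕ) : ℝ) * ww z (n + 1) ≤ (N : ℝ) ^ (1.04 : ℝ) := by
    have h4 : ∀ n ∈ range N, ((n + 1 : ℕ) : ℝ) * ww z (n + 1) ≤ (N : ℝ) ^ (0.04 : ℝ) := by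
      intro n hn
      have h5 : (0 : ℝ) < ((n + 1 : ℕ) : ℝ) := by positivity
      refine (mul_le_mul_of_nonneg_left (min_le_right _ _) h5.le).trans ?_
      rw [mul_comm, ← Real.rpow_add_one h5.ne', show (-0.96 : ℝ) + 1 = 0.04 by norm_num]
      exact Real.rpow_le_rpow h5.le (by exact_mod_cast mem_range.1 hn) (by norm_num)
    refine (sum_le_card_nsmul _ _ _ h4).trans (le_of_eq ?_)
    rw [card_range, nsmul_eq_mul, mul_comm, ← Real.rpow_add_one hN0.ne']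
    norm_num
  linarith

end Cfsg.Agent.Depth.S.E
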