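import Cfsg.Agent.Depth.S.E2

/-!
# Depth (S5768): the enveloping sieve `LemE` (helper36)
-/

set_option autoImplicit false

namespace Cfsg.Agent.Depth.S.E

open Finset

/-- the Fourier transform of the trapezoid, in absolute value -/
noncomputable def MM (T Y0 : ℕ) (y : ℝ) : ℝ := ‖∑ u ∈ range T, ex (y * u)‖ * ‖∑ v ∈ range Y0, ex (-y * v)‖ / Y0

theorem MM_nonneg (T Y0 : ℕ) (y : ℝ) : 0 ≤ MM T Y0 y := by unfold MM; positivity

theorem MM_le {T Y0 : ℕ} (h : 0 < Y0) (y : ℝ) : MM T Y0 y ≤ T := by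
  have h0 : (0 : ℝ) < Y0 := by exact_mod_cast h
  unfold MM
  rw [div_le_iff₀ h0]
  exact mul_le_mul (norm_geom_le _ _) (norm_geom_le _ _) (norm_nonneg _) (Nat.cast_nonneg _)

theorem MM_nd {T Y0 : ℕ} (h : 0 < Y0) (hT : T ≤ 11 * Y0) (y : ℝ) : MM T Y0 y * nd y ^ 2 * T ≤ 4 := by
  have h0 : (0 : ℝ) < Y0 := by exact_mod_cast h
  have h1 := norm_geom_mul_nd y T
  have h2 := norm_geom_mul_nd (-y) Y0
  rw [nd_neg] at h2
  have h3 := mul_le_mul h1 h2 (mul_nonneg (norm_nonneg _) (by have := nd_nonneg y; positivity)) zero_le_one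
  have h4 : (T : ℝ) ≤ 11 * Y0 := by exact_mod_cast hT
  unfold MM
  rw [div_mul_eq_mul_div, div_mul_eq_mul_div, div_le_iff₀ h0]
  have h5 : ‖∑ u ∈ range T, ex (y * u)‖ * ‖∑ v ∈ range Y0, ex (-y * v)‖ * nd y ^ 2 ≤ 1 / 4 := by nlinarith
  calc _ ≤ 1 / 4 * (T : ℝ) := mul_le_mul_of_nonneg_right h5 (Nat.cast_nonneg _)
    _ ≤ 4 * Y0 := by linarith

theorem norm_trap (T Y0 : ℕ) (j0 : ℤ) (y : ℝ) :
    ‖∑ k ∈ range T ×ˢ range Y0, ex (y * ((j0 + k.1 - k.2 : ℤ) : ℝ))‖ / Y0 = MM T Y0 y := by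
  have e : ∑ k ∈ range T ×ˢ range Y0, ex (y * ((j0 + k.1 - k.2 : ℤ) : ℝ)) =
      ex (y * j0) * ((∑ u ∈ range T, ex (y * u)) * ∑ v ∈ range Y0, ex (-y * v)) := by
    rw [sum_product, sum_mul_sum, mul_sum]
    refine sum_congr rfl fun u _ => ?_
    rw [mul_sum]
    refine sum_congr rfl fun v _ => ?_
    rw [← ex_add, ← ex_add]
    congr 1
    push_cast
    ring
  rw [e, norm_mul, norm_mul, norm_ex, one_mul, MM]

/-- one frequency against the trapezoid -/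
theorem freq_le {ι : Type} (s : Finset ι) (x : ι → ℝ) (γ : ι → ℂ) (T Y0 : ℕ) (j0 : ℤ) (W c : ℕ) (θ : ℝ) :
    ‖∑ k ∈ range T ×ˢ range Y0, ((‖∑ r ∈ s, γ r * ex (x r * ((j0 + k.1 - k.2 : ℤ) : ℝ))‖ ^ 2 / Y0 : ℝ) : ℂ) *
      ex (θ * ((W * (j0 + k.1 - k.2) + c : ℤ) : ℝ))‖ ≤
      ∑ r ∈ s, ∑ r' ∈ s, ‖γ r‖ * ‖γ r'‖ * MM T Y0 (x r - x r' + W * θ) := by
  have e : ∑ k ∈ range T ×ˢ range Y0, ((‖∑ r ∈ s, γ r * ex (x r * ((j0 + k.1 - k.2 : ℤ) : ℝ))‖ ^ 2 / Y0 : ℝ) : ℂ) *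
      ex (θ * ((W * (j0 + k.1 - k.2) + c : ℤ) : ℝ)) =
      ∑ r ∈ s, ∑ r' ∈ s, γ r * (starRingEnd ℂ) (γ r') * ex (θ * c) *
        ((∑ k ∈ range T ×ˢ range Y0, ex ((x r - x r' + W * θ) * ((j0 + k.1 - k.2 : ℤ) : ℝ))) / (Y0 : ℝ)) := by
    simp only [Complex.ofReal_div, normSq_sum, sum_div, sum_mul, mul_sum]
    rw [sum_comm]
    refine sum_congr rfl fun r _ => ?_
    rw [sum_comm]
    refine sum_congr rfl fun r' _ => sum_congr rfl fun k _ => ?_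
    have e1 : ex ((x r - x r') * ((j0 + k.1 - k.2 : ℤ) : ℝ)) * ex (θ * ((W * (j0 + k.1 - k.2) + c : ℤ) : ℝ)) =
        ex (θ * c) * ex ((x r - x r' + W * θ) * ((j0 + k.1 - k.2 : ℤ) : ℝ)) := by
      rw [← ex_add, ← ex_add]
      congr 1
      push_cast
      ring
    linear_combination (γ r * (starRingEnd ℂ) (γ r') / ((Y0 : ℝ) : ℂ)) * e1
  rw [e]
  refine (norm_sum_le _ _).trans (sum_le_sum fun r _ => (norm_sum_le _ _).trans (sum_le_sum fun r' _ => le_of_eq ?_))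
  rw [norm_mul, norm_mul, norm_mul, norm_ex, mul_one, norm_div, Complex.norm_conj, Complex.norm_real,
    Real.norm_natCast, norm_trap]

theorem window_ge (F : ℤ → ℝ) (hF : ∀ j, 0 ≤ F j) {J : Finset ℕ} {j0 Y Y0 : ℕ} (hJ : ∀ j ∈ J, j0 ≤ j ∧ j < j0 + Y)
    (h0 : 0 < Y0) (g : ℕ → ℝ) (hg : ∀ j ∈ J, g j ≤ F j) :
    ∑ j ∈ J, g j ≤ ∑ k ∈ range (Y + Y0) ×ˢ range Y0, F (j0 + k.1 - k.2) / Y0 := by
  have h1 : (0 : ℝ) < Y0 := by exact_mod_cast h0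
  rw [← sum_div, le_div_iff₀ h1, sum_product_right]
  have h2 : ∀ v ∈ range Y0, ∑ j ∈ J, g j ≤ ∑ u ∈ range (Y + Y0), F (j0 + u - v) := by
    intro v hv
    have hv' := mem_range.1 hv
    have hinj : Set.InjOn (fun j : ℕ => j + v - j0) J := fun a ha b hb e => by
      have := hJ a ha
      have := hJ b hb
      simp only at e
      omega
    calc ∑ j ∈ J, g j ≤ ∑ j ∈ J, F (j0 + (j + v - j0 : ℕ) - v) := sum_le_sum fun j hj => by
          have := hJ j hj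
          rw [show (j0 : ℤ) + (j + v - j0 : ℕ) - v = j by omega]
          exact hg j hj
      _ = ∑ u ∈ J.image (fun j : ℕ => j + v - j0), F (j0 + u - v) :=
          (sum_image (f := fun u : ℕ => F (j0 + u - v)) hinj).symm
      _ ≤ _ := sum_le_sum_of_subset_of_nonneg (fun u hu => by
          obtain ⟨j, hj, rfl⟩ := mem_image.1 hu
          have := hJ j hj
          exact mem_range.2 (by omega)) fun _ _ _ => hF _
  have := card_nsmul_le_sum _ _ _ h2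
  rwa [card_range, nsmul_eq_mul, mul_comm] at this

theorem window_le (F : ℤ → ℝ) (hF : ∀ j, 0 ≤ F j) (j0 Y : ℕ) {Y0 : ℕ} (h0 : 0 < Y0) :
    ∑ k ∈ range (Y + Y0) ×ˢ range Y0, F (j0 + k.1 - k.2) / Y0 ≤ ∑ j ∈ Ico ((j0 : ℤ) - Y0) (j0 + Y + Y0), F j := by
  have h1 : (0 : ℝ) < Y0 := by exact_mod_cast h0
  rw [← sum_div, div_le_iff₀ h1, sum_product_right]
  have h2 : ∀ v ∈ range Y0, ∑ u ∈ range (Y + Y0), F (j0 + u - v) ≤ ∑ j ∈ Ico ((j0 : ℤ) - Y0) (j0 + Y + Y0), F j := by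
    intro v hv
    have hv' := mem_range.1 hv
    have hinj : Set.InjOn (fun u : ℕ => (j0 : ℤ) + u - v) (range (Y + Y0)) := fun a _ b _ e => by
      simp only at e
      omega
    rw [← sum_image (f := F) hinj]
    refine sum_le_sum_of_subset_of_nonneg (fun u hu => ?_) fun _ _ _ => hF _
    obtain ⟨j, hj, rfl⟩ := mem_image.1 hu
    have := mem_range.1 hj
    exact mem_Ico.2 ⟨by omega, by omega⟩
  have := sum_le_card_nsmul _ _ _ h2
  rwa [card_range, nsmul_eq_mul, mul_comm] at this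

/-- the primes of the sieve -/
noncomputable def PP (k : ℕ) (R : ℝ) : Finset ℕ := (Icc 1 ⌊R⌋₊).filter fun p => p.Prime ∧ ¬ p ∣ k

theorem Gs_le (k : ℕ) (R : ℝ) :
    Gs k R ≤ ∑ S ∈ univ.filter (fun S : Finset (PP k R) => ∏ i ∈ S, i.1 ≤ ⌊R⌋₊), ∏ i ∈ S, 1 / ((i.1 : ℝ) - 1) := by
  have hmem : ∀ d ∈ (Icc 1 ⌊R⌋₊).filter (fun d => Squarefree d ∧ d.Coprime k), ∀ q ∈ d.primeFactors, q ∈ PP k R := by
    intro d hd q hq
    obtain ⟨hd1, hd2, hd3⟩ := mem_filter.1 hd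
    have hq1 := Nat.prime_of_mem_primeFactors hq
    have hq2 := Nat.dvd_of_mem_primeFactors hq
    refine mem_filter.2 ⟨mem_Icc.2 ⟨hq1.one_le, (Nat.le_of_dvd (mem_Icc.1 hd1).1 hq2).trans (mem_Icc.1 hd1).2⟩, hq1,
      fun h => hq1.one_lt.ne' (Nat.eq_one_of_dvd_coprimes hd3 hq2 h)⟩
  let φ : ℕ → Finset (PP k R) := fun d => d.primeFactors.subtype (· ∈ PP k R)
  have hprod : ∀ d ∈ (Icc 1 ⌊R⌋₊).filter (fun d => Squarefree d ∧ d.Coprime k), ∏ i ∈ φ d, i.1 = d := by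
    intro d hd
    rw [prod_subtype_of_mem (fun q : ℕ => q) (hmem d hd), Nat.prod_primeFactors_of_squarefree (mem_filter.1 hd).2.1]
  have hinj : Set.InjOn φ ((Icc 1 ⌊R⌋₊).filter (fun d => Squarefree d ∧ d.Coprime k) : Finset ℕ) :=
    fun a ha b hb e => by rw [← hprod a ha, ← hprod b hb, e]
  calc Gs k R = ∑ d ∈ (Icc 1 ⌊R⌋₊).filter (fun d => Squarefree d ∧ d.Coprime k), ∏ i ∈ φ d, 1 / ((i.1 : ℝ) - 1) := by
        refine sum_congr rfl fun d hd => ?_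
        rw [prod_subtype_of_mem (fun q : ℕ => 1 / ((q : ℝ) - 1)) (hmem d hd), prod_div_distrib, prod_const_one]
        congr 1
        have h1 := Nat.totient_mul_prod_primeFactors d
        rw [Nat.prod_primeFactors_of_squarefree (mem_filter.1 hd).2.1, mul_comm] at h1
        rw [Nat.eq_of_mul_eq_mul_left (mem_Icc.1 (mem_filter.1 hd).1).1 h1, Nat.cast_prod]
        exact prod_congr rfl fun q hq => by rw [Nat.cast_sub (Nat.prime_of_mem_primeFactors hq).one_le, Nat.cast_one]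
    _ = ∑ S ∈ ((Icc 1 ⌊R⌋₊).filter (fun d => Squarefree d ∧ d.Coprime k)).image φ, ∏ i ∈ S, 1 / ((i.1 : ℝ) - 1) :=
        (sum_image (f := fun S : Finset (PP k R) => ∏ i ∈ S, 1 / ((i.1 : ℝ) - 1)) hinj).symm
    _ ≤ _ := by
        refine sum_le_sum_of_subset_of_nonneg (fun S hS => ?_) fun S _ _ => prod_nonneg fun i _ => ?_
        · obtain ⟨d, hd, rfl⟩ := mem_image.1 hS
          refine mem_filter.2 ⟨mem_univ _, ?_⟩
          rw [hprod d hd]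
          exact (mem_Icc.1 (mem_filter.1 hd).1).2
        · have : (1 : ℝ) ≤ i.1 := by exact_mod_cast (mem_filter.1 i.2).2.1.one_le
          exact div_nonneg zero_le_one (by linarith)

theorem one_le_Gs (k : ℕ) {R : ℝ} (hR : 1 ≤ R) : 1 ≤ Gs k R := by
  have h1 : 1 ∈ (Icc 1 ⌊R⌋₊).filter (fun d => Squarefree d ∧ d.Coprime k) :=
    mem_filter.2 ⟨mem_Icc.2 ⟨le_rfl, Nat.le_floor (by exact_mod_cast hR)⟩, squarefree_one, Nat.coprime_one_left k⟩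
  have := single_le_sum (f := fun d : ℕ => (1 : ℝ) / d.totient) (fun d _ => by positivity) h1
  rwa [Nat.totient_one, Nat.cast_one, div_one] at this

end Cfsg.Agent.Depth.S.E

namespace Cfsg.Agent.Depth.S

open Finset E

/-- **the enveloping sieve** -/
theorem lemE : LemE := by
  intro W c k R z J j0 Y Y0 ι s x γ hW hR hz hk hY hT hJ
  have hz0 : 0 < z := lt_of_lt_of_le (by norm_num) hz
  have hT0 : (0 : ℝ) < ((Y + Y0 : ℕ) : ℝ) := by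
    push_cast
    exact lt_of_lt_of_le (by positivity) hT
  have hY0 : 0 < Y0 := by
    have : 0 < Y + Y0 := by exact_mod_cast hT0
    omega
  let p : PP k R → ℕ := fun i => i.1
  have hp : ∀ i, (p i).Prime := fun i => (mem_filter.1 i.2).2.1
  have hpk : ∀ i, ¬ p i ∣ k := fun i => (mem_filter.1 i.2).2.2
  have hp2 : ∀ i, 2 ≤ p i := fun i => (hp i).two_le
  have hp2' : ∀ i, (2 : ℝ) ≤ p i := fun i => by exact_mod_cast hp2 i
  have hpR : ∀ i, (p i : ℝ) ≤ R := fun i =>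
    (Nat.le_floor_iff (by linarith)).1 (mem_Icc.1 (mem_filter.1 i.2).1).2
  have hpz : ∀ i, z < p i := fun i => lt_of_not_ge fun h => hpk i (hk _ (hp i) h)
  have hpW : ∀ i, ¬ p i ∣ W := fun i h => hpk i (h.trans hW)
  have hRn : 1 ≤ ⌊R⌋₊ := Nat.le_floor (by exact_mod_cast hR)
  obtain ⟨f, hf⟩ : ∃ f : ℤ → ℝ, f = fun j : ℤ => ‖∑ r ∈ s, γ r * ex (x r * (j : ℝ))‖ ^ 2 := ⟨_, rfl⟩
  have hf0 : ∀ j, 0 ≤ f j := fun j => by rw [hf]; positivity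
  obtain ⟨D, hD⟩ : ∃ D, D = univ.filter (fun S : Finset (PP k R) => ∏ i ∈ S, p i ≤ ⌊R⌋₊) := ⟨_, rfl⟩
  obtain ⟨G, hG⟩ : ∃ G : ℝ, G = ∑ S ∈ D, ∏ i ∈ S, 1 / ((p i : ℝ) - 1) := ⟨_, rfl⟩
  have hG1 : Gs k R ≤ G := by rw [hG, hD]; exact Gs_le k R
  have hG0 := one_le_Gs k hR
  have ha : ∀ i, 0 ≤ 1 / ((p i : ℝ) - 1) := fun i => div_nonneg zero_le_one (by linarith [hp2' i])
  have hc := comb D (univ.filter fun r : Finset (PP k R) => ∏ i ∈ r, p i ≤ ⌊R⌋₊ ^ 2) (range (Y + Y0) ×ˢ range Y0)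
    (fun q => f (j0 + q.1 - q.2) / Y0) (fun i q => hh (p i) (W * (j0 + q.1 - q.2) + c))
    (fun i => 1 / ((p i : ℝ) - 1)) (fun i => -(((p i : ℝ) - 2) / ((p i : ℝ) - 1))) ha
    (fun i => by
      have := hp2' i
      rw [abs_neg, abs_of_nonneg (div_nonneg (by linarith) (by linarith)), div_le_one (by linarith)]
      linarith)
    (fun i q => hh_sq (hp2 i) _)
    (fun S hS S' h => by
      rw [hD, mem_filter] at hS ⊢
      exact ⟨mem_univ _, (prod_le_prod_of_subset_of_one_le' h fun i _ _ => (hp i).one_le).trans hS.2⟩)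
    (fun S hS S' hS' r h => by
      rw [hD, mem_filter] at hS hS'
      refine mem_filter.2 ⟨mem_univ _, (prod_le_prod_of_subset_of_one_le' h fun i _ _ => (hp i).one_le).trans ?_⟩
      have h1 := prod_union_inter (s₁ := S) (s₂ := S') (f := p)
      have h2 : 1 ≤ ∏ i ∈ S ∩ S', p i := prod_pos fun i _ => (hp i).pos
      calc ∏ i ∈ S ∪ S', p i ≤ (∏ i ∈ S ∪ S', p i) * ∏ i ∈ S ∩ S', p i := Nat.le_mul_of_pos_right _ h2
        _ ≤ ⌊R⌋₊ ^ 2 := by rw [h1, sq]; exact Nat.mul_le_mul hS.2 hS'.2)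
  rw [← hG] at hc
  -- the lower bound
  have hlow : ∑ j ∈ J, f j * G ^ 2 ≤ ∑ q ∈ range (Y + Y0) ×ˢ range Y0,
      f (j0 + q.1 - q.2) / Y0 * (∑ S ∈ D, ∏ i ∈ S, hh (p i) (W * (j0 + q.1 - q.2) + c)) ^ 2 := by
    have := window_ge (fun j => f j * (∑ S ∈ D, ∏ i ∈ S, hh (p i) (W * j + c)) ^ 2)
      (fun j => mul_nonneg (hf0 j) (sq_nonneg _)) (fun j hj => ⟨(hJ j hj).1, (hJ j hj).2.1⟩) hY0
      (fun j => f j * G ^ 2) (fun j hj => le_of_eq (by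
        rw [hG]
        congr 2
        refine sum_congr rfl fun S _ => prod_congr rfl fun i _ => ?_
        rw [hh, if_neg]
        exact_mod_cast (hJ j hj).2.2 _ (hp i) (hpR i) (hpk i)))
    refine this.trans (le_of_eq (sum_congr rfl fun q _ => by ring))
  -- the main term and the error
  have hmem : (∅ : Finset (PP k R)) ∈ univ.filter fun r : Finset (PP k R) => ∏ i ∈ r, p i ≤ ⌊R⌋₊ ^ 2 :=
    mem_filter.2 ⟨mem_univ _, by rw [prod_empty]; exact Nat.one_le_pow _ _ hRn⟩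
  rw [← add_sum_erase _ _ hmem] at hc
  have hmain : (3 : ℝ) ^ (∅ : Finset (PP k R)).card * |∑ q ∈ range (Y + Y0) ×ˢ range Y0,
      f (j0 + q.1 - q.2) / Y0 * ∏ i ∈ (∅ : Finset (PP k R)), hh (p i) (W * (j0 + q.1 - q.2) + c)| ≤
      ∑ j ∈ Ico ((j0 : ℤ) - Y0) (j0 + Y + Y0), f j := by
    simp only [card_empty, pow_zero, one_mul, prod_empty, mul_one]
    rw [abs_of_nonneg (sum_nonneg fun q _ => div_nonneg (hf0 _) (Nat.cast_nonneg _))]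
    exact window_le f hf0 j0 Y hY0
  have hone : ∀ r : Finset (PP k R), |∑ q ∈ range (Y + Y0) ×ˢ range Y0,
      f (j0 + q.1 - q.2) / Y0 * ∏ i ∈ r, hh (p i) (W * (j0 + q.1 - q.2) + c)| ≤
      (∏ i ∈ r, 1 / ((p i : ℝ) - 1)) * ∑ b ∈ BB p r, ∑ r1 ∈ s, ∑ r2 ∈ s,
        ‖γ r1‖ * ‖γ r2‖ * MM (Y + Y0) Y0 (x r1 - x r2 + W * th p b) := by
    intro r
    rw [← Real.norm_eq_abs, ← Complex.norm_real, Complex.ofReal_sum]
    simp only [Complex.ofReal_mul, prod_hh hp2]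
    have e : ∑ q ∈ range (Y + Y0) ×ˢ range Y0, ((f (j0 + q.1 - q.2) / Y0 : ℝ) : ℂ) *
        (((∏ i ∈ r, -(1 / ((p i : ℝ) - 1)) : ℝ) : ℂ) *
          ∑ b ∈ BB p r, ex (th p b * ((W * (j0 + q.1 - q.2) + c : ℤ) : ℝ))) =
        ((∏ i ∈ r, -(1 / ((p i : ℝ) - 1)) : ℝ) : ℂ) * ∑ b ∈ BB p r, ∑ q ∈ range (Y + Y0) ×ˢ range Y0,
          ((f (j0 + q.1 - q.2) / Y0 : ℝ) : ℂ) * ex (th p b * ((W * (j0 + q.1 - q.2) + c : ℤ) : ℝ)) := by
      rw [sum_comm, mul_sum]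
      refine sum_congr rfl fun q _ => ?_
      rw [← mul_sum]
      ring
    rw [e, norm_mul, Complex.norm_real, Real.norm_eq_abs, abs_prod]
    refine mul_le_mul (le_of_eq (prod_congr rfl fun i _ => by rw [abs_neg, abs_of_nonneg (ha i)]))
      ((norm_sum_le _ _).trans (sum_le_sum fun b _ => ?_)) (norm_nonneg _) (prod_nonneg fun i _ => ha i)
    rw [hf]
    exact freq_le s x γ (Y + Y0) Y0 j0 W c (th p b)
  have hN : (((⌊R⌋₊ ^ 2 : ℕ) : ℝ)) ^ (1.04 : ℝ) ≤ R ^ (2.08 : ℝ) := by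
    have h1 : ((⌊R⌋₊ ^ 2 : ℕ) : ℝ) ≤ R ^ 2 := by
      push_cast
      exact pow_le_pow_left₀ (Nat.cast_nonneg _) (Nat.floor_le (by linarith)) 2
    refine (Real.rpow_le_rpow (Nat.cast_nonneg _) h1 (by norm_num)).trans (le_of_eq ?_)
    rw [← Real.rpow_natCast, ← Real.rpow_mul (by linarith)]
    norm_num
  obtain ⟨Ω, hΩ⟩ : ∃ Ω : ℝ, Ω = 7 * ((Y : ℝ) + Y0) / z + 100 * R ^ (2.08 : ℝ) := ⟨_, rfl⟩
  have hΩ0 : 0 ≤ Ω := by rw [hΩ]; positivity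
  have herr : ∑ r ∈ (univ.filter fun r : Finset (PP k R) => ∏ i ∈ r, p i ≤ ⌊R⌋₊ ^ 2).erase ∅,
      (3 : ℝ) ^ r.card * |∑ q ∈ range (Y + Y0) ×ˢ range Y0,
        f (j0 + q.1 - q.2) / Y0 * ∏ i ∈ r, hh (p i) (W * (j0 + q.1 - q.2) + c)| ≤
      s.card * Ω * ∑ r ∈ s, ‖γ r‖ ^ 2 := by
    calc _ ≤ ∑ r ∈ (univ.filter fun r : Finset (PP k R) => ∏ i ∈ r, p i ≤ ⌊R⌋₊ ^ 2).erase ∅,
          (3 : ℝ) ^ r.card * ((∏ i ∈ r, 1 / ((p i : ℝ) - 1)) * ∑ b ∈ BB p r, ∑ r1 ∈ s, ∑ r2 ∈ s,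
            ‖γ r1‖ * ‖γ r2‖ * MM (Y + Y0) Y0 (x r1 - x r2 + W * th p b)) :=
          sum_le_sum fun r _ => mul_le_mul_of_nonneg_left (hone r) (by positivity)
      _ = ∑ r1 ∈ s, ∑ r2 ∈ s, ‖γ r1‖ * ‖γ r2‖ *
          ∑ r ∈ (univ.filter fun r : Finset (PP k R) => ∏ i ∈ r, p i ≤ ⌊R⌋₊ ^ 2).erase ∅,
            (3 ^ r.card * ∏ i ∈ r, 1 / ((p i : ℝ) - 1)) * ∑ b ∈ BB p r, MM (Y + Y0) Y0 (x r1 - x r2 + W * th p b) := by
          simp only [mul_sum]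
          rw [sum_congr rfl fun r _ => sum_comm, sum_comm]
          refine sum_congr rfl fun r1 _ => ?_
          rw [sum_congr rfl fun r _ => sum_comm, sum_comm]
          exact sum_congr rfl fun r2 _ => sum_congr rfl fun r _ => sum_congr rfl fun b _ => by ring
      _ ≤ ∑ r1 ∈ s, ∑ r2 ∈ s, ‖γ r1‖ * ‖γ r2‖ * Ω := by
          refine sum_le_sum fun r1 _ => sum_le_sum fun r2 _ => mul_le_mul_of_nonneg_left ?_ (by positivity)
          refine (omega_le hz hT0 hp Subtype.val_injective hpz hpW (MM (Y + Y0) Y0) (MM_nonneg _ _) (MM_le hY0)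
            (MM_nd hY0 (by omega)) (Nat.one_le_pow _ _ hRn) _).trans ?_
          have : 0 ≤ R ^ (2.08 : ℝ) := by positivity
          rw [hΩ]
          push_cast at hN ⊢
          linarith
      _ = (∑ r ∈ s, ‖γ r‖) ^ 2 * Ω := by rw [sq, sum_mul_sum, sum_mul]; simp only [sum_mul]
      _ ≤ s.card * (∑ r ∈ s, ‖γ r‖ ^ 2) * Ω := mul_le_mul_of_nonneg_right sq_sum_le_card_mul_sum_sq hΩ0
      _ = _ := by ring
  have hfin := hlow.trans (hc.trans (mul_le_mul_of_nonneg_left (add_le_add hmain herr) (by linarith)))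
  rw [← sum_mul, sq, ← mul_assoc, mul_comm G] at hfin
  have h2 := le_of_mul_le_mul_right hfin (by linarith)
  rw [le_div_iff₀ (by linarith), ← hΩ]
  have e1 : ∑ j ∈ J, ‖∑ r ∈ s, γ r * ex (x r * j)‖ ^ 2 = ∑ j ∈ J, f j := by simp only [hf, Int.cast_natCast]
  have e2 : ∑ j ∈ Ico ((j0 : ℤ) - Y0) (j0 + Y + Y0), ‖∑ r ∈ s, γ r * ex (x r * j)‖ ^ 2 =
      ∑ j ∈ Ico ((j0 : ℤ) - Y0) (j0 + Y + Y0), f j := by rw [hf]
  rw [e1, e2]
  exact (mul_le_mul_of_nonneg_left hG1 (sum_nonneg fun j _ => hf0 _)).trans h2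

end Cfsg.Agent.Depth.S
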