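import Cfsg.Agent.Depth.S.GHK

/-!
# Depth (S5768): an explicit upper bound for Mertens' product (`GH4`)
-/

set_option autoImplicit false

namespace Cfsg.Agent.Depth.S

open Finset

namespace GH

/-- the primes up to `N` -/
def PR (N : ℕ) : Finset ℕ := (range (N + 1)).filter Nat.Prime

theorem mem_PR {N p : ℕ} : p ∈ PR N ↔ p ≤ N ∧ p.Prime := by
  unfold PR
  rw [mem_filter, mem_range, Nat.lt_succ_iff]

theorem sum_PR_succ (f : ℕ → ℝ) (N : ℕ) :
    ∑ p ∈ PR (N + 1), f p = ∑ p ∈ PR N, f p + if (N + 1).Prime then f (N + 1) else 0 := by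
  unfold PR
  rw [sum_filter, sum_filter, sum_range_succ]

theorem sum_PR_ite (f : ℕ → ℝ) {M N : ℕ} (h : M ≤ N) :
    ∑ p ∈ PR N, (if p ≤ M then f p else 0) = ∑ p ∈ PR M, f p := by
  rw [← sum_filter]
  refine sum_congr ?_ fun _ _ => rfl
  ext p
  rw [mem_filter, mem_PR, mem_PR]
  exact ⟨fun h1 => ⟨h1.2, h1.1.2⟩, fun h1 => ⟨⟨h1.1.trans h, h1.2⟩, h1.1⟩⟩

theorem th_le (N : ℕ) : ∑ p ∈ PR N, Real.log p ≤ Real.log 4 * N := by
  have h := Chebyshev.theta_le_log4_mul_x (x := N) (Nat.cast_nonneg _)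
  rw [Chebyshev.theta_eq_sum_primesLE_log] at h
  exact h

theorem log_four_lt : Real.log 4 < 1.3862943616 := by
  rw [show (4 : ℝ) = 2 ^ 2 by norm_num, Real.log_pow]
  have := Real.log_two_lt_d9
  push_cast
  linarith

theorem log_fact_le (N : ℕ) (hN : 1 ≤ N) :
    Real.log (N.factorial) ≤ N * Real.log N - N + 1 + Real.log N := by
  induction N, hN using Nat.le_induction with
  | base => simp
  | succ N hN ih =>
    have h0 : (0 : ℝ) < N := by exact_mod_cast hN
    have h1 : (0 : ℝ) < N.factorial := by exact_mod_cast N.factorial_pos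
    rw [Nat.factorial_succ, Nat.cast_mul, Real.log_mul (by positivity) h1.ne']
    push_cast
    have h2 := Real.one_sub_inv_le_log_of_pos (x := ((N : ℝ) + 1) / N) (by positivity)
    rw [Real.log_div (by positivity) h0.ne', inv_div] at h2
    have h3 := mul_le_mul_of_nonneg_left h2 (show (0 : ℝ) ≤ N + 1 by positivity)
    have h4 : ((N : ℝ) + 1) * (1 - N / (N + 1)) = 1 := by field_simp; ring
    rw [h4] at h3
    linarith

theorem log_fact_eq (N : ℕ) :
    Real.log (N.factorial) = ∑ p ∈ PR N, (N.factorial.factorization p : ℝ) * Real.log p := by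
  rw [Real.log_nat_eq_sum_factorization, Finsupp.sum, Nat.support_factorization]
  refine sum_congr ?_ fun _ _ => rfl
  ext p
  rw [mem_PR, Nat.mem_primeFactors]
  exact ⟨fun h => ⟨h.1.dvd_factorial.1 h.2.1, h.1⟩, fun h => ⟨h.2, h.2.dvd_factorial.2 h.1, N.factorial_ne_zero⟩⟩

theorem cast_div_ge (a b : ℕ) (hb : 0 < b) : (a : ℝ) / b - 1 ≤ (a / b : ℕ) := by
  have h0 : (0 : ℝ) < b := by exact_mod_cast hb
  have h1 : a ≤ b * (a / b + 1) := (Nat.lt_mul_div_succ a hb).le
  have h2 : (a : ℝ) ≤ b * ((a / b : ℕ) + 1) := by exact_mod_cast h1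
  rw [sub_le_iff_le_add, div_le_iff₀ h0]
  linarith

/-- `∑ p^{-i}` over `2 ≤ i < 12` -/
noncomputable def sp (p : ℕ) : ℝ := ∑ i ∈ Ico 2 12, 1 / (p : ℝ) ^ i

theorem val_ge {N p : ℕ} (hp : p.Prime) (hpN : p ≤ N) :
    (N : ℝ) / p - 1 / 2 - (if p ≤ 2 * N / 3 then 1 / 2 else 0) + (if p ≤ 100 then N * sp p - 10 else 0) ≤
      (N.factorial.factorization p : ℝ) := by
  have h1 : N.factorial.factorization p = ∑ i ∈ Ico 1 (N + 12), N / p ^ i :=
    Nat.factorization_factorial hp (lt_of_le_of_lt (Nat.log_le_self p N) (by omega))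
  have h2 : N / p + ∑ i ∈ Ico 2 12, N / p ^ i ≤ N.factorial.factorization p := by
    rw [h1]
    refine le_trans ?_ (sum_le_sum_of_subset (Ico_subset_Ico_right (show 12 ≤ N + 12 by omega)))
    rw [sum_eq_sum_Ico_succ_bot (show 1 < 12 by norm_num), pow_one]
  have h3 : ((N / p : ℕ) : ℝ) + ∑ i ∈ Ico 2 12, ((N / p ^ i : ℕ) : ℝ) ≤ N.factorial.factorization p := by
    exact_mod_cast h2
  have hp0 : (0 : ℝ) < p := by exact_mod_cast hp.pos
  refine le_trans (add_le_add ?_ ?_) h3
  · split_ifs with h4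
    · have := cast_div_ge N p hp.pos
      linarith
    · have h5 : (1 : ℝ) ≤ (N / p : ℕ) := by exact_mod_cast (Nat.one_le_div_iff hp.pos).2 hpN
      have h6 : (2 : ℝ) * N ≤ 3 * p := by exact_mod_cast (by omega : 2 * N ≤ 3 * p)
      have h7 : (N : ℝ) / p ≤ 3 / 2 := by rw [div_le_iff₀ hp0]; linarith
      linarith
  · split_ifs with h4
    · have h5 : (N : ℝ) * sp p - 10 = ∑ i ∈ Ico 2 12, ((N : ℝ) / (p ^ i : ℕ) - 1) := by
        rw [sum_sub_distrib, sp, mul_sum]
        congr 1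
        · refine sum_congr rfl fun i _ => ?_
          push_cast
          ring
        · simp
      rw [h5]
      exact sum_le_sum fun i _ => cast_div_ge N (p ^ i) (pow_pos hp.pos _)
    · exact sum_nonneg fun _ _ => Nat.cast_nonneg _

theorem lg_term {p : ℕ} (hp : 0 < p) (m : ℕ) :
    ((lg p * (1000000000000 / m) : ℕ) : ℝ) * (Real.log 2 / 256) ≤ 1000000000000 * (1 / m * Real.log p) := by
  have h3 := lg_le hp
  have h4 : ((1000000000000 / m : ℕ) : ℝ) ≤ (1000000000000 : ℕ) / m := Nat.cast_div_le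
  generalize lg p = a at h3 ⊢
  have h5 : 0 < Real.log 2 := Real.log_pos (by norm_num)
  rw [Nat.cast_mul]
  calc (a : ℝ) * (1000000000000 / m : ℕ) * (Real.log 2 / 256)
      = (1000000000000 / m : ℕ) * ((a : ℝ) / 256 * Real.log 2) := by ring
    _ ≤ (1000000000000 : ℕ) / m * Real.log p := mul_le_mul h4 h3 (by positivity) (by positivity)
    _ = _ := by push_cast; ring

theorem sp_sum_ge : 0.7445 ≤ ∑ p ∈ PR 100, sp p * Real.log p := by
  have h2 : ((∑ p ∈ PR 100, ∑ i ∈ Ico 2 12, lg p * (1000000000000 / p ^ i) : ℕ) : ℝ) * (Real.log 2 / 256) ≤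
      1000000000000 * ∑ p ∈ PR 100, sp p * Real.log p := by
    rw [Nat.cast_sum, sum_mul, mul_sum]
    refine sum_le_sum fun p hp => ?_
    rw [Nat.cast_sum, sum_mul, sp, sum_mul, mul_sum]
    refine sum_le_sum fun i _ => ?_
    rw [← Nat.cast_pow]
    exact lg_term (mem_PR.1 hp).2.pos _
  have h1 : 275000000000000 ≤ ∑ p ∈ PR 100, ∑ i ∈ Ico 2 12, lg p * (1000000000000 / p ^ i) := run4c
  generalize ∑ p ∈ PR 100, ∑ i ∈ Ico 2 12, lg p * (1000000000000 / p ^ i) = L at h1 h2
  have h3 : (275000000000000 : ℝ) ≤ L := by exact_mod_cast h1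
  have h5 := Real.log_two_gt_d9
  have h6 := mul_le_mul_of_nonneg_right h3 (show 0 ≤ Real.log 2 / 256 by positivity)
  linarith

/-- `∑ log p / p` -/
noncomputable def BB (N : ℕ) : ℝ := ∑ p ∈ PR N, Real.log p / p

/-- Mertens' first theorem, upper bound -/
theorem BB_le {N : ℕ} (hN : 65536 ≤ N) : BB N ≤ Real.log N - 0.56 := by
  have h0 : (65536 : ℝ) ≤ N := by exact_mod_cast hN
  have h1 := log_fact_le N (by omega)
  have h2 : ∑ p ∈ PR N, ((N : ℝ) * (Real.log p / p) - 1 / 2 * Real.log p -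
      (if p ≤ 2 * N / 3 then 1 / 2 * Real.log p else 0) +
      (if p ≤ 100 then N * (sp p * Real.log p) - 10 * Real.log p else 0)) ≤ Real.log N.factorial := by
    rw [log_fact_eq]
    refine sum_le_sum fun p hp => ?_
    obtain ⟨h3, h4⟩ := mem_PR.1 hp
    refine le_trans (le_of_eq ?_)
      (mul_le_mul_of_nonneg_right (val_ge h4 h3) (Real.log_nonneg (one_lt_cast h4).le))
    split_ifs <;> ring
  rw [sum_add_distrib, sum_sub_distrib, sum_sub_distrib, sum_PR_ite _ (by omega : 2 * N / 3 ≤ N),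
    sum_PR_ite _ (by omega : 100 ≤ N), sum_sub_distrib, ← mul_sum, ← mul_sum, ← mul_sum, ← mul_sum,
    ← mul_sum] at h2
  have h3 := th_le N
  have h4 := th_le (2 * N / 3)
  have h5 := th_le 100
  have h6 : ((2 * N / 3 : ℕ) : ℝ) ≤ 2 * N / 3 := by
    have : ((2 * N / 3 : ℕ) : ℝ) ≤ (2 * N : ℕ) / (3 : ℕ) := Nat.cast_div_le
    push_cast at this
    exact this
  have h7 := log_four_lt
  have h8 : (0 : ℝ) ≤ Real.log 4 := Real.log_nonneg (by norm_num)
  have h9 := mul_le_mul_of_nonneg_left sp_sum_ge (show (0 : ℝ) ≤ N by positivity)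
  have h10 : Real.log N ≤ N / 4096 + 9 := by
    have h11 := Real.log_le_sub_one_of_pos (x := (N : ℝ) / 2 ^ 12) (by positivity)
    rw [Real.log_div (by positivity) (by positivity), Real.log_pow] at h11
    have := Real.log_two_lt_d9
    push_cast at h11
    linarith
  have h12 : Real.log 4 * N ≤ 1.3862943616 * N := mul_le_mul_of_nonneg_right h7.le (by positivity)
  have h13 : Real.log 4 * ((2 * N / 3 : ℕ) : ℝ) ≤ 1.3862943616 * (2 * N / 3) :=
    mul_le_mul h7.le h6 (by positivity) (by norm_num)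
  have h14 : (N : ℝ) * BB N ≤ N * (Real.log N - 0.56) := by
    unfold BB
    push_cast at h5
    linarith
  exact le_of_mul_le_mul_left h14 (by linarith)

theorem abel_step {a b B c : ℝ} (ha : 0 < a) (hab : a ≤ b) (hB : B ≤ a + c) :
    B / a - B / b ≤ Real.log b - Real.log a + c * (1 / a - 1 / b) := by
  have hb : 0 < b := lt_of_lt_of_le ha hab
  have h1 := Real.one_sub_inv_le_log_of_pos (x := b / a) (by positivity)
  rw [Real.log_div hb.ne' ha.ne', inv_div] at h1
  have h2 : 0 ≤ 1 / a - 1 / b := sub_nonneg.2 (one_div_le_one_div_of_le ha hab)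
  have h3 := mul_le_mul_of_nonneg_right hB h2
  have h4 : (a + c) * (1 / a - 1 / b) = 1 - a / b + c * (1 / a - 1 / b) := by field_simp
  have h5 : B * (1 / a - 1 / b) = B / a - B / b := by ring
  linarith

/-- `∑ log (p/(p-1))` -/
noncomputable def LM (N : ℕ) : ℝ := ∑ p ∈ PR N, Real.log ((p : ℝ) / (p - 1))

theorem abel {N : ℕ} (hN : 65536 ≤ N) :
    LM N - BB N / Real.log N - Real.log (Real.log N) - 0.56 / Real.log N + 1 / N ≤
      LM 65536 - BB 65536 / Real.log (65536 : ℕ) - Real.log (Real.log (65536 : ℕ)) -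
        0.56 / Real.log (65536 : ℕ) + 1 / (65536 : ℕ) := by
  induction N, hN using Nat.le_induction with
  | base => exact le_rfl
  | succ N hN ih =>
    refine le_trans ?_ ih
    have h0 : (65536 : ℝ) ≤ N := by exact_mod_cast hN
    have ha : 0 < Real.log N := Real.log_pos (by linarith)
    have hab : Real.log N ≤ Real.log (N + 1 : ℕ) := Real.log_le_log (by linarith) (by push_cast; linarith)
    have h1 := abel_step (c := -0.56) ha hab (show BB N ≤ Real.log N + -0.56 by linarith [BB_le hN])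
    have h2 : (1 : ℝ) / (N + 1 : ℕ) ≤ 1 / N := one_div_le_one_div_of_le (by linarith) (by push_cast; linarith)
    have h3 : LM (N + 1) - BB (N + 1) / Real.log (N + 1 : ℕ) + 1 / (N + 1 : ℕ) ≤
        LM N - BB N / Real.log (N + 1 : ℕ) + 1 / N := by
      unfold LM BB
      rw [sum_PR_succ, sum_PR_succ]
      split_ifs
      · have h4 := Real.log_le_sub_one_of_pos (x := ((N + 1 : ℕ) : ℝ) / ((N + 1 : ℕ) - 1))
          (by push_cast; exact div_pos (by linarith) (by linarith))
        have h5 : ((N + 1 : ℕ) : ℝ) / ((N + 1 : ℕ) - 1) - 1 = 1 / N := by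
          push_cast
          rw [add_sub_cancel_right]
          field_simp
          ring
        have h6 : Real.log (N + 1 : ℕ) / (N + 1 : ℕ) / Real.log (N + 1 : ℕ) = 1 / (N + 1 : ℕ) := by
          have : 0 < Real.log (N + 1 : ℕ) := lt_of_lt_of_le ha hab
          field_simp
        rw [add_div, h6]
        linarith
      · rw [add_zero, add_zero]
        linarith
    have h7 : (0.56 : ℝ) / Real.log N = 0.56 * (1 / Real.log N) := by ring
    have h8 : (0.56 : ℝ) / Real.log (N + 1 : ℕ) = 0.56 * (1 / Real.log (N + 1 : ℕ)) := by ring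
    linarith

theorem log_y : Real.log (65536 : ℕ) = 16 * Real.log 2 := by
  rw [show ((65536 : ℕ) : ℝ) = 2 ^ 16 by norm_num, Real.log_pow]
  norm_num

theorem term_le {n : ℕ} (h2 : 2 ≤ n) :
    ((lg n * (1000000000000 / n) : ℕ) : ℝ) / 4096000000000000 ≤ Real.log n / n / (16 * Real.log 2) := by
  have h3 := lg_le (show 0 < n by omega)
  have h4 : ((1000000000000 / n : ℕ) : ℝ) ≤ (1000000000000 : ℕ) / n := Nat.cast_div_le
  generalize lg n = a at h3 ⊢
  have h5 : 0 < Real.log 2 := Real.log_pos (by norm_num)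
  have h0 : (0 : ℝ) < n := by exact_mod_cast (show 0 < n by omega)
  rw [Nat.cast_mul, le_div_iff₀ (by positivity)]
  calc (a : ℝ) * (1000000000000 / n : ℕ) / 4096000000000000 * (16 * Real.log 2)
      = (1000000000000 / n : ℕ) * ((a : ℝ) / 256 * Real.log 2) / 1000000000000 := by ring
    _ ≤ (1000000000000 : ℕ) / n * Real.log n / 1000000000000 :=
      div_le_div_of_nonneg_right (mul_le_mul h4 h3 (by positivity) (by positivity)) (by norm_num)
    _ = _ := by push_cast; ring

theorem term_nonneg {n : ℕ} (h2 : 2 ≤ n) (hy : n ≤ 65536) :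
    Real.log n / n / (16 * Real.log 2) ≤ Real.log n - Real.log (n - 1 : ℕ) := by
  have h0 : (2 : ℝ) ≤ n := by exact_mod_cast h2
  have h1 := Real.one_sub_inv_le_log_of_pos (x := (n : ℝ) / (n - 1)) (div_pos (by linarith) (by linarith))
  rw [Real.log_div (by linarith) (by linarith), inv_div] at h1
  rw [Nat.cast_sub (by omega), Nat.cast_one]
  refine le_trans ?_ h1
  have h3 : 1 - ((n : ℝ) - 1) / n = 1 / n := by field_simp; ring
  have h4 : Real.log n ≤ 16 * Real.log 2 := by
    rw [← log_y]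
    exact Real.log_le_log (by linarith) (by exact_mod_cast hy)
  have h5 : 0 < Real.log 2 := Real.log_pos (by norm_num)
  rw [h3, div_right_comm]
  exact div_le_div_of_nonneg_right ((div_le_one (by positivity)).2 h4) (by linarith)

theorem table4 : LM 65536 - BB 65536 / Real.log (65536 : ℕ) ≤ Real.log 19.76 - 0.87985 := by
  have ha := Nat.le_of_ble_eq_true run4a
  have hb := Nat.le_of_ble_eq_true run4b
  rw [bsP_eq, bsP_eq] at ha
  rw [bsS_eq] at hb
  set I := Ico 0 (0 + 2 ^ 16) with hI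
  have hA : ∀ n, 0 < cond (q4 n) n 1 := fun n => by
    cases h : q4 n
    · exact Nat.one_pos
    · exact lt_of_lt_of_le (by norm_num) (two_le_of_q4 h)
  have hB : ∀ n, 0 < cond (q4 n) (Nat.sub n 1) 1 := fun n => by
    cases h : q4 n
    · exact Nat.one_pos
    · exact Nat.sub_pos_of_lt (two_le_of_q4 h)
  have h1 : LM 65536 - BB 65536 / Real.log (65536 : ℕ) ≤ ∑ n ∈ I, (Real.log (cond (q4 n) n 1 : ℕ) -
      Real.log (cond (q4 n) (Nat.sub n 1) 1 : ℕ) -
      (cond (q4 n) (Nat.mul (lg n) (Nat.div 1000000000000 n)) 0 : ℕ) / 4096000000000000) := by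
    unfold LM BB
    rw [sum_div, ← sum_sub_distrib, log_y]
    refine sum_le_of_inj _ _ id _ _ (fun _ _ _ _ h => h) ?_ ?_ ?_
    · intro p hp
      obtain ⟨h2, h3⟩ := mem_PR.1 hp
      have h4 : p ≠ 65536 := fun h => by subst h; norm_num at h3
      rw [hI, mem_Ico, id]
      omega
    · intro p hp
      obtain ⟨h2, h3⟩ := mem_PR.1 hp
      rw [id, q4_of_prime h3, cond_true, cond_true, cond_true,
        Real.log_div (by exact_mod_cast h3.ne_zero) (pm_pos h3).ne']
      have h4 := term_le h3.two_le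
      have h5 : ((Nat.sub p 1 : ℕ) : ℝ) = p - 1 := by
        rw [show Nat.sub p 1 = p - 1 from rfl, Nat.cast_sub h3.one_le, Nat.cast_one]
      rw [h5]
      exact sub_le_sub_left h4 _
    · intro n hn
      cases h : q4 n
      · simp
      · rw [hI, mem_Ico] at hn
        rw [cond_true, cond_true, cond_true]
        exact sub_nonneg.2 ((term_le (two_le_of_q4 h)).trans (term_nonneg (two_le_of_q4 h) (by omega)))
  rw [sum_sub_distrib, sum_sub_distrib, ← sum_div, ← Nat.cast_sum,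
    ← Real.log_prod (fun n _ => by exact_mod_cast (hA n).ne'),
    ← Real.log_prod (fun n _ => by exact_mod_cast (hB n).ne'), ← Nat.cast_prod, ← Nat.cast_prod] at h1
  have h2 : 0 < ∏ n ∈ I, cond (q4 n) n 1 := prod_pos fun n _ => hA n
  have h3 : 0 < ∏ n ∈ I, cond (q4 n) (Nat.sub n 1) 1 := prod_pos fun n _ => hB n
  generalize ∏ n ∈ I, cond (q4 n) n 1 = A at ha h1 h2
  generalize ∏ n ∈ I, cond (q4 n) (Nat.sub n 1) 1 = B at ha h1 h3
  generalize ∑ n ∈ I, cond (q4 n) (Nat.mul (lg n) (Nat.div 1000000000000 n)) 0 = L at hb h1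
  have h4 : (100 : ℝ) * A ≤ 1976 * B := by exact_mod_cast (show 100 * A ≤ 1976 * B from ha)
  have h5 : (3603900000000000 : ℝ) ≤ L := by exact_mod_cast hb
  have h6 : (0 : ℝ) < A := by exact_mod_cast h2
  have h7 : (0 : ℝ) < B := by exact_mod_cast h3
  have h8 : Real.log A ≤ Real.log (19.76 * B) := Real.log_le_log h6 (by linarith)
  rw [Real.log_mul (by norm_num) h7.ne'] at h8
  linarith

/-- Mertens' product -/
theorem mertens {N : ℕ} (hN : 65536 ≤ N) : ∏ p ∈ PR N, (p : ℝ) / (p - 1) ≤ 1.92 * Real.log N := by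
  have h0 : (65536 : ℝ) ≤ N := by exact_mod_cast hN
  have ha : 0 < Real.log N := Real.log_pos (by linarith)
  have hp : ∀ p ∈ PR N, (0 : ℝ) < (p : ℝ) / (p - 1) := fun p hp =>
    div_pos (by exact_mod_cast (mem_PR.1 hp).2.pos) (pm_pos (mem_PR.1 hp).2)
  rw [← Real.log_le_log_iff (prod_pos hp) (by positivity), Real.log_prod fun p h => (hp p h).ne',
    Real.log_mul (by norm_num) ha.ne']
  have h1 := abel hN
  have h2 := table4
  have h3 : BB N / Real.log N + 0.56 / Real.log N ≤ 1 := by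
    rw [← add_div, div_le_one ha]
    linarith [BB_le hN]
  have h4 : (0 : ℝ) ≤ (N : ℝ)⁻¹ := by positivity
  have h5 := Real.log_two_gt_d9
  have h6 := Real.log_two_lt_d9
  have h7 : (0.05049 : ℝ) ≤ 0.56 / Real.log (65536 : ℕ) := by
    rw [log_y, le_div_iff₀ (by positivity)]
    linarith
  have h8 : Real.log 11.09 ≤ Real.log (Real.log (65536 : ℕ)) :=
    Real.log_le_log (by norm_num) (by rw [log_y]; linarith)
  have h9 := Real.le_log_one_add_of_nonneg (x := 0.0775) (by norm_num)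
  have h10 : Real.log (1 + 0.0775) ≤ Real.log (1.92 * 11.09 / 19.76) := Real.log_le_log (by norm_num) (by norm_num)
  rw [Real.log_div (by norm_num) (by norm_num), Real.log_mul (by norm_num) (by norm_num)] at h10
  change LM N ≤ _
  norm_num at h1 h2 h3 h7 h8 h9 h10 ⊢
  linarith

end GH

open GH

theorem gh4 : GH4 := by
  intro z R hz hR
  have h1 : 65536 ≤ ⌊z⌋₊ := Nat.le_floor (le_trans (by norm_num) hz)
  have h0 : (65536 : ℝ) ≤ ⌊z⌋₊ := by exact_mod_cast h1
  have h2 := mertens h1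
  have h3 : Real.log ⌊z⌋₊ ≤ Real.log z := Real.log_le_log (by linarith) (Nat.floor_le (by linarith))
  have h4 : 0 < Real.log ⌊z⌋₊ := Real.log_pos (by linarith)
  have h5 := Gs_le_prod 1 (PR ⌊z⌋₊) (fun p hp => (mem_PR.1 hp).2) R
  have h6 : Gs (1 * ∏ p ∈ PR ⌊z⌋₊, p) R ≤ Gs (60 * primorial ⌊z⌋₊) R := by
    refine Gs_mono_k R fun d hd => ?_
    rw [one_mul] at hd
    refine Nat.Coprime.mul_right (Nat.coprime_of_dvd fun p hp hpd hq => ?_) hd
    have h7 : p ∣ ∏ p ∈ PR ⌊z⌋₊, p :=
      dvd_prod_of_mem _ (mem_PR.2 ⟨(Nat.le_of_dvd (by norm_num) hq).trans (by omega), hp⟩)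
    exact hp.one_lt.ne' (Nat.eq_one_of_dvd_coprimes hd hpd h7)
  rw [div_le_iff₀ (by linarith)]
  refine (log_le_Gs_one hR).trans (h5.trans (mul_le_mul h6 (by linarith) ?_ (Gs_nonneg _ _)))
  exact prod_nonneg fun p hp => div_nonneg (Nat.cast_nonneg _) (pm_pos (mem_PR.1 hp).2).le

end Cfsg.Agent.Depth.S
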