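import Cfsg.Agent.Depth.S.GH2

/-!
# Depth (S5768): sums over integers coprime to `q`, divisor expansion, Euler products
-/

set_option autoImplicit false

namespace Cfsg.Agent.Depth.S

open Finset

namespace GH

theorem blocks (q A : ℕ) (f g : ℕ → ℝ) (hf : ∀ i m, A + q * i ≤ m → f m ≤ g i) (I : ℕ) :
    ∑ m ∈ (Ico A (A + q * I)).filter (fun m => m.Coprime q), f m ≤ q.totient * ∑ i ∈ range I, g i := by
  induction I with
  | zero => simp
  | succ I ih =>
    rw [sum_filter] at ih ⊢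
    rw [← sum_Ico_consecutive _ (Nat.le_add_right A (q * I)) (show A + q * I ≤ A + q * (I + 1) by
      rw [mul_add]; omega), sum_range_succ, mul_add (q.totient : ℝ)]
    refine add_le_add ih ?_
    rw [← sum_filter, ← Nat.filter_coprime_Ico_eq_totient q (A + q * I), ← nsmul_eq_mul,
      filter_congr (q := fun x => q.Coprime x) fun n _ => Nat.coprime_comm,
      show A + q * (I + 1) = A + q * I + q by ring]
    refine sum_le_card_nsmul _ _ _ fun n hn => ?_
    simp only [mem_filter, mem_Ico] at hn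
    exact hf I n hn.1.1

/-- a finite set of integers coprime to `q` is covered by blocks -/
theorem cover (q : ℕ) (hq : 0 < q) (T : Finset ℕ) (hne : T.Nonempty) (hT : ∀ m ∈ T, m.Coprime q) :
    ∃ A ∈ T, ∃ M ∈ T, ∃ I, A + q * I ≤ M ∧ T ⊆ (Ico A (A + q * (I + 1))).filter (fun m => m.Coprime q) := by
  refine ⟨T.min' hne, min'_mem _ _, T.max' hne, max'_mem _ _, (T.max' hne - T.min' hne) / q, ?_, fun m hm => ?_⟩
  · have h1 := Nat.mul_div_le (T.max' hne - T.min' hne) q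
    have h2 := min'_le_max' T hne
    omega
  · have h1 := Nat.lt_mul_div_succ (T.max' hne - T.min' hne) hq
    have h2 := min'_le T m hm
    have h3 := le_max' T m hm
    rw [mem_filter, mem_Ico]
    exact ⟨⟨h2, by omega⟩, hT m hm⟩

theorem harm_le (q : ℕ) (hq : 0 < q) (T : Finset ℕ) (a b : ℝ) (ha : 0 < a) (hab : a ≤ b)
    (hT : ∀ m ∈ T, m.Coprime q ∧ a ≤ m ∧ (m : ℝ) ≤ b) :
    ∑ m ∈ T, (1 : ℝ) / m ≤ q.totient * (1 / a + (Real.log b - Real.log a) / q) := by
  have hl := Real.log_le_log ha hab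
  have hq0 : (0 : ℝ) < q := by exact_mod_cast hq
  rcases T.eq_empty_or_nonempty with rfl | hne
  · rw [sum_empty]
    exact mul_nonneg (Nat.cast_nonneg _) (add_nonneg (by positivity) (div_nonneg (by linarith) hq0.le))
  obtain ⟨A, hA, M, hM, I, h1, h2⟩ := cover q hq T hne fun m hm => (hT m hm).1
  have hA0 : (0 : ℝ) < A := lt_of_lt_of_le ha (hT A hA).2.1
  have h3 := blocks q A (fun m => (1 : ℝ) / m) (fun i => 1 / (A + q * i)) (fun i m h =>
    one_div_le_one_div_of_le (by positivity) (by exact_mod_cast h)) (I + 1)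
  have h4 : ∀ J : ℕ, ∑ i ∈ range (J + 1), (1 : ℝ) / (A + q * i) ≤
      1 / A + (Real.log (A + q * J) - Real.log A) / q := by
    intro J
    induction J with
    | zero => simp
    | succ J ih =>
      rw [sum_range_succ]
      have h5 := Real.one_sub_inv_le_log_of_pos (x := ((A : ℝ) + q * (J + 1 : ℕ)) / (A + q * J)) (by positivity)
      rw [Real.log_div (by positivity) (by positivity), inv_div] at h5
      have h6 : 1 - ((A : ℝ) + q * J) / (A + q * (J + 1 : ℕ)) = q * (1 / (A + q * (J + 1 : ℕ))) := by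
        push_cast
        field_simp
        ring
      rw [h6] at h5
      have h7 : (1 : ℝ) / (A + q * (J + 1 : ℕ)) ≤
          (Real.log (A + q * (J + 1 : ℕ)) - Real.log (A + q * J)) / q := by
        rw [le_div_iff₀ hq0]
        linarith
      have h8 : (Real.log (A + q * (J + 1 : ℕ)) - Real.log A) / q = (Real.log (A + q * J) - Real.log A) / q +
          (Real.log (A + q * (J + 1 : ℕ)) - Real.log (A + q * J)) / q := by ring
      linarith
  refine (sum_le_sum_of_subset_of_nonneg h2 fun _ _ _ => by positivity).trans (h3.trans ?_)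
  refine mul_le_mul_of_nonneg_left ((h4 I).trans (add_le_add (one_div_le_one_div_of_le ha (hT A hA).2.1)
    (div_le_div_of_nonneg_right (sub_le_sub ?_ (Real.log_le_log ha (hT A hA).2.1)) hq0.le))) (Nat.cast_nonneg _)
  exact Real.log_le_log (by positivity) (le_trans (by exact_mod_cast h1) (hT M hM).2.2)

theorem sq_le (q : ℕ) (hq : 0 < q) (T : Finset ℕ) (a : ℝ) (ha : 0 < a) (hT : ∀ m ∈ T, m.Coprime q ∧ a ≤ m) :
    ∑ m ∈ T, (1 : ℝ) / (m : ℝ) ^ 2 ≤ q.totient * (1 / a ^ 2 + 1 / a / q) := by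
  have hq0 : (0 : ℝ) < q := by exact_mod_cast hq
  rcases T.eq_empty_or_nonempty with rfl | hne
  · rw [sum_empty]
    positivity
  obtain ⟨A, hA, M, hM, I, h1, h2⟩ := cover q hq T hne fun m hm => (hT m hm).1
  have hA0 : (0 : ℝ) < A := lt_of_lt_of_le ha (hT A hA).2
  have h3 := blocks q A (fun m => (1 : ℝ) / (m : ℝ) ^ 2) (fun i => 1 / ((A : ℝ) + q * i) ^ 2) (fun i m h =>
    one_div_le_one_div_of_le (by positivity) (pow_le_pow_left₀ (by positivity) (by exact_mod_cast h) 2)) (I + 1)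
  have h4 : ∀ J : ℕ, ∑ i ∈ range (J + 1), (1 : ℝ) / ((A : ℝ) + q * i) ^ 2 ≤
      1 / (A : ℝ) ^ 2 + (1 / A - 1 / (A + q * J)) / q := by
    intro J
    induction J with
    | zero => simp
    | succ J ih =>
      rw [sum_range_succ]
      have h7 : (1 : ℝ) / ((A : ℝ) + q * (J + 1 : ℕ)) ^ 2 ≤ (1 / (A + q * J) - 1 / (A + q * (J + 1 : ℕ))) / q := by
        have h5 : (1 / ((A : ℝ) + q * J) - 1 / (A + q * (J + 1 : ℕ))) / q =
            1 / ((A + q * J) * (A + q * (J + 1 : ℕ))) := by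
          push_cast
          field_simp
          ring
        rw [h5, sq]
        refine one_div_le_one_div_of_le (by positivity) (mul_le_mul_of_nonneg_right ?_ (by positivity))
        push_cast
        linarith
      have h8 : (1 / (A : ℝ) - 1 / (A + q * (J + 1 : ℕ))) / q = (1 / A - 1 / (A + q * J)) / q +
          (1 / (A + q * J) - 1 / (A + q * (J + 1 : ℕ))) / q := by ring
      linarith
  refine (sum_le_sum_of_subset_of_nonneg h2 fun _ _ _ => by positivity).trans (h3.trans ?_)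
  refine mul_le_mul_of_nonneg_left ((h4 I).trans (add_le_add
    (one_div_le_one_div_of_le (by positivity) (pow_le_pow_left₀ ha.le (hT A hA).2 2))
    (div_le_div_of_nonneg_right ?_ hq0.le))) (Nat.cast_nonneg _)
  have h9 : (0 : ℝ) ≤ 1 / (A + q * I) := by positivity
  linarith [one_div_le_one_div_of_le ha (hT A hA).2]

/-- expanding the products over the prime divisors -/
theorem dec (S s : Finset ℕ) (f g : ℕ → ℝ) (hs : ∀ d ∈ s, d.primeFactors ⊆ S) :
    ∑ d ∈ s, f d * ∏ p ∈ d.primeFactors, (1 + g p) =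
      ∑ t ∈ S.powerset, (∏ p ∈ t, g p) * ∑ d ∈ s.filter (fun d => t ⊆ d.primeFactors), f d := by
  simp_rw [prod_one_add, mul_sum]
  rw [sum_comm' (t' := S.powerset) (s' := fun t => s.filter (fun d => t ⊆ d.primeFactors))]
  · exact sum_congr rfl fun t _ => sum_congr rfl fun d _ => mul_comm _ _
  · intro d t
    simp only [mem_powerset, mem_filter]
    exact ⟨fun h => ⟨h, h.2.trans (hs d h.1)⟩, fun h => h.1⟩

theorem prod_dvd_of_subset {t : Finset ℕ} {d : ℕ} (h : t ⊆ d.primeFactors) : ∏ p ∈ t, p ∣ d :=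
  (prod_dvd_prod_of_subset _ _ _ h).trans (Nat.prod_primeFactors_dvd d)

/-- the multiples of `∏ t` in `s` -/
theorem inner_le (s t : Finset ℕ) (k : ℕ) (c : ℝ)
    (h : ∀ T : Finset ℕ, (∀ m ∈ T, (∏ p ∈ t, p) * m ∈ s) → ∑ m ∈ T, (1 : ℝ) / (m : ℝ) ^ k ≤ c) :
    ∑ d ∈ s.filter (fun d => t ⊆ d.primeFactors), (1 : ℝ) / (d : ℝ) ^ k ≤ 1 / ((∏ p ∈ t, p : ℕ) : ℝ) ^ k * c := by
  set e := ∏ p ∈ t, p with he
  have key : ∀ d ∈ s.filter (fun d => t ⊆ d.primeFactors), e * (d / e) = d := fun d hd =>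
    Nat.mul_div_cancel' (prod_dvd_of_subset (mem_filter.1 hd).2)
  refine le_trans ?_ (mul_le_mul_of_nonneg_left
    (h ((s.filter (fun d => t ⊆ d.primeFactors)).image (fun d => d / e)) fun m hm => ?_) (by positivity))
  · rw [mul_sum]
    refine sum_le_of_inj _ _ (fun d => d / e) _ _ ?_ (fun d hd => mem_image_of_mem _ hd) ?_
      fun _ _ => by positivity
    · intro a ha b hb hab
      rw [← key a ha, ← key b hb]
      exact congrArg (e * ·) hab
    · intro d hd
      rw [one_div_mul_one_div, ← mul_pow, ← Nat.cast_mul, key d hd]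
  · obtain ⟨d, hd, rfl⟩ := mem_image.1 hm
    rw [key d hd]
    exact (mem_filter.1 hd).1

theorem seven_le {m : ℕ} (h : m.Coprime 30) (h1 : m ≠ 1) : 7 ≤ m := by
  by_contra h2
  have h3 : m < 7 := by omega
  have h4 : ∀ m < 7, m ≠ 1 → ¬ m.Coprime 30 := by decide +kernel
  exact h4 m h3 h1 h

/-- all prime divisors of the members of `s` -/
def SP (s : Finset ℕ) : Finset ℕ := s.biUnion Nat.primeFactors

theorem sub_SP {s : Finset ℕ} {d : ℕ} (hd : d ∈ s) : d.primeFactors ⊆ SP s := subset_biUnion_of_mem _ hd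

theorem mem_SP {s : Finset ℕ} (hs : ∀ d ∈ s, d.Coprime 30) {p : ℕ} (hp : p ∈ SP s) :
    p.Prime ∧ 7 ≤ p ∧ p.Coprime 30 := by
  obtain ⟨d, hd, h⟩ := mem_biUnion.1 hp
  have h1 := Nat.prime_of_mem_primeFactors h
  have h2 := Nat.Coprime.coprime_dvd_left (Nat.dvd_of_mem_primeFactors h) (hs d hd)
  exact ⟨h1, seven_le h2 h1.ne_one, h2⟩

theorem tele (N : ℕ) : ∑ n ∈ Ico 257 (257 + N), (1 : ℝ) / ((n : ℝ) * (n - 1)) ≤ 1 / 256 - 1 / (256 + N) := by
  induction N with
  | zero => simp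
  | succ N ih =>
    rw [← add_assoc, sum_Ico_succ_top (Nat.le_add_right _ _)]
    have h : (1 : ℝ) / (((257 + N : ℕ) : ℝ) * ((257 + N : ℕ) - 1)) = 1 / (256 + N) - 1 / (256 + (N + 1 : ℕ)) := by
      push_cast
      rw [show (257 : ℝ) + N - 1 = 256 + N by ring]
      field_simp
      ring
    linarith

/-- the primes from `7` to `256` -/
def QQ : Finset ℕ := (range 257).filter (fun n => 7 ≤ n ∧ n.Prime)

theorem euler_le (S : Finset ℕ) (hS : ∀ p ∈ S, p.Prime ∧ 7 ≤ p) (g : ℕ → ℝ) (a c : ℝ) (ha : 0 ≤ a) (ha' : a < 256)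
    (h0 : ∀ p : ℕ, 7 ≤ p → 0 ≤ g p) (h1 : ∀ p : ℕ, 257 ≤ p → g p ≤ a * (1 / ((p : ℝ) * (p - 1))))
    (hc : ∏ p ∈ QQ, (1 + g p) ≤ c) : ∏ p ∈ S, (1 + g p) ≤ c * (1 / (1 - a / 256)) := by
  rw [← prod_filter_mul_prod_filter_not S (fun p => p < 257)]
  have hn : ∀ T : Finset ℕ, T ⊆ S → 0 ≤ ∏ p ∈ T, (1 + g p) := fun T hT =>
    prod_nonneg fun p hp => add_nonneg zero_le_one (h0 p (hS p (hT hp)).2)
  have h2 : ∏ p ∈ S.filter (fun p => p < 257), (1 + g p) ≤ c := by
    refine le_trans (prod_le_prod_of_subset_of_one_le (fun p hp => ?_) ?_ ?_) hc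
    · rw [mem_filter] at hp
      exact mem_filter.2 ⟨mem_range.2 hp.2, (hS p hp.1).2, (hS p hp.1).1⟩
    · exact fun p hp => add_nonneg zero_le_one (h0 p (hS p (mem_filter.1 hp).1).2)
    · exact fun p hp _ => le_add_of_nonneg_right (h0 p (mem_filter.1 hp).2.1)
  refine mul_le_mul h2 ?_ (hn _ (filter_subset _ _)) ((hn _ (filter_subset _ _)).trans h2)
  have h3 : ∑ p ∈ S.filter (fun p => ¬ p < 257), g p ≤ a / 256 := by
    have h4 : S.filter (fun p => ¬ p < 257) ⊆ Ico 257 (257 + S.sup id) := fun p hp => by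
      rw [mem_filter] at hp
      have := le_sup (f := id) hp.1
      rw [mem_Ico]
      simp only [id] at this ⊢
      omega
    calc ∑ p ∈ S.filter (fun p => ¬ p < 257), g p ≤ ∑ p ∈ Ico 257 (257 + S.sup id), g p :=
          sum_le_sum_of_subset_of_nonneg h4 fun p hp _ => h0 p (by rw [mem_Ico] at hp; omega)
      _ ≤ ∑ p ∈ Ico 257 (257 + S.sup id), a * (1 / ((p : ℝ) * (p - 1))) :=
          sum_le_sum fun p hp => h1 p (mem_Ico.1 hp).1
      _ ≤ a * (1 / 256) := by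
          rw [← mul_sum]
          refine mul_le_mul_of_nonneg_left ((tele _).trans (sub_le_self _ (by positivity))) ha
      _ = a / 256 := by ring
  calc ∏ p ∈ S.filter (fun p => ¬ p < 257), (1 + g p) ≤ ∏ p ∈ S.filter (fun p => ¬ p < 257), Real.exp (g p) :=
        prod_le_prod (fun p hp => add_nonneg zero_le_one (h0 p (hS p (mem_filter.1 hp).1).2))
          fun p _ => by linarith [Real.add_one_le_exp (g p)]
    _ = Real.exp (∑ p ∈ S.filter (fun p => ¬ p < 257), g p) := (Real.exp_sum _ _).symm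
    _ ≤ Real.exp (a / 256) := Real.exp_le_exp.2 h3
    _ ≤ 1 / (1 - a / 256) := Real.exp_bound_div_one_sub_of_interval (by positivity) (by linarith)

theorem QQ_le (g : ℕ → ℝ) (u v : ℕ → ℕ) (K L : ℕ) (hL : 0 < L) (hv : ∀ p, 7 ≤ p → 0 < v p)
    (hg : ∀ p : ℕ, 7 ≤ p → 1 + g p = (u p : ℝ) / v p) (h : (∏ p ∈ QQ, u p) * L ≤ K * ∏ p ∈ QQ, v p) :
    ∏ p ∈ QQ, (1 + g p) ≤ (K : ℝ) / L := by
  have h7 : ∀ p ∈ QQ, 7 ≤ p := fun p hp => (mem_filter.1 hp).2.1
  rw [prod_congr rfl fun p hp => hg p (h7 p hp), prod_div_distrib, ← Nat.cast_prod, ← Nat.cast_prod]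
  have h1 : 0 < ∏ p ∈ QQ, v p := prod_pos fun p hp => hv p (h7 p hp)
  generalize ∏ p ∈ QQ, u p = A at h
  generalize ∏ p ∈ QQ, v p = B at h h1
  rw [div_le_div_iff₀ (by exact_mod_cast h1) (by exact_mod_cast hL)]
  exact_mod_cast h

theorem run_pi1 : (∏ p ∈ QQ, (p * (p - 1) + 1)) * 10000 ≤ 10572 * ∏ p ∈ QQ, p * (p - 1) := by decide +kernel

theorem run_pi2 : (∏ p ∈ QQ, (p * (p - 1) ^ 2 + (2 * p - 1))) * 10000 ≤ 11233 * ∏ p ∈ QQ, p * (p - 1) ^ 2 := by
  decide +kernel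

theorem pi1 (S : Finset ℕ) (hS : ∀ p ∈ S, p.Prime ∧ 7 ≤ p) :
    ∏ p ∈ S, (1 + 1 / ((p : ℝ) - 1) * (1 / p)) ≤ 1.0614 := by
  refine (euler_le S hS (fun p => 1 / ((p : ℝ) - 1) * (1 / p)) 1 _ (by norm_num) (by norm_num) ?_ ?_
    (QQ_le _ _ _ 10572 10000 (by norm_num) ?_ ?_ run_pi1)).trans (by norm_num)
  · intro p hp
    have h : (7 : ℝ) ≤ p := by exact_mod_cast hp
    exact mul_nonneg (one_div_nonneg.2 (by linarith)) (by positivity)
  · intro p _
    rw [one_div_mul_one_div, one_mul, mul_comm]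
  · intro p hp
    exact Nat.mul_pos (by omega) (by omega)
  · intro p hp
    have h : (7 : ℝ) ≤ p := by exact_mod_cast hp
    have h1 : (p : ℝ) - 1 ≠ 0 := by linarith
    push_cast [Nat.cast_sub (show 1 ≤ p by omega)]
    field_simp

theorem pi2 (S : Finset ℕ) (hS : ∀ p ∈ S, p.Prime ∧ 7 ≤ p) :
    ∏ p ∈ S, (1 + (2 * (p : ℝ) - 1) / ((p : ℝ) - 1) ^ 2 * (1 / p)) ≤ 1.133 := by
  refine (euler_le S hS (fun p => (2 * (p : ℝ) - 1) / ((p : ℝ) - 1) ^ 2 * (1 / p)) 2.01 _ (by norm_num)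
    (by norm_num) ?_ ?_ (QQ_le _ _ _ 11233 10000 (by norm_num) ?_ ?_ run_pi2)).trans (by norm_num)
  · intro p hp
    have h : (7 : ℝ) ≤ p := by exact_mod_cast hp
    exact mul_nonneg (div_nonneg (by linarith) (by positivity)) (by positivity)
  · intro p hp
    have h : (257 : ℝ) ≤ p := by exact_mod_cast hp
    have h1 : (0 : ℝ) < (p : ℝ) - 1 := by linarith
    have h2 : (2 * (p : ℝ) - 1) / ((p : ℝ) - 1) ^ 2 * (1 / p) = (2 * p - 1) / (p - 1) * (1 / (p * (p - 1))) := by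
      field_simp
    rw [h2]
    refine mul_le_mul_of_nonneg_right ?_ (by positivity)
    rw [div_le_iff₀ h1]
    linarith
  · intro p hp
    exact Nat.mul_pos (by omega) (pow_pos (by omega) _)
  · intro p hp
    have h : (7 : ℝ) ≤ p := by exact_mod_cast hp
    have h1 : (p : ℝ) - 1 ≠ 0 := by linarith
    push_cast [Nat.cast_sub (show 1 ≤ p by omega), Nat.cast_sub (show 1 ≤ 2 * p by omega)]
    field_simp

end GH

end Cfsg.Agent.Depth.S
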