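import Cfsg.Agent.Depth.S.GH2

/-!
# Depth (S5768): binary splitting of finite sums and products, the table for Mertens' product
-/

set_option autoImplicit false

namespace Cfsg.Agent.Depth.S

open Finset

namespace GH

/-- sum over `[lo, lo + 2^k)` -/
noncomputable def bsS (f : ℕ → ℕ) (k : ℕ) : ℕ → ℕ :=
  Nat.rec (fun lo => f lo) (fun k ih lo => Nat.add (ih lo) (ih (Nat.add lo (Nat.pow 2 k)))) k

/-- product over `[lo, lo + 2^k)` -/
noncomputable def bsP (f : ℕ → ℕ) (k : ℕ) : ℕ → ℕ :=
  Nat.rec (fun lo => f lo) (fun k ih lo => Nat.mul (ih lo) (ih (Nat.add lo (Nat.pow 2 k)))) k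

theorem bsS_eq (f : ℕ → ℕ) (k : ℕ) : ∀ lo, bsS f k lo = ∑ i ∈ Ico lo (lo + 2 ^ k), f i := by
  induction k with
  | zero => intro lo; simp [bsS]
  | succ k ih =>
    intro lo
    have h : bsS f (k + 1) lo = bsS f k lo + bsS f k (lo + 2 ^ k) := rfl
    rw [h, ih, ih, sum_Ico_consecutive _ (Nat.le_add_right _ _) (Nat.le_add_right _ _),
      show lo + 2 ^ k + 2 ^ k = lo + 2 ^ (k + 1) by ring]

theorem bsP_eq (f : ℕ → ℕ) (k : ℕ) : ∀ lo, bsP f k lo = ∏ i ∈ Ico lo (lo + 2 ^ k), f i := by
  induction k with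
  | zero => intro lo; simp [bsP]
  | succ k ih =>
    intro lo
    have h : bsP f (k + 1) lo = bsP f k lo * bsP f k (lo + 2 ^ k) := rfl
    rw [h, ih, ih, prod_Ico_consecutive _ (Nat.le_add_right _ _) (Nat.le_add_right _ _),
      show lo + 2 ^ k + 2 ^ k = lo + 2 ^ (k + 1) by ring]

/-- the product of the primes up to `256` -/
def P256 : ℕ :=
  64266330917908644872330635228106713310880186591609208114244758680898150367880703152525200743234420230

/-- the primes up to `256` as a bit mask -/
def M256 : ℕ := 3622934801701902697686555901643181168549895964810913375391936802953324275884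

/-- the primality test below `257²` -/
def q4 (n : ℕ) : Bool :=
  cond (Nat.ble n 256) (Nat.beq (Nat.land (Nat.shiftRight M256 n) 1) 1) (Nat.beq (Nat.gcd n P256) 1)

theorem q4_small : ∀ n < 257, n.Prime → q4 n = true := by decide +kernel

theorem q4_of_prime {n : ℕ} (hn : n.Prime) : q4 n = true := by
  by_cases h : n < 257
  · exact q4_small n h hn
  · have h1 : Nat.ble n 256 = false := by
      rw [← Bool.not_eq_true]
      exact fun h2 => h (Nat.lt_succ_of_le (Nat.le_of_ble_eq_true h2))
    have h2 : P256 ∣ Nat.factorial 256 := by decide +kernel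
    have h3 : n.Coprime P256 := hn.coprime_iff_not_dvd.2 fun h3 => by
      have := hn.dvd_factorial.1 (h3.trans h2)
      omega
    unfold q4
    rw [h1, cond_false, h3.gcd_eq_one]
    rfl

theorem two_le_of_q4 {n : ℕ} (hn : q4 n = true) : 2 ≤ n := by
  have h : ∀ n < 2, q4 n = false := by decide +kernel
  by_contra h1
  rw [h n (by omega)] at hn
  exact Bool.false_ne_true hn

theorem run4a : Nat.ble (Nat.mul 100 (bsP (fun n => cond (q4 n) n 1) 16 0))
    (Nat.mul 1976 (bsP (fun n => cond (q4 n) (Nat.sub n 1) 1) 16 0)) = true := by decide +kernel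

theorem run4b : Nat.ble 3603900000000000
    (bsS (fun n => cond (q4 n) (Nat.mul (lg n) (Nat.div 1000000000000 n)) 0) 16 0) = true := by decide +kernel

theorem run4c : 275000000000000 ≤
    ∑ p ∈ (range 101).filter Nat.Prime, ∑ i ∈ Ico 2 12, lg p * (1000000000000 / p ^ i) := by decide +kernel

end GH

end Cfsg.Agent.Depth.S
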