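import Cfsg.Agent.Depth.S.LPa

/-!
# Depth (S5768): the arc inequality (helper58)
-/

set_option autoImplicit false

namespace Cfsg.Agent.Depth.S

open Finset
open scoped ComplexConjugate

namespace LPa

/-- the primes greater than five which divide `q` exactly once -/
def ss (q : ℕ) : Finset ℕ := q.primeFactors.filter fun p => 5 < p ∧ ¬ p * p ∣ q

/-- the rest of `q` -/
def q0 (q : ℕ) : ℕ := q / ∏ p ∈ ss q, p

theorem mem_ss {q p : ℕ} : p ∈ ss q ↔ (p.Prime ∧ p ∣ q ∧ q ≠ 0) ∧ 5 < p ∧ ¬ p * p ∣ q := by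
  rw [ss, mem_filter, Nat.mem_primeFactors]

theorem prod_dvd {q : ℕ} {J : Finset ℕ} (h : J ⊆ ss q) : ∏ p ∈ J, p ∣ q :=
  (prod_dvd_prod_of_subset _ _ _ (h.trans (filter_subset _ _))).trans (Nat.prod_primeFactors_dvd q)

theorem prod_pos' {q : ℕ} {J : Finset ℕ} (h : J ⊆ ss q) : 0 < ∏ p ∈ J, p :=
  prod_pos fun _ hp => (mem_ss.1 (h hp)).1.1.pos

theorem not_dvd_div {q : ℕ} {J : Finset ℕ} (h : J ⊆ ss q) {p : ℕ} (hp : p ∈ J) : ¬ p ∣ q / ∏ p ∈ J, p := by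
  intro e
  refine (mem_ss.1 (h hp)).2.2 ?_
  rw [← Nat.div_mul_cancel (prod_dvd h)]
  exact mul_dvd_mul e (dvd_prod_of_mem _ hp)

theorem q0_mul (q : ℕ) : q0 q * ∏ p ∈ ss q, p = q := Nat.div_mul_cancel (prod_dvd subset_rfl)

/-- the kernel attached to `q` and a set of primes -/
noncomputable def kk (q : ℕ) (s : Finset ℕ) (u v : ℕ) : ℂ := ram q (u - v) * ∏ p ∈ s, (ram p (u - v) - 1 / (p - 1))

theorem ram_eq {q : ℕ} (hq : 0 < q) (u v : ℕ) : ram q (u - v) =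
    ∑ J ∈ (ss q).powerset, ((∏ p ∈ J, (1 : ℝ) / (p - 1) : ℝ) : ℂ) * kk (q0 q) (ss q \ J) u v := by
  have h0 : 0 < q0 q := Nat.pos_of_mul_pos_right (by rw [q0_mul]; exact hq)
  have h1 := ram_prod (ss q) (u - v) h0 fun p hp => ⟨(mem_ss.1 hp).1.1, not_dvd_div subset_rfl hp⟩
  rw [q0_mul] at h1
  rw [h1, prod_congr rfl fun (p : ℕ) _ => (add_sub_cancel (1 / ((p : ℂ) - 1)) (ram p (u - v))).symm, prod_add, mul_sum]
  refine sum_congr rfl fun J _ => ?_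
  rw [kk, mul_left_comm]
  push_cast
  rfl

theorem ss_mul {q d : ℕ} (hq : 0 < q) (h1 : Squarefree d) (h2 : d.Coprime (60 * q)) :
    ss (q * d) = ss q ∪ d.primeFactors ∧ Disjoint (ss q) d.primeFactors := by
  have h0 := h1.ne_zero
  have key : ∀ p, p.Prime → p ∣ d → ¬ p ∣ 60 * q := fun p hp h3 h4 =>
    hp.ne_one (Nat.dvd_one.1 (h2 ▸ Nat.dvd_gcd h3 h4))
  refine ⟨ext fun p => ?_, disjoint_left.2 fun p h3 h4 => key p (mem_ss.1 h3).1.1 (Nat.dvd_of_mem_primeFactors h4)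
    ((mem_ss.1 h3).1.2.1.mul_left _)⟩
  rw [mem_union, mem_ss, mem_ss, Nat.mem_primeFactors]
  constructor
  · rintro ⟨⟨hp, h3, -⟩, h4, h5⟩
    exact (hp.dvd_mul.1 h3).imp (fun h6 => ⟨⟨hp, h6, hq.ne'⟩, h4, fun h7 => h5 (h7.mul_right _)⟩) fun h6 => ⟨hp, h6, h0⟩
  · rintro (⟨⟨hp, h3, -⟩, h4, h5⟩ | ⟨hp, h3, -⟩)
    · have h6 : p.Coprime d := (Nat.Prime.coprime_iff_not_dvd hp).2 fun h6 => key p hp h6 (h3.mul_left _)
      exact ⟨⟨hp, h3.mul_right _, mul_ne_zero hq.ne' h0⟩, h4, fun h7 =>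
        h5 ((h6.mul_left h6).dvd_of_dvd_mul_right h7)⟩
    · have h6 : p.Coprime q := (Nat.Prime.coprime_iff_not_dvd hp).2 fun h6 => key p hp h3 (h6.mul_left _)
      refine ⟨⟨hp, h3.mul_left _, mul_ne_zero hq.ne' h0⟩, ?_, fun h7 =>
        hp.not_isUnit (h1 p ((h6.mul_left h6).dvd_of_dvd_mul_left h7))⟩
      by_contra h7
      have h8 : ¬ p ∣ 60 := fun h8 => key p hp h3 (h8.mul_right _)
      have h9 := hp.two_le
      have h10 : p ≤ 5 := not_lt.1 h7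
      interval_cases p <;> omega

theorem totient_sq {d : ℕ} (h : Squarefree d) : (1 : ℝ) / d.totient = ∏ p ∈ d.primeFactors, (1 : ℝ) / (p - 1) := by
  have h1 := Nat.totient_mul_prod_primeFactors d
  rw [Nat.prod_primeFactors_of_squarefree h, mul_comm] at h1
  rw [Nat.eq_of_mul_eq_mul_left (Nat.pos_of_ne_zero h.ne_zero) h1, prod_div_distrib, prod_const_one, Nat.cast_prod]
  congr 1
  exact prod_congr rfl fun p hp => Nat.cast_pred (Nat.pos_of_mem_primeFactors hp)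

/-- the denominators on the arc `t` -/
def At (M R : ℕ) (t : ℤ) : Finset ℕ := (Icc 1 R).filter fun q => 2 * q * R * t.natAbs < M

variable {U : Finset ℕ} {w : ℕ → ℂ}

/-- the primitive part -/
noncomputable def PP (U : Finset ℕ) (w : ℕ → ℂ) (q : ℕ) : ℝ := (HH U w (kk (q0 q) (ss q))).re

theorem dec (M R : ℕ) (t : ℤ) (F : ℕ → ℝ) :
    ∑ q ∈ At M R t, F q * (HH U w fun u v => ram q (u - v)).re =
      ∑ q ∈ At M R t, PP U w q * ∑ d ∈ Dset M R q t, F (q * d) / d.totient := by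
  have h1 : ∀ q ∈ At M R t, F q * (HH U w fun u v => ram q (u - v)).re = ∑ J ∈ (ss q).powerset,
      F q * ((∏ p ∈ J, (1 : ℝ) / (p - 1)) * (HH U w (kk (q0 q) (ss q \ J))).re) := by
    intro q hq
    have h2 : (fun u v : ℕ => ram q (u - v)) = _ := funext fun u => funext fun v =>
      ram_eq (mem_Icc.1 (mem_filter.1 hq).1).1 u v
    rw [h2, HH_sum, mul_sum]
  rw [sum_congr rfl h1, sum_congr rfl fun q _ => mul_sum .., sum_sigma', sum_sigma']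
  symm
  refine sum_nbij' (fun x => ⟨x.1 * x.2, x.2.primeFactors⟩) (fun x => ⟨x.1 / ∏ p ∈ x.2, p, ∏ p ∈ x.2, p⟩)
    ?_ ?_ ?_ ?_ ?_
  · rintro ⟨q, d⟩ hx
    simp only [mem_sigma, At, Dset, mem_filter, mem_Icc, mem_powerset] at hx ⊢
    obtain ⟨⟨⟨h2, -⟩, -⟩, ⟨h3, -⟩, h4, h5, h6, h7⟩ := hx
    exact ⟨⟨⟨Nat.mul_pos h2 h3, h6⟩, h7⟩, (ss_mul h2 h4 h5).1 ▸ subset_union_right⟩
  · rintro ⟨q, J⟩ hx
    simp only [mem_sigma, At, Dset, mem_filter, mem_Icc, mem_powerset] at hx ⊢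
    obtain ⟨⟨⟨h2, h3⟩, h4⟩, h5⟩ := hx
    have h6 := Nat.div_mul_cancel (prod_dvd h5)
    have h7 : q / ∏ p ∈ J, p ≤ q := Nat.div_le_self _ _
    refine ⟨⟨⟨Nat.pos_of_mul_pos_right (h6.symm ▸ h2), h7.trans h3⟩, lt_of_le_of_lt (by gcongr) h4⟩,
      ⟨prod_pos' h5, (Nat.le_of_dvd h2 (prod_dvd h5)).trans h3⟩, ?_, ?_, h6.symm ▸ h3, h6.symm ▸ h4⟩
    · refine squarefree_prod_of_pairwise_isCoprime (fun p hp r hr e => ?_) fun p hp => (mem_ss.1 (h5 hp)).1.1.squarefree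
      exact Nat.coprime_iff_isRelPrime.1 ((Nat.coprime_primes (mem_ss.1 (h5 hp)).1.1 (mem_ss.1 (h5 hr)).1.1).2 e)
    · refine Nat.Coprime.prod_left fun p hp => ?_
      obtain ⟨⟨hp', -⟩, h8, -⟩ := mem_ss.1 (h5 hp)
      refine (Nat.Prime.coprime_iff_not_dvd hp').2 fun h9 => (hp'.dvd_mul.1 h9).elim (fun h10 => ?_) (not_dvd_div h5 hp)
      have h11 : p ∣ 2 * 2 * 3 * 5 := h10
      simp only [hp'.dvd_mul] at h11
      rcases h11 with ((h11 | h11) | h11) | h11 <;> exact absurd (Nat.le_of_dvd (by norm_num) h11) (by omega)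
  · rintro ⟨q, d⟩ hx
    simp only [mem_sigma, At, Dset, mem_filter, mem_Icc] at hx
    simp only [Nat.prod_primeFactors_of_squarefree hx.2.2.1, Nat.mul_div_cancel _ hx.2.1.1]
  · rintro ⟨q, J⟩ hx
    simp only [mem_sigma, At, mem_filter, mem_Icc, mem_powerset] at hx
    simp only [Nat.div_mul_cancel (prod_dvd hx.2), Nat.primeFactors_prod fun p hp => (mem_ss.1 (hx.2 hp)).1.1]
  · rintro ⟨q, d⟩ hx
    simp only [mem_sigma, At, Dset, mem_filter, mem_Icc] at hx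
    obtain ⟨⟨⟨h2, -⟩, -⟩, ⟨h3, -⟩, h4, h5, -⟩ := hx
    obtain ⟨h6, h7⟩ := ss_mul h2 h4 h5
    have h8 : q0 (q * d) = q0 q := by
      rw [q0, q0, h6, prod_union h7, Nat.prod_primeFactors_of_squarefree h4, Nat.mul_div_mul_right _ _ h3]
    simp only [h8, h6, union_sdiff_cancel_right h7, ← totient_sq h4, PP]
    ring

theorem PP_one : PP U w 1 = ‖∑ u ∈ U, w u‖ ^ 2 := by
  have h : kk (q0 1) (ss 1) = fun _ _ => 1 := by
    funext u v
    simp [kk, q0, ss, ram_one]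
  rw [PP, h, HH_one, Complex.ofReal_re]

/-- the inequality on one arc -/
theorem arc_le {M R : ℕ} {t : ℤ} (hU : ∀ p, p.Prime → 5 < p → p ≤ R → Gd U p) {D : ℕ → ℝ} {V κ : ℝ}
    (h : ∀ q, Arc M R q t → ∑ d ∈ Dset M R q t, D (q * d) / d.totient + (if q = 1 then V else 0) ≤
      κ * ∑ d ∈ Dset M R q t, (1 : ℝ) / d.totient) :
    ∑ q ∈ At M R t, D q * (HH U w fun u v => ram q (u - v)).re +
      ∑ q ∈ At M R t, (if q = 1 then V * ‖∑ u ∈ U, w u‖ ^ 2 else 0) ≤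
      κ * ∑ q ∈ At M R t, (HH U w fun u v => ram q (u - v)).re := by
  rw [mul_sum, dec, dec M R t fun _ => κ, ← sum_add_distrib]
  refine sum_le_sum fun q hq => ?_
  simp only [At, mem_filter, mem_Icc] at hq
  have h1 : 0 ≤ PP U w q := psd_prod _ _ (fun p hp => hU p (mem_ss.1 hp).1.1 (mem_ss.1 hp).2.1
    ((Nat.le_of_dvd hq.1.1 (mem_ss.1 hp).1.2.1).trans hq.1.2)) w
  have h2 := mul_le_mul_of_nonneg_left (h q ⟨hq.1.1, hq.1.2, hq.2⟩) h1
  have h3 : (if q = 1 then V * ‖∑ u ∈ U, w u‖ ^ 2 else 0) = PP U w q * if q = 1 then V else 0 := by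
    split_ifs with e
    · rw [e, PP_one, mul_comm]
    · rw [mul_zero]
  rw [h3, ← mul_add]
  refine h2.trans (le_of_eq ?_)
  rw [mul_sum]
  simp only [mul_one_div]

theorem sum_Arcs (M R : ℕ) (f : ℕ × ℤ → ℝ) :
    ∑ x ∈ Arcs M R, f x = ∑ t ∈ Icc (-(M : ℤ)) M, ∑ q ∈ At M R t, f (q, t) := by
  rw [Arcs, sum_filter, sum_product_right]
  exact sum_congr rfl fun t _ => by rw [At, sum_filter]

theorem SS_add_int (M : ℕ) (a : ℕ → ℝ) (x : ℝ) (n : ℤ) : SS M a (x + n) = SS M a x := by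
  refine sum_congr rfl fun u _ => ?_
  rw [add_mul, ← ex_add_int (x * u) (n * u)]
  push_cast
  rfl

/-- the arcs are disjoint -/
theorem arcs_inj {M R q q' b b' : ℕ} {t t' : ℤ} (h1 : (q, t) ∈ Arcs M R) (h2 : (q', t') ∈ Arcs M R) (h3 : b ∈ Rq q)
    (h4 : b' ∈ Rq q') (h5 : q ∣ M) (h6 : q' ∣ M)
    (e : (M : ℤ) ∣ (b * (M / q : ℕ) + t) - (b' * (M / q' : ℕ) + t')) : q = q' ∧ t = t' ∧ b = b' := by
  simp only [Arcs, Rq, mem_filter, mem_product, mem_Icc, mem_range] at h1 h2 h3 h4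
  obtain ⟨j, hj⟩ := e
  have e1 : ((M / q : ℕ) : ℤ) * q = M := by exact_mod_cast Nat.div_mul_cancel h5
  have e2 : ((M / q' : ℕ) : ℤ) * q' = M := by exact_mod_cast Nat.div_mul_cancel h6
  have e3 : (t' - t) * (q * q') = M * (b * q' - b' * q - j * q * q') := by
    linear_combination (-(q * q' : ℤ)) * hj + (b * q' : ℤ) * e1 - (b' * q : ℤ) * e2
  have a1 : 2 * (q : ℤ) * R * |t| < M := by
    rw [Int.abs_eq_natAbs]
    exact_mod_cast h1.2
  have a2 : 2 * (q' : ℤ) * R * |t'| < M := by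
    rw [Int.abs_eq_natAbs]
    exact_mod_cast h2.2
  have a3 : (q : ℤ) ≤ R := by exact_mod_cast h1.1.1.2
  have a4 : (q' : ℤ) ≤ R := by exact_mod_cast h2.1.1.2
  have a5 : (0 : ℤ) < q := by exact_mod_cast h1.1.1.1
  have a6 : (0 : ℤ) < q' := by exact_mod_cast h2.1.1.1
  have a7 : |(t' - t) * (q * q')| < M := by
    rw [abs_mul, abs_of_pos (mul_pos a5 a6)]
    have b1 := mul_le_mul_of_nonneg_right (abs_sub t' t) (mul_pos a5 a6).le
    have b2 := mul_le_mul_of_nonneg_left a3 (mul_nonneg (abs_nonneg t') a6.le)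
    have b3 := mul_le_mul_of_nonneg_left a4 (mul_nonneg (abs_nonneg t) a5.le)
    linarith
  have e4 := Int.eq_zero_of_abs_lt_dvd ⟨_, e3⟩ a7
  have e5 : (b : ℤ) * q' - b' * q - j * q * q' = 0 :=
    (mul_eq_zero.1 (e3.symm.trans e4)).resolve_left (lt_of_le_of_lt (abs_nonneg _) a7).ne'
  have e6 : t = t' := (sub_eq_zero.1 ((mul_eq_zero.1 e4).resolve_right (mul_pos a5 a6).ne')).symm
  have d1 : q ∣ q' := h3.2.symm.dvd_of_dvd_mul_left (Int.natCast_dvd_natCast.1 ⟨b' + j * q', by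
    push_cast
    linear_combination e5⟩)
  have d2 : q' ∣ q := h4.2.symm.dvd_of_dvd_mul_left (Int.natCast_dvd_natCast.1 ⟨b - j * q, by
    push_cast
    linear_combination -e5⟩)
  obtain rfl := Nat.dvd_antisymm d1 d2
  have e7 : (b : ℤ) - b' = q * j := mul_right_cancel₀ a5.ne' (by linear_combination e5)
  have e8 := Int.eq_zero_of_abs_lt_dvd ⟨_, e7⟩ (abs_lt.2 ⟨by omega, by omega⟩)
  exact ⟨rfl, e6, by omega⟩

/-- the total mass of the arcs -/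
theorem mass_le {M R : ℕ} (hM : 0 < M) (hd : ∀ q : ℕ, 1 ≤ q → q ≤ R → q ∣ M) (a : ℕ → ℝ) :
    ∑ x ∈ Arcs M R, ∑ b ∈ Rq x.1, ‖SS M a (b / x.1 + x.2 / M)‖ ^ 2 ≤ M * ∑ u ∈ range M, a u ^ 2 := by
  have hM' : (0 : ℤ) < M := by exact_mod_cast hM
  have hq : ∀ x ∈ Arcs M R, 0 < x.1 ∧ x.1 ∣ M := fun x hx => by
    simp only [Arcs, mem_filter, mem_product, mem_Icc] at hx
    exact ⟨hx.1.1.1, hd _ hx.1.1.1 hx.1.1.2⟩
  let f : (Σ _ : ℕ × ℤ, ℕ) → ℕ := fun y => (((y.2 : ℤ) * (M / y.1.1 : ℕ) + y.1.2) % M).toNat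
  have hf : ∀ y, (f y : ℤ) = ((y.2 : ℤ) * (M / y.1.1 : ℕ) + y.1.2) % M := fun y =>
    Int.toNat_of_nonneg (Int.emod_nonneg _ hM'.ne')
  rw [← parseval hM a 0, sum_sigma']
  have h1 : ∀ y ∈ (Arcs M R).sigma fun x => Rq x.1,
      ‖SS M a (y.2 / y.1.1 + y.1.2 / M)‖ ^ 2 = ‖SS M a (0 + f y / M)‖ ^ 2 := by
    intro y hy
    obtain ⟨h2, h3⟩ := hq _ (mem_sigma.1 hy).1
    rw [← SS_add_int M a (0 + f y / M) (((y.2 : ℤ) * (M / y.1.1 : ℕ) + y.1.2) / M)]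
    congr 3
    have h4 := Int.emod_add_mul_ediv ((y.2 : ℤ) * (M / y.1.1 : ℕ) + y.1.2) M
    rw [← hf] at h4
    have h5 : (f y : ℝ) + M * ((((y.2 : ℤ) * (M / y.1.1 : ℕ) + y.1.2) / M : ℤ) : ℝ) =
        y.2 * (M / y.1.1 : ℕ) + y.1.2 := by
      have h5 := congrArg (Int.cast : ℤ → ℝ) h4
      simpa only [Int.cast_add, Int.cast_mul, Int.cast_natCast] using h5
    have h6 : (M : ℝ) ≠ 0 := by exact_mod_cast hM.ne'
    have h7 : (y.1.1 : ℝ) ≠ 0 := by exact_mod_cast h2.ne'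
    rw [eq_sub_of_add_eq h5, Nat.cast_div h3 h7]
    field_simp
    ring
  rw [sum_congr rfl h1, ← sum_image (f := fun k : ℕ => ‖SS M a (0 + k / M)‖ ^ 2) (g := f)]
  · refine sum_le_sum_of_subset_of_nonneg (image_subset_iff.2 fun y _ => mem_range.2 ?_) fun _ _ _ => by positivity
    have := Int.emod_lt_of_pos ((y.2 : ℤ) * (M / y.1.1 : ℕ) + y.1.2) hM'
    rw [← hf] at this
    exact_mod_cast this
  · rintro ⟨⟨q, t⟩, b⟩ hy ⟨⟨q', t'⟩, b'⟩ hy' e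
    have hy := mem_sigma.1 (mem_coe.1 hy)
    have hy' := mem_sigma.1 (mem_coe.1 hy')
    have e' := congrArg (Nat.cast : ℕ → ℤ) e
    rw [hf, hf] at e'
    obtain ⟨rfl, rfl, rfl⟩ := arcs_inj hy.1 hy'.1 hy.2 hy'.2 (hq _ hy.1).2 (hq _ hy'.1).2
      (Int.ModEq.dvd (Int.ModEq.symm e'))
    rfl

theorem gd_of {M R c : ℕ} {a : ℕ → ℝ} (h : ∀ u, a u ≠ 0 → Sifted 60 c 60 R u) {p : ℕ} (hp : p.Prime) (h5 : 5 < p)
    (hR : p ≤ R) : Gd ((range M).filter fun u => a u ≠ 0) p := by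
  have h1 : ¬ p ∣ 60 := fun h10 => by
    have h11 : p ∣ 2 * 2 * 3 * 5 := h10
    simp only [hp.dvd_mul] at h11
    rcases h11 with ((h11 | h11) | h11) | h11 <;> exact absurd (Nat.le_of_dvd (by norm_num) h11) (by omega)
  obtain ⟨x, y, hxy⟩ := Nat.isCoprime_iff_coprime.2 ((Nat.Prime.coprime_iff_not_dvd hp).2 h1)
  refine ⟨hp, -(y * c), fun u hu e => h u (mem_filter.1 hu).2 p hp (by exact_mod_cast hR) h1 ?_⟩
  obtain ⟨k, hk⟩ := e
  refine Int.natCast_dvd_natCast.1 ⟨60 * k + x * c, ?_⟩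
  push_cast at hxy ⊢
  linear_combination 60 * hk - c * hxy

end LPa

open LPa in
/-- **the arc inequality** -/
theorem lp : LP := by
  intro M R c a D V κ hM hκ hd hs h
  have hS : ∀ x y : ℝ, SS M a (x + y) =
      ∑ u ∈ (range M).filter fun u => a u ≠ 0, (a u : ℂ) * ex (y * u) * ex (x * u) := by
    intro x y
    rw [SS, sum_filter]
    refine sum_congr rfl fun u _ => ?_
    split_ifs with e
    · rw [add_mul, ex_add]
      ring
    · rw [not_not.1 e, Complex.ofReal_zero, zero_mul]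
  refine le_trans ?_ ((mul_le_mul_of_nonneg_left (mass_le hM hd a) hκ).trans (le_of_eq (mul_assoc _ _ _).symm))
  rw [sum_filter, sum_Arcs, sum_Arcs, sum_Arcs, mul_sum, ← sum_add_distrib]
  refine sum_le_sum fun t _ => ?_
  have h1 := arc_le (w := fun u => (a u : ℂ) * ex ((t : ℝ) / M * u)) (fun p hp h5 hR => gd_of (M := M) hs hp h5 hR)
    (D := fun q => D q t) (h · t)
  have h2 := hS 0 (t / M)
  simp only [zero_add, zero_mul, ex_zero, mul_one] at h2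
  simp only [HH_ram, ← hS, ← h2] at h1
  exact h1

end Cfsg.Agent.Depth.S
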